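import Mathlib

set_option autoImplicit false

namespace Cfsg.Agent.Helper2

/-- A concrete model of the field with four elements: `z = 0`, `o = 1`, `w`, `v = w + 1 = w²`. -/
inductive Fld4 : Type
  | z | o | w | v
  deriving DecidableEq

namespace Fld4

instance instFintype : Fintype Fld4 where
  elems := {z, o, w, v}
  complete := by
    intro x
    cases x <;> decide

def add : Fld4 → Fld4 → Fld4
  | z, x => x
  | x, z => x
  | o, o => z
  | o, w => v
  | o, v => w
  | w, o => v
  | w, w => z
  | w, v => o
  | v, o => w
  | v, w => o
  | v, v => z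

def mul : Fld4 → Fld4 → Fld4
  | z, _ => z
  | _, z => z
  | o, x => x
  | x, o => x
  | w, w => v
  | w, v => o
  | v, w => o
  | v, v => w

def inv : Fld4 → Fld4
  | z => z
  | o => o
  | w => v
  | v => w

instance instZero : Zero Fld4 := ⟨z⟩
instance instOne : One Fld4 := ⟨o⟩
instance instAdd : Add Fld4 := ⟨add⟩
instance instMul : Mul Fld4 := ⟨mul⟩
instance instNeg : Neg Fld4 := ⟨id⟩
instance instInv : Inv Fld4 := ⟨inv⟩

instance instCommRing : CommRing Fld4 where
  add_assoc := by decide
  zero_add := by decide
  add_zero := by decide
  nsmul := nsmulRec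
  zsmul := zsmulRec
  neg_add_cancel := by decide
  add_comm := by decide
  left_distrib := by decide
  right_distrib := by decide
  zero_mul := by decide
  mul_zero := by decide
  mul_assoc := by decide
  one_mul := by decide
  mul_one := by decide
  mul_comm := by decide

instance instField : Field Fld4 where
  exists_pair_ne := ⟨z, o, by decide⟩
  mul_inv_cancel := by decide
  inv_zero := rfl
  nnqsmul := _
  nnqsmul_def := fun _ _ => rfl
  qsmul := _
  qsmul_def := fun _ _ => rfl

theorem card_eq : Fintype.card Fld4 = 4 := rfl

end Fld4

end Cfsg.Agent.Helper2
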