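import Mathlib
import Cfsg.Agent.Helper2.Isolated

set_option autoImplicit false

namespace Cfsg.Agent.Helper2

variable {G : Type*} [Group G] [Finite G]

/-- Every involution is conjugate into a given Sylow `2`-subgroup. -/
theorem exists_conj_mem_sylow (P : Sylow 2 G) (t : G) (ht : orderOf t = 2) :
    ∃ g : G, g * t * g⁻¹ ∈ P := by
  have hzp : IsPGroup 2 (Subgroup.zpowers t) := by
    apply IsPGroup.of_card (n := 1)
    rw [Nat.card_zpowers, ht]; rfl
  obtain ⟨Q, hQ⟩ := hzp.exists_le_sylow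
  obtain ⟨g, hg⟩ := MulAction.exists_smul_eq G P Q
  have h1 : t ∈ Q := hQ (Subgroup.mem_zpowers t)
  rw [← hg, mem_sylow_smul_iff] at h1
  exact ⟨g⁻¹, by simpa using h1⟩

/-- An element of the normalizer of a Sylow `2`-subgroup has an odd power inside it. -/
theorem exists_odd_pow_mem_sylow (P : Sylow 2 G) (n : G)
    (hn : n ∈ Subgroup.normalizer ((P : Subgroup G) : Set G)) : ∃ r : ℕ, Odd r ∧ n ^ r ∈ P := by
  have hle : (P : Subgroup G) ≤ Subgroup.normalizer ((P : Subgroup G) : Set G) :=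
    Subgroup.le_normalizer
  have hodd : Odd ((P : Subgroup G).relIndex (Subgroup.normalizer ((P : Subgroup G) : Set G))) := by
    have h1 := Subgroup.relIndex_mul_index hle
    have h2 : ¬ 2 ∣ (P : Subgroup G).index := P.not_dvd_index
    rw [← Nat.not_even_iff_odd]
    intro he
    apply h2
    rw [← h1]
    exact Dvd.dvd.mul_right he.two_dvd _
  refine ⟨_, hodd, ?_⟩
  have hnorm : ((P : Subgroup G).subgroupOf
      (Subgroup.normalizer ((P : Subgroup G) : Set G))).Normal := Subgroup.normal_in_normalizer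
  have h3 : ((⟨n, hn⟩ : Subgroup.normalizer ((P : Subgroup G) : Set G)) :
      Subgroup.normalizer ((P : Subgroup G) : Set G) ⧸
        (P : Subgroup G).subgroupOf (Subgroup.normalizer ((P : Subgroup G) : Set G))) ^
      (P : Subgroup G).relIndex (Subgroup.normalizer ((P : Subgroup G) : Set G)) = 1 := by
    have : (P : Subgroup G).relIndex (Subgroup.normalizer ((P : Subgroup G) : Set G)) =
        Nat.card (Subgroup.normalizer ((P : Subgroup G) : Set G) ⧸
        (P : Subgroup G).subgroupOf (Subgroup.normalizer ((P : Subgroup G) : Set G))) :=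
      Subgroup.index_eq_card _
    rw [this]
    exact pow_card_eq_one'
  rw [← QuotientGroup.mk_pow, QuotientGroup.eq_one_iff] at h3
  exact h3

/-- In a group with Klein four Sylow `2`-subgroup, fusion of two involutions of the Sylow
subgroup forces fusion with the third. -/
theorem klein_fusion (P : Sylow 2 G) [hK : IsKleinFour (P : Subgroup G)] (x y : G) (hx : x ∈ P)
    (hy : y ∈ P) (hx1 : x ≠ 1) (hy1 : y ≠ 1) (hxy : x ≠ y) (hc : IsConj x y) :
    IsConj y (x * y) := by
  have hcomm : IsMulCommutative (P : Subgroup G) := IsKleinFour.isMulCommutative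
  obtain ⟨c, hc⟩ := isConj_iff.mp hc
  have hy' : c⁻¹⁻¹ * x * c⁻¹ ∈ P := by rw [inv_inv, hc]; exact hy
  obtain ⟨n, hn, hn'⟩ := P.conj_eq_normalizer_conj_of_mem x c⁻¹ hx hy'
  rw [inv_inv, hc] at hn'
  -- ν = n⁻¹
  have hν : n⁻¹ ∈ Subgroup.normalizer ((P : Subgroup G) : Set G) := inv_mem hn
  have hνx : n⁻¹ * x * n⁻¹⁻¹ = y := by rw [inv_inv]; exact hn'.symm
  have hzP : n⁻¹ * y * n⁻¹⁻¹ ∈ (P : Subgroup G) :=
    (Subgroup.mem_normalizer_iff.mp hν y).mp hy
  have hz1 : n⁻¹ * y * n⁻¹⁻¹ ≠ 1 := by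
    intro h
    apply hy1
    have : y = n * (n⁻¹ * y * n⁻¹⁻¹) * n⁻¹ := by group
    rw [this, h]; group
  have hzy : n⁻¹ * y * n⁻¹⁻¹ ≠ y := by
    intro h
    apply hxy
    have h2 : n⁻¹ * y * n⁻¹⁻¹ = n⁻¹ * x * n⁻¹⁻¹ := by rw [h, hνx]
    exact (mul_left_cancel (mul_right_cancel h2)).symm
  by_cases hzx : n⁻¹ * y * n⁻¹⁻¹ = x
  · exfalso
    have hpow : ∀ k : ℕ, (n⁻¹) ^ (2 * k) * x * ((n⁻¹) ^ (2 * k))⁻¹ = x ∧
        (n⁻¹) ^ (2 * k + 1) * x * ((n⁻¹) ^ (2 * k + 1))⁻¹ = y := by
      intro k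
      induction k with
      | zero => exact ⟨by simp, by simpa using hνx⟩
      | succ k ih =>
        have e1 : (n⁻¹) ^ (2 * (k + 1)) * x * ((n⁻¹) ^ (2 * (k + 1)))⁻¹ = x := by
          have : 2 * (k + 1) = (2 * k + 1) + 1 := by ring
          rw [this, pow_succ']
          calc n⁻¹ * n⁻¹ ^ (2 * k + 1) * x * (n⁻¹ * n⁻¹ ^ (2 * k + 1))⁻¹
              = n⁻¹ * (n⁻¹ ^ (2 * k + 1) * x * (n⁻¹ ^ (2 * k + 1))⁻¹) * n⁻¹⁻¹ := by group
            _ = x := by rw [ih.2, hzx]
        refine ⟨e1, ?_⟩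
        have : 2 * (k + 1) + 1 = (2 * (k + 1)) + 1 := rfl
        rw [pow_succ']
        calc n⁻¹ * n⁻¹ ^ (2 * (k + 1)) * x * (n⁻¹ * n⁻¹ ^ (2 * (k + 1)))⁻¹
            = n⁻¹ * (n⁻¹ ^ (2 * (k + 1)) * x * (n⁻¹ ^ (2 * (k + 1)))⁻¹) * n⁻¹⁻¹ := by group
          _ = y := by rw [e1, hνx]
    obtain ⟨r, ⟨k, rfl⟩, hr⟩ := exists_odd_pow_mem_sylow P n⁻¹ hν
    have h1 := (hpow k).2
    have h2 : (⟨(n⁻¹) ^ (2 * k + 1), hr⟩ : (P : Subgroup G)) * ⟨x, hx⟩ =
        ⟨x, hx⟩ * ⟨(n⁻¹) ^ (2 * k + 1), hr⟩ := hcomm.is_comm.comm _ _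
    have h3 : (n⁻¹) ^ (2 * k + 1) * x = x * (n⁻¹) ^ (2 * k + 1) := congrArg Subtype.val h2
    apply hxy
    rw [← h1, h3]
    group
  · have hz : (⟨n⁻¹ * y * n⁻¹⁻¹, hzP⟩ : (P : Subgroup G)) = ⟨x, hx⟩ * ⟨y, hy⟩ := by
      apply IsKleinFour.eq_mul_of_ne_all
      · intro h; exact hx1 (congrArg Subtype.val h)
      · intro h; exact hy1 (congrArg Subtype.val h)
      · intro h; exact hxy (congrArg Subtype.val h)
      · intro h; exact hz1 (congrArg Subtype.val h)
      · intro h; exact hzx (congrArg Subtype.val h)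
      · intro h; exact hzy (congrArg Subtype.val h)
    have hz' : n⁻¹ * y * n⁻¹⁻¹ = x * y := congrArg Subtype.val hz
    exact isConj_iff.mpr ⟨n⁻¹, hz'⟩


/-- A Klein four Sylow subgroup contains two distinct non-identity elements. -/
theorem klein_exists_pair (P : Sylow 2 G) [hK : IsKleinFour (P : Subgroup G)] :
    ∃ x y : G, x ∈ P ∧ y ∈ P ∧ x ≠ 1 ∧ y ≠ 1 ∧ x ≠ y := by
  classical
  have := Fintype.ofFinite (P : Subgroup G)
  have hcard : Fintype.card (P : Subgroup G) = 4 := by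
    rw [← Nat.card_eq_fintype_card]; exact hK.card_four
  have h1 : ((Finset.univ : Finset (P : Subgroup G)).erase 1).card = 3 := by
    rw [Finset.card_erase_of_mem (Finset.mem_univ _), Finset.card_univ, hcard]
  obtain ⟨x, hx⟩ := Finset.card_pos.mp (by rw [h1]; norm_num :
    0 < ((Finset.univ : Finset (P : Subgroup G)).erase 1).card)
  have h2 : (((Finset.univ : Finset (P : Subgroup G)).erase 1).erase x).card = 2 := by
    rw [Finset.card_erase_of_mem hx, h1]
  obtain ⟨y, hy⟩ := Finset.card_pos.mp (by rw [h2]; norm_num :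
    0 < (((Finset.univ : Finset (P : Subgroup G)).erase 1).erase x).card)
  rw [Finset.mem_erase] at hx
  rw [Finset.mem_erase, Finset.mem_erase] at hy
  refine ⟨x, y, x.2, y.2, ?_, ?_, ?_⟩
  · intro h; exact hx.1 (Subtype.ext h)
  · intro h; exact hy.2.1 (Subtype.ext h)
  · intro h; exact hy.1 (Subtype.ext h.symm)

theorem klein_mem_cases (P : Sylow 2 G) [hK : IsKleinFour (P : Subgroup G)] (x y : G)
    (hx : x ∈ P) (hy : y ∈ P) (hx1 : x ≠ 1) (hy1 : y ≠ 1) (hxy : x ≠ y) (w : G) (hw : w ∈ P) :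
    w = 1 ∨ w = x ∨ w = y ∨ w = x * y := by
  by_cases h1 : w = 1
  · exact Or.inl h1
  by_cases h2 : w = x
  · exact Or.inr (Or.inl h2)
  by_cases h3 : w = y
  · exact Or.inr (Or.inr (Or.inl h3))
  right; right; right
  have hz : (⟨w, hw⟩ : (P : Subgroup G)) = ⟨x, hx⟩ * ⟨y, hy⟩ := by
    apply IsKleinFour.eq_mul_of_ne_all
    · intro h; exact hx1 (congrArg Subtype.val h)
    · intro h; exact hy1 (congrArg Subtype.val h)
    · intro h; exact hxy (congrArg Subtype.val h)
    · intro h; exact h1 (congrArg Subtype.val h)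
    · intro h; exact h2 (congrArg Subtype.val h)
    · intro h; exact h3 (congrArg Subtype.val h)
  exact congrArg Subtype.val hz

theorem klein_sq (P : Sylow 2 G) [hK : IsKleinFour (P : Subgroup G)] (w : G) (hw : w ∈ P) :
    w * w = 1 := congrArg Subtype.val (IsKleinFour.mul_self (⟨w, hw⟩ : (P : Subgroup G)))

theorem klein_comm (P : Sylow 2 G) [hK : IsKleinFour (P : Subgroup G)] (u v : G) (hu : u ∈ P)
    (hv : v ∈ P) : u * v = v * u := by
  have hcomm : IsMulCommutative (P : Subgroup G) := IsKleinFour.isMulCommutative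
  exact congrArg Subtype.val (hcomm.is_comm.comm (⟨u, hu⟩ : (P : Subgroup G)) ⟨v, hv⟩)

/-- If two distinct involutions of a Klein four Sylow subgroup are fused, then all its
involutions are fused. -/
theorem klein_all_conj (P : Sylow 2 G) [hK : IsKleinFour (P : Subgroup G)] (u v : G)
    (hu : u ∈ P) (hv : v ∈ P) (hu1 : u ≠ 1) (hv1 : v ≠ 1) (huv : u ≠ v) (hc : IsConj u v)
    (a b : G) (ha : a ∈ P) (hb : b ∈ P) (ha1 : a ≠ 1) (hb1 : b ≠ 1) : IsConj a b := by
  have h1 := klein_fusion P u v hu hv hu1 hv1 huv hc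
  have key : ∀ w : G, w ∈ P → w ≠ 1 → IsConj u w := by
    intro w hw hw1
    rcases klein_mem_cases P u v hu hv hu1 hv1 huv w hw with h | h | h | h
    · exact absurd h hw1
    · rw [h]
    · rw [h]; exact hc
    · rw [h]; exact hc.trans h1
  exact (key a ha ha1).symm.trans (key b hb hb1)

theorem klein_class_iff (P : Sylow 2 G) [hK : IsKleinFour (P : Subgroup G)] (x y : G)
    (hx : x ∈ P) (hy : y ∈ P) (hx1 : x ≠ 1) (hy1 : y ≠ 1) (hxy : x ≠ y) (C : ConjClasses G) :
    (∃ t : G, orderOf t = 2 ∧ ConjClasses.mk t = C) ↔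
      C = ConjClasses.mk x ∨ C = ConjClasses.mk y ∨ C = ConjClasses.mk (x * y) := by
  have hxyP : x * y ∈ (P : Subgroup G) := mul_mem hx hy
  have hxy1 : x * y ≠ 1 := by
    intro h
    apply hxy
    have h2 := klein_sq P y hy
    calc x = x * (y * y) := by rw [h2, mul_one]
      _ = (x * y) * y := by group
      _ = y := by rw [h, one_mul]
  constructor
  · rintro ⟨t, ht, rfl⟩
    obtain ⟨g, hg⟩ := exists_conj_mem_sylow P t ht
    have hg1 : g * t * g⁻¹ ≠ 1 := by
      intro h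
      apply ne_one_of_orderOf_two ht
      have : t = g⁻¹ * (g * t * g⁻¹) * g := by group
      rw [this, h]; group
    have hconj : IsConj t (g * t * g⁻¹) := isConj_iff.mpr ⟨g, rfl⟩
    rcases klein_mem_cases P x y hx hy hx1 hy1 hxy _ hg with h | h | h | h
    · exact absurd h hg1
    · left; rw [← h]; exact ConjClasses.mk_eq_mk_iff_isConj.mpr hconj
    · right; left; rw [← h]; exact ConjClasses.mk_eq_mk_iff_isConj.mpr hconj
    · right; right; rw [← h]; exact ConjClasses.mk_eq_mk_iff_isConj.mpr hconj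
  · rintro (rfl | rfl | rfl)
    · exact ⟨x, orderOf_two_of_sq hx1 (klein_sq P x hx), rfl⟩
    · exact ⟨y, orderOf_two_of_sq hy1 (klein_sq P y hy), rfl⟩
    · exact ⟨x * y, orderOf_two_of_sq hxy1 (klein_sq P _ hxyP), rfl⟩

/-- The number of classes of involutions in a group with Klein four Sylow `2`-subgroups. -/
theorem klein_card_classes (P : Sylow 2 G) [hK : IsKleinFour (P : Subgroup G)] (x y : G)
    (hx : x ∈ P) (hy : y ∈ P) (hx1 : x ≠ 1) (hy1 : y ≠ 1) (hxy : x ≠ y) :
    (IsConj x y → Nat.card {C : ConjClasses G // ∃ t : G, orderOf t = 2 ∧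
      ConjClasses.mk t = C} = 1) ∧
    (¬ IsConj x y → Nat.card {C : ConjClasses G // ∃ t : G, orderOf t = 2 ∧
      ConjClasses.mk t = C} = 3) := by
  classical
  have hxyP : x * y ∈ (P : Subgroup G) := mul_mem hx hy
  have hxy1 : x * y ≠ 1 := by
    intro h
    apply hxy
    have h2 := klein_sq P y hy
    calc x = x * (y * y) := by rw [h2, mul_one]
      _ = (x * y) * y := by group
      _ = y := by rw [h, one_mul]
  have hcard : Nat.card {C : ConjClasses G // ∃ t : G, orderOf t = 2 ∧ ConjClasses.mk t = C} =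
      ({ConjClasses.mk x, ConjClasses.mk y, ConjClasses.mk (x * y)} :
        Finset (ConjClasses G)).card := by
    rw [← Nat.card_eq_finsetCard]
    apply Nat.card_congr
    apply Equiv.subtypeEquivRight
    intro C
    rw [klein_class_iff P x y hx hy hx1 hy1 hxy C]
    simp
  constructor
  · intro hc
    have h1 := klein_fusion P x y hx hy hx1 hy1 hxy hc
    rw [hcard, ConjClasses.mk_eq_mk_iff_isConj.mpr hc, ← ConjClasses.mk_eq_mk_iff_isConj.mpr h1]
    simp
  · intro hnc
    have hall : ∀ u v : G, u ∈ P → v ∈ P → u ≠ 1 → v ≠ 1 → u ≠ v → ¬ IsConj u v := by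
      intro u v hu hv hu1 hv1 huv hcon
      exact hnc (klein_all_conj P u v hu hv hu1 hv1 huv hcon x y hx hy hx1 hy1)
    have hx_xy : x ≠ x * y := by
      intro h
      apply hy1
      have : x * 1 = x * y := by rw [mul_one]; exact h
      exact (mul_left_cancel this).symm
    have hy_xy : y ≠ x * y := by
      intro h
      apply hx1
      have : 1 * y = x * y := by rw [one_mul]; exact h
      exact (mul_right_cancel this).symm
    have n1 : ConjClasses.mk x ≠ ConjClasses.mk y := fun h =>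
      hnc (ConjClasses.mk_eq_mk_iff_isConj.mp h)
    have n2 : ConjClasses.mk x ≠ ConjClasses.mk (x * y) := fun h =>
      hall x (x * y) hx hxyP hx1 hxy1 hx_xy (ConjClasses.mk_eq_mk_iff_isConj.mp h)
    have n3 : ConjClasses.mk y ≠ ConjClasses.mk (x * y) := fun h =>
      hall y (x * y) hy hxyP hy1 hxy1 hy_xy (ConjClasses.mk_eq_mk_iff_isConj.mp h)
    rw [hcard, Finset.card_insert_of_notMem, Finset.card_insert_of_notMem,
      Finset.card_singleton]
    · simp [n3]
    · simp [n1, n2]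

end Cfsg.Agent.Helper2
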