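import Mathlib
import Cfsg.Agent.Helper2.L27Data
import Cfsg.Agent.Helper2.SU33Spec
import Cfsg.Agent.Helper2.SLGen
import Cfsg.Agent.Helper2.ExcIso
import Cfsg.Agent.Helper2.LinGroups2

set_option autoImplicit false

namespace Cfsg.Agent.Helper2

open Matrix

instance l27_fact_prime_seven : Fact (Nat.Prime 7) := ⟨by norm_num⟩

/-- The code of an element of `SL₂(7)`. -/
def l27code (g : Matrix.SpecialLinearGroup (Fin 2) (ZMod 7)) : ℕ :=
  (g.1 0 0).val + 7 * (g.1 0 1).val + 49 * (g.1 1 0).val + 343 * (g.1 1 1).val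

theorem l27pack_dg (a b c d : ℕ) (ha : a < 7) (hb : b < 7) (hc : c < 7) (hd : d < 7) :
    l27dg (a + 7 * b + 49 * c + 343 * d) 1 = a ∧ l27dg (a + 7 * b + 49 * c + 343 * d) 7 = b ∧
    l27dg (a + 7 * b + 49 * c + 343 * d) 49 = c ∧ l27dg (a + 7 * b + 49 * c + 343 * d) 343 = d := by
  refine ⟨?_, ?_, ?_, ?_⟩
  · show (a + 7 * b + 49 * c + 343 * d) / 1 % 7 = a
    omega
  · show (a + 7 * b + 49 * c + 343 * d) / 7 % 7 = b
    omega
  · show (a + 7 * b + 49 * c + 343 * d) / 49 % 7 = c
    omega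
  · show (a + 7 * b + 49 * c + 343 * d) / 343 % 7 = d
    omega

theorem l27code_dg (g : Matrix.SpecialLinearGroup (Fin 2) (ZMod 7)) :
    l27dg (l27code g) 1 = (g.1 0 0).val ∧ l27dg (l27code g) 7 = (g.1 0 1).val ∧
    l27dg (l27code g) 49 = (g.1 1 0).val ∧ l27dg (l27code g) 343 = (g.1 1 1).val :=
  l27pack_dg _ _ _ _ (ZMod.val_lt _) (ZMod.val_lt _) (ZMod.val_lt _) (ZMod.val_lt _)

theorem l27code_lt (g : Matrix.SpecialLinearGroup (Fin 2) (ZMod 7)) : l27code g < 2401 := by
  unfold l27code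
  have h1 := ZMod.val_lt (g.1 0 0)
  have h2 := ZMod.val_lt (g.1 0 1)
  have h3 := ZMod.val_lt (g.1 1 0)
  have h4 := ZMod.val_lt (g.1 1 1)
  omega

theorem l27code_valid (g : Matrix.SpecialLinearGroup (Fin 2) (ZMod 7)) :
    l27valid (l27code g) = true := by
  obtain ⟨h1, h2, h3, h4⟩ := l27code_dg g
  unfold l27valid
  rw [h1, h2, h3, h4]
  have hdet : g.1 0 0 * g.1 1 1 - g.1 0 1 * g.1 1 0 = 1 := by
    have h := g.2
    rw [Matrix.det_fin_two] at h
    exact h
  have h6 : (((g.1 0 0).val * (g.1 1 1).val + 6 * ((g.1 0 1).val * (g.1 1 0).val) : ℕ) : ZMod 7)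
      = 1 := by
    push_cast
    rw [ZMod.natCast_zmod_val, ZMod.natCast_zmod_val, ZMod.natCast_zmod_val, ZMod.natCast_zmod_val]
    have h7 : (6 : ZMod 7) = -1 := by decide
    rw [h7]
    linear_combination hdet
  have h8 := congrArg ZMod.val h6
  rw [ZMod.val_natCast] at h8
  have h9 : (1 : ZMod 7).val = 1 := by decide
  rw [h9] at h8
  show Nat.beq (((g.1 0 0).val * (g.1 1 1).val + 6 * ((g.1 0 1).val * (g.1 1 0).val)) % 7) 1 = true
  rw [h8]
  rfl

theorem l27code_inj (g h : Matrix.SpecialLinearGroup (Fin 2) (ZMod 7))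
    (hgh : l27code g = l27code h) : g = h := by
  obtain ⟨a1, a2, a3, a4⟩ := l27code_dg g
  obtain ⟨b1, b2, b3, b4⟩ := l27code_dg h
  rw [hgh] at a1 a2 a3 a4
  apply Subtype.ext
  ext i j
  fin_cases i <;> fin_cases j
  · exact ZMod.val_injective 7 (a1.symm.trans b1)
  · exact ZMod.val_injective 7 (a2.symm.trans b2)
  · exact ZMod.val_injective 7 (a3.symm.trans b3)
  · exact ZMod.val_injective 7 (a4.symm.trans b4)

theorem l27_val_entry (g h : Matrix.SpecialLinearGroup (Fin 2) (ZMod 7)) (i j : Fin 2) :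
    ((g * h).1 i j).val = ((g.1 i 0).val * (h.1 0 j).val + (g.1 i 1).val * (h.1 1 j).val) % 7 := by
  rw [Matrix.SpecialLinearGroup.coe_mul, Matrix.mul_apply, Fin.sum_univ_two, ZMod.val_add,
    ZMod.val_mul, ZMod.val_mul, ← Nat.add_mod]

theorem l27code_mul (g h : Matrix.SpecialLinearGroup (Fin 2) (ZMod 7)) :
    l27code (g * h) = l27mul (l27code g) (l27code h) := by
  obtain ⟨a1, a2, a3, a4⟩ := l27code_dg g
  obtain ⟨b1, b2, b3, b4⟩ := l27code_dg h
  unfold l27mul
  rw [a1, a2, a3, a4, b1, b2, b3, b4]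
  unfold l27code
  rw [l27_val_entry, l27_val_entry, l27_val_entry, l27_val_entry]
  exact (Nat.add_assoc _ _ _).trans (Nat.add_assoc _ _ _)

theorem l27f_c1 (g : Matrix.SpecialLinearGroup (Fin 2) (ZMod 7)) :
    l27c1 (l27f (l27code g)) = true := by
  have h := l27all_spec _ 2401 l27_F1 (l27code g) (l27code_lt g)
  have h' : (!(l27valid (l27code g)) || l27c1 (l27f (l27code g))) = true := h
  rw [l27code_valid g, Bool.not_true, Bool.false_or] at h'
  exact h'

theorem l27f_props (g : Matrix.SpecialLinearGroup (Fin 2) (ZMod 7)) :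
    l27f (l27code g) < 9 ^ 9 ∧ puni9 (l27f (l27code g)) = true ∧
      pdet9 (l27f (l27code g)) = 1 := by
  have h := l27f_c1 g
  unfold l27c1 at h
  rw [Bool.and_eq_true, Bool.and_eq_true] at h
  obtain ⟨⟨h1, h2⟩, h3⟩ := h
  refine ⟨?_, h2, Nat.eq_of_beq_eq_true h3⟩
  have h5 : Nat.succ (l27f (l27code g)) ≤ 387420489 := Nat.le_of_ble_eq_true h1
  have h6 : (9 : ℕ) ^ 9 = 387420489 := by norm_num
  rw [h6]
  exact h5

theorem zmod7_val_one : (1 : ZMod 7).val = 1 := by decide

theorem l27_trans_code01 (h : (0 : Fin 2) ≠ 1) (c : ZMod 7) :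
    l27code (Matrix.SpecialLinearGroup.transvection h c) = 344 + 7 * c.val := by
  unfold l27code
  simp [Matrix.SpecialLinearGroup.transvection, Matrix.transvection, Matrix.single,
    Matrix.add_apply, zmod7_val_one]
  omega

theorem l27_trans_code10 (h : (1 : Fin 2) ≠ 0) (c : ZMod 7) :
    l27code (Matrix.SpecialLinearGroup.transvection h c) = 344 + 49 * c.val := by
  unfold l27code
  simp [Matrix.SpecialLinearGroup.transvection, Matrix.transvection, Matrix.single,
    Matrix.add_apply, zmod7_val_one]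
  omega

theorem l27_trans_code (i j : Fin 2) (hij : i ≠ j) (c : ZMod 7) :
    l27code (Matrix.SpecialLinearGroup.transvection hij c) = 344 + 7 * c.val ∨
      l27code (Matrix.SpecialLinearGroup.transvection hij c) = 344 + 49 * c.val := by
  fin_cases i <;> fin_cases j
  · exact absurd rfl hij
  · exact Or.inl (l27_trans_code01 _ c)
  · exact Or.inr (l27_trans_code10 _ c)
  · exact absurd rfl hij

section F9map

variable {F : Type*} [Field F] [CharP F 3]

/-- The map `SL₂(7) → SU₃(3)` given by the table. -/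
def l27map (i0 : F) (hi : i0 * i0 = -1) (g : Matrix.SpecialLinearGroup (Fin 2) (ZMod 7)) :
    Cfsg.SU 3 F 3 :=
  su9mk i0 hi (l27f (l27code g)) (l27f_props g).2.1 (l27f_props g).2.2

theorem l27map_val (i0 : F) (hi : i0 * i0 = -1) (g : Matrix.SpecialLinearGroup (Fin 2) (ZMod 7)) :
    ((l27map i0 hi g : Cfsg.SU 3 F 3) : Matrix.SpecialLinearGroup (Fin 3) F).1 =
      cdec9 i0 (cnum9 (l27f (l27code g))) := rfl

theorem l27map_mul_trans (i0 : F) (hi : i0 * i0 = -1) (i j : Fin 2) (hij : i ≠ j) (c : ZMod 7)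
    (g : Matrix.SpecialLinearGroup (Fin 2) (ZMod 7)) :
    l27map i0 hi (g * Matrix.SpecialLinearGroup.transvection hij c) =
      l27map i0 hi g * l27map i0 hi (Matrix.SpecialLinearGroup.transvection hij c) := by
  have hF2 := l27all_spec _ 2401 l27_F2 (l27code g) (l27code_lt g)
  have hF2' : (!(l27valid (l27code g)) || l27all (fun c => l27c2 (l27code g)
      (Nat.add 344 (Nat.mul 7 c)) && l27c2 (l27code g) (Nat.add 344 (Nat.mul 49 c))) 7) = true := hF2
  rw [l27code_valid g, Bool.not_true, Bool.false_or] at hF2'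
  have hc := l27all_spec _ 7 hF2' c.val (ZMod.val_lt c)
  have hc' : (l27c2 (l27code g) (Nat.add 344 (Nat.mul 7 c.val)) &&
      l27c2 (l27code g) (Nat.add 344 (Nat.mul 49 c.val))) = true := hc
  rw [Bool.and_eq_true] at hc'
  have key : l27f (l27mul (l27code g) (l27code (Matrix.SpecialLinearGroup.transvection hij c))) =
      pmul9 (l27f (l27code g)) (l27f (l27code (Matrix.SpecialLinearGroup.transvection hij c))) := by
    rcases l27_trans_code i j hij c with h | h
    · rw [h]
      exact Nat.eq_of_beq_eq_true hc'.1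
    · rw [h]
      exact Nat.eq_of_beq_eq_true hc'.2
  apply Subtype.ext
  apply Subtype.ext
  rw [Subgroup.coe_mul, Matrix.SpecialLinearGroup.coe_mul, l27map_val, l27map_val, l27map_val,
    l27code_mul, key, pdec9_mul i0 hi]

theorem l27map_mul (i0 : F) (hi : i0 * i0 = -1) (g h : Matrix.SpecialLinearGroup (Fin 2) (ZMod 7)) :
    l27map i0 hi (g * h) = l27map i0 hi g * l27map i0 hi h := by
  revert g
  refine transvection_induction (fun h => ∀ g, l27map i0 hi (g * h) =
    l27map i0 hi g * l27map i0 hi h) ?_ ?_ h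
  · intro i j hij c g
    exact l27map_mul_trans i0 hi i j hij c g
  · intro A B hA hB g
    rw [← mul_assoc, hB, hA, hB A, mul_assoc]

/-- The homomorphism `SL₂(7) → SU₃(3)`. -/
def l27hom (i0 : F) (hi : i0 * i0 = -1) :
    Matrix.SpecialLinearGroup (Fin 2) (ZMod 7) →* Cfsg.SU 3 F 3 :=
  MonoidHom.mk' (l27map i0 hi) (fun g h => l27map_mul i0 hi g h)

/-- The central element `-1` of `SL₂(7)`. -/
def l27z : Matrix.SpecialLinearGroup (Fin 2) (ZMod 7) :=
  ⟨!![6, 0; 0, 6], by rw [Matrix.det_fin_two_of]; decide⟩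

theorem l27code_one : l27code 1 = 344 := by
  unfold l27code
  simp [zmod7_val_one]

theorem l27code_z : l27code l27z = 2064 := by
  unfold l27code l27z
  simp
  decide

theorem l27map_eq_one_iff (i0 : F) (hi : i0 * i0 = -1)
    (g : Matrix.SpecialLinearGroup (Fin 2) (ZMod 7)) :
    l27map i0 hi g = 1 ↔ g = 1 ∨ g = l27z := by
  constructor
  · intro h
    have hv : cdec9 i0 (cnum9 (l27f (l27code g))) = cdec9 i0 (cnum9 pone9) := by
      rw [pdec9_one, ← l27map_val i0 hi g, h]
      rfl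
    have he := pdec9_inj i0 hi _ _ (l27f_props g).1 (by norm_num [pone9]) hv
    have hF4 := l27all_spec _ 2401 l27_F4 (l27code g) (l27code_lt g)
    have hF4' : (!(l27valid (l27code g)) || !(Nat.beq (l27f (l27code g)) pone9) ||
        Nat.beq (l27code g) 344 || Nat.beq (l27code g) 2064) = true := hF4
    rw [l27code_valid g, he] at hF4'
    have hb : Nat.beq pone9 pone9 = true := by decide
    rw [hb] at hF4'
    simp only [Bool.not_true, Bool.false_or, Bool.or_eq_true] at hF4'
    rcases hF4' with h1 | h1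
    · left
      exact l27code_inj g 1 ((Nat.eq_of_beq_eq_true h1).trans l27code_one.symm)
    · right
      exact l27code_inj g l27z ((Nat.eq_of_beq_eq_true h1).trans l27code_z.symm)
  · rintro (rfl | rfl)
    · apply su9_eq_one
      rw [l27map_val, l27code_one, l27_F3, pdec9_one]
    · apply su9_eq_one
      rw [l27map_val, l27code_z, l27_F5, pdec9_one]

theorem l27z_mem_center :
    l27z ∈ Subgroup.center (Matrix.SpecialLinearGroup (Fin 2) (ZMod 7)) := by
  rw [Subgroup.mem_center_iff]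
  intro h
  apply Subtype.ext
  rw [Matrix.SpecialLinearGroup.coe_mul, Matrix.SpecialLinearGroup.coe_mul]
  ext i j
  fin_cases i <;> fin_cases j <;> simp [l27z, Matrix.mul_apply, Fin.sum_univ_two] <;> ring

theorem l27z_ne_one : l27z ≠ 1 := by
  intro h
  have h2 := congrArg l27code h
  rw [l27code_z, l27code_one] at h2
  exact absurd h2 (by norm_num)

theorem l27_ker (i0 : F) (hi : i0 * i0 = -1) :
    (l27hom i0 hi).ker = Subgroup.center (Matrix.SpecialLinearGroup (Fin 2) (ZMod 7)) := by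
  apply Subgroup.eq_of_le_of_card_ge
  · intro g hg
    rw [MonoidHom.mem_ker] at hg
    rcases (l27map_eq_one_iff i0 hi g).mp hg with rfl | rfl
    · exact Subgroup.one_mem _
    · exact l27z_mem_center
  · have hc : Nat.card (Subgroup.center (Matrix.SpecialLinearGroup (Fin 2) (ZMod 7))) = 2 := by
      have h := card_center_SL (ZMod 7) 2 (by norm_num)
      rw [ZMod.card] at h
      exact h
    rw [hc]
    have hz : l27z ∈ (l27hom i0 hi).ker :=
      (MonoidHom.mem_ker).mpr ((l27map_eq_one_iff i0 hi l27z).mpr (Or.inr rfl))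
    by_contra hlt
    have hpos : 0 < Nat.card (l27hom i0 hi).ker := Nat.card_pos
    have h1' : Nat.card (l27hom i0 hi).ker = 1 := by omega
    have hbot := Subgroup.eq_bot_of_card_eq _ h1'
    rw [hbot, Subgroup.mem_bot] at hz
    exact l27z_ne_one hz

end F9map

/-- `PSU₃(3)` has a subgroup isomorphic to `PSL₂(7)`. -/
theorem psu33_has_psl27 {F : Type*} [Field F] [Fintype F] (hF : Fintype.card F = 9)
    {K : Type*} [Field K] [Fintype K] (hK : Fintype.card K = 7) :
    ∃ H : Subgroup (Cfsg.PSU 3 F 3),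
      Nonempty (H ≃* Matrix.ProjectiveSpecialLinearGroup (Fin 2) K) := by
  classical
  have _hcp := f9_charP hF
  obtain ⟨i0, hi⟩ := f9_sqrt_neg_one hF
  have hc : Subgroup.center (Cfsg.SU 3 F 3) = ⊥ := by
    have h := Cfsg.Agent.Helper15.card_center_SU (K := F) (q := 3) (by rw [hF]; norm_num) 3
      (by norm_num)
    exact Subgroup.eq_bot_of_card_eq _ (by rw [h]; rfl)
  let Φ : Cfsg.PSU 3 F 3 ≃* Cfsg.SU 3 F 3 :=
    (QuotientGroup.quotientMulEquivOfEq hc).trans QuotientGroup.quotientBot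
  let φ := l27hom i0 hi
  let e : ZMod 7 ≃+* K := ZMod.ringEquivOfPrime K (by norm_num) hK
  let e1 : Matrix.ProjectiveSpecialLinearGroup (Fin 2) K ≃*
      Matrix.ProjectiveSpecialLinearGroup (Fin 2) (ZMod 7) := (pslCongr e).symm
  let e2 : Matrix.ProjectiveSpecialLinearGroup (Fin 2) (ZMod 7) ≃*
      (Matrix.SpecialLinearGroup (Fin 2) (ZMod 7)) ⧸ φ.ker :=
    QuotientGroup.quotientMulEquivOfEq (l27_ker i0 hi).symm
  let e3 : (Matrix.SpecialLinearGroup (Fin 2) (ZMod 7)) ⧸ φ.ker ≃* φ.range :=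
    QuotientGroup.quotientKerEquivRange φ
  let e4 : φ.range ≃* (φ.range.map Φ.symm.toMonoidHom) := Φ.symm.subgroupMap φ.range
  exact ⟨φ.range.map Φ.symm.toMonoidHom, ⟨(e1.trans (e2.trans (e3.trans e4))).symm⟩⟩

end Cfsg.Agent.Helper2
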