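import Mathlib
import Cfsg.Agent.Helper2.M21Codes
import Cfsg.Agent.Helper2.U42Pack
import Cfsg.Agent.Helper3.Golay.Perm

set_option autoImplicit false

namespace Cfsg.Agent.Helper2

open Cfsg.Agent.Helper3

/-! Generic facts on packed `3 × 3` matrices and on packed maps of the 24 points. -/

section Ring

variable {R : Type*} [Semiring R]

/-- The `3 × 3` matrix of a packed code, the digits decoded by `dec`. -/
def md3B (dec : ℕ → R) (B a : ℕ) : Matrix (Fin 3) (Fin 3) R :=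
  Matrix.of fun i j => dec (dgB B a (3 * (i : ℕ) + (j : ℕ)))

theorem md3B_apply (dec : ℕ → R) (B a : ℕ) (i j : Fin 3) :
    md3B dec B a i j = dec (dgB B a (3 * (i : ℕ) + (j : ℕ))) := rfl

theorem md3B_inj (dec : ℕ → R) (B : ℕ) (hB : 0 < B)
    (hdec : ∀ x y, x < B → y < B → dec x = dec y → x = y)
    (a b : ℕ) (ha : a < B ^ 9) (hb : b < B ^ 9) (h : md3B dec B a = md3B dec B b) : a = b := by
  apply digitsB_inj B 9 a b ha hb
  intro t ht
  have h3 : t / 3 < 3 := by omega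
  have h4 : t % 3 < 3 := Nat.mod_lt _ (by norm_num)
  have := congrFun (congrFun h ⟨t / 3, h3⟩) ⟨t % 3, h4⟩
  simp only [md3B_apply] at this
  rw [Nat.div_add_mod] at this
  exact hdec _ _ (dgB_lt _ _ _ hB) (dgB_lt _ _ _ hB) this

/-- One entry of the product. -/
def entG3 (ent : ℕ → ℕ → ℕ → ℕ → ℕ → ℕ → ℕ) (B a b i j : ℕ) : ℕ :=
  ent (dgB B a (3 * i)) (dgB B a (3 * i + 1)) (dgB B a (3 * i + 2))
    (dgB B b j) (dgB B b (3 + j)) (dgB B b (6 + j))

theorem pmulB3_eq (ent : ℕ → ℕ → ℕ → ℕ → ℕ → ℕ → ℕ) (B a b : ℕ) :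
    pmulB3 ent B a b = pkB (fun t => entG3 ent B a b (t / 3) (t % 3)) B 9 0 := rfl

theorem md3B_pmulB3 (dec : ℕ → R) (B : ℕ) (hB : 0 < B)
    (ent : ℕ → ℕ → ℕ → ℕ → ℕ → ℕ → ℕ)
    (hent : ∀ a0 a1 a2 b0 b1 b2, a0 < B → a1 < B → a2 < B → b0 < B → b1 < B →
      b2 < B → ent a0 a1 a2 b0 b1 b2 < B ∧
      dec (ent a0 a1 a2 b0 b1 b2) = dec a0 * dec b0 + dec a1 * dec b1 + dec a2 * dec b2)
    (a b : ℕ) : md3B dec B (pmulB3 ent B a b) = md3B dec B a * md3B dec B b := by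
  have hd : ∀ x t, dgB B x t < B := fun x t => dgB_lt B x t hB
  have hlt : ∀ s, (fun t => entG3 ent B a b (t / 3) (t % 3)) s < B := by
    intro s
    exact (hent _ _ _ _ _ _ (hd _ _) (hd _ _) (hd _ _) (hd _ _) (hd _ _) (hd _ _)).1
  ext i j
  have hi := i.isLt
  have hj := j.isLt
  have e1 : (0 + (3 * (i : ℕ) + (j : ℕ))) / 3 = i := by omega
  have e2 : (0 + (3 * (i : ℕ) + (j : ℕ))) % 3 = j := by omega
  have h0 : ((0 : Fin 3) : ℕ) = 0 := rfl
  have h1 : ((1 : Fin 3) : ℕ) = 1 := rfl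
  have h2 : ((2 : Fin 3) : ℕ) = 2 := rfl
  rw [Matrix.mul_apply, Fin.sum_univ_three]
  simp only [md3B_apply]
  rw [pmulB3_eq, dgB_pkB _ B hlt 9 0 _ (by omega)]
  simp only [e1, e2]
  unfold entG3
  rw [(hent _ _ _ _ _ _ (hd _ _) (hd _ _) (hd _ _) (hd _ _) (hd _ _) (hd _ _)).2, h0, h1, h2]
  norm_num

theorem md3B_scalar (dec : ℕ → R) (B k c : ℕ) (h0 : dec 0 = 0)
    (hc : ∀ t, t < 9 → dgB B k t = if t / 3 = t % 3 then c else 0) (i j : Fin 3) :
    md3B dec B k i j = if i = j then dec c else 0 := by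
  have hi := i.isLt
  have hj := j.isLt
  have e1 : (3 * (i : ℕ) + (j : ℕ)) / 3 = i := by omega
  have e2 : (3 * (i : ℕ) + (j : ℕ)) % 3 = j := by omega
  rw [md3B_apply, hc _ (by omega), e1, e2]
  by_cases hij : i = j
  · subst hij
    simp
  · have hne : (i : ℕ) ≠ (j : ℕ) := fun h => hij (Fin.ext h)
    simp [hne, hij, h0]

end Ring

/-- The map of the 24 points with table `T` (5 bits per point). -/
def fdec (T : ℕ) : Function.End Cfsg.GolayPt := fun p => gPt (dgB 32 T (gIdx p))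

theorem fdec_apply (T : ℕ) (p : Cfsg.GolayPt) : fdec T p = gPt (dgB 32 T (gIdx p)) := rfl

theorem dgB_pcomp (T U i : ℕ) (hi : i < 24) :
    dgB 32 (pcomp T U) i = dgB 32 T (dgB 32 U i) := by
  unfold pcomp
  rw [dgB_pkB _ 32 (fun s => dgB_lt _ _ _ (by norm_num)) 24 0 _ hi, zero_add]

theorem fdec_pcomp (T U : ℕ) (hU : ∀ i, i < 24 → dgB 32 U i < 24) :
    fdec (pcomp T U) = fdec T * fdec U := by
  funext p
  show gPt (dgB 32 (pcomp T U) (gIdx p)) = gPt (dgB 32 T (gIdx (gPt (dgB 32 U (gIdx p)))))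
  have hp := gIdx_lt p
  rw [gIdx_gPt (hU _ hp), dgB_pcomp T U _ hp]

/-- The permutation of the 24 points with table `T` and inverse table `T'`. -/
def permOfTab (T T' : ℕ) (h1 : ∀ i, i < 24 → dgB 32 T i < 24)
    (h2 : ∀ i, i < 24 → dgB 32 T' i < 24) (h3 : ∀ i, i < 24 → dgB 32 T' (dgB 32 T i) = i)
    (h4 : ∀ i, i < 24 → dgB 32 T (dgB 32 T' i) = i) : Equiv.Perm Cfsg.GolayPt where
  toFun := fdec T
  invFun := fdec T'
  left_inv := by
    intro p
    show gPt (dgB 32 T' (gIdx (gPt (dgB 32 T (gIdx p))))) = p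
    rw [gIdx_gPt (h1 _ (gIdx_lt p)), h3 _ (gIdx_lt p), gPt_gIdx]
  right_inv := by
    intro p
    show gPt (dgB 32 T (gIdx (gPt (dgB 32 T' (gIdx p))))) = p
    rw [gIdx_gPt (h2 _ (gIdx_lt p)), h4 _ (gIdx_lt p), gPt_gIdx]

theorem permOfTab_coe (T T' : ℕ) (h1 : ∀ i, i < 24 → dgB 32 T i < 24)
    (h2 : ∀ i, i < 24 → dgB 32 T' i < 24) (h3 : ∀ i, i < 24 → dgB 32 T' (dgB 32 T i) = i)
    (h4 : ∀ i, i < 24 → dgB 32 T (dgB 32 T' i) = i) (p : Cfsg.GolayPt) :
    permOfTab T T' h1 h2 h3 h4 p = fdec T p := rfl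

theorem permOfTab_rep (T T' : ℕ) (h1 : ∀ i, i < 24 → dgB 32 T i < 24)
    (h2 : ∀ i, i < 24 → dgB 32 T' i < 24) (h3 : ∀ i, i < 24 → dgB 32 T' (dgB 32 T i) = i)
    (h4 : ∀ i, i < 24 → dgB 32 T (dgB 32 T' i) = i) :
    RepF (fun i => dgB 32 T i) (permOfTab T T' h1 h2 h3 h4) := by
  intro p
  show gIdx (gPt (dgB 32 T (gIdx p))) = dgB 32 T (gIdx p)
  exact gIdx_gPt (h1 _ (gIdx_lt p))

/-- Induction along a table of right multiples reached from the root. -/
theorem table_ind (N root : ℕ) (P : ℕ → Prop) (nA nB par dep : ℕ → ℕ) (h1 : P root)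
    (hA : ∀ i, i < N → P i → P (nA i)) (hB : ∀ i, i < N → P i → P (nB i))
    (hpar : ∀ i, i < N → i ≠ root → par i < N ∧ dep (par i) < dep i ∧
      (nA (par i) = i ∨ nB (par i) = i)) :
    ∀ i, i < N → P i := by
  have key : ∀ d i, i < N → dep i = d → P i := by
    intro d
    induction d using Nat.strong_induction_on with
    | _ d ih =>
      intro i hi hd
      by_cases hr : i = root
      · rw [hr]
        exact h1
      · obtain ⟨hp, hdp, h⟩ := hpar i hi hr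
        have hpmem := ih (dep (par i)) (hd ▸ hdp) (par i) hp rfl
        rcases h with h | h
        · have := hA (par i) hp hpmem
          rwa [h] at this
        · have := hB (par i) hp hpmem
          rwa [h] at this
  intro i hi
  exact key _ i hi rfl

end Cfsg.Agent.Helper2
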