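import Mathlib

set_option autoImplicit false

namespace Cfsg.Agent.Helper2

/-- The entries of a table of right multiples by two elements of a submonoid, reached from the
identity, lie in the submonoid. -/
theorem table_mem {M : Type*} [Monoid M] (S : Submonoid M) (N root : ℕ) (E : ℕ → M)
    (nA nB par dep : ℕ → ℕ) (A B : M) (hA' : A ∈ S) (hB' : B ∈ S) (hE1 : E root = 1)
    (hA : ∀ i, i < N → E (nA i) = E i * A) (hB : ∀ i, i < N → E (nB i) = E i * B)
    (hpar : ∀ i, i < N → i ≠ root → par i < N ∧ dep (par i) < dep i ∧
      (nA (par i) = i ∨ nB (par i) = i)) :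
    ∀ i, i < N → E i ∈ S := by
  have key : ∀ d i, i < N → dep i = d → E i ∈ S := by
    intro d
    induction d using Nat.strong_induction_on with
    | _ d ih =>
      intro i hi hd
      by_cases hr : i = root
      · rw [hr, hE1]
        exact one_mem _
      · obtain ⟨hp, hdp, h⟩ := hpar i hi hr
        have hpmem := ih (dep (par i)) (hd ▸ hdp) (par i) hp rfl
        rcases h with h | h
        · have := hA (par i) hp
          rw [h] at this
          rw [this]
          exact mul_mem hpmem hA'
        · have := hB (par i) hp
          rw [h] at this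
          rw [this]
          exact mul_mem hpmem hB'
  intro i hi
  exact key _ i hi rfl

/-- A table of the right multiples by two generators in a group, with images in a monoid
multiplying in the same way, defines a homomorphism. -/
theorem table_hom {G H : Type*} [Group G] [Monoid H] (N root : ℕ)
    (el : ℕ → G) (im : ℕ → H) (nA nB par dep : ℕ → ℕ) (a' b' : G) (a b : H)
    (hsurj : ∀ g : G, ∃ i, i < N ∧ el i = g)
    (hinj : ∀ i j, i < N → j < N → el i = el j → i = j)
    (hroot : root < N) (hel1 : el root = 1) (him1 : im root = 1)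
    (hA : ∀ i, i < N → nA i < N ∧ el (nA i) = el i * a' ∧ im (nA i) = im i * a)
    (hB : ∀ i, i < N → nB i < N ∧ el (nB i) = el i * b' ∧ im (nB i) = im i * b)
    (hpar : ∀ i, i < N → i ≠ root → par i < N ∧ dep (par i) < dep i ∧
      (nA (par i) = i ∨ nB (par i) = i)) :
    ∃ φ : G →* H, (∀ i, i < N → φ (el i) = im i) ∧ φ a' = a ∧ φ b' = b ∧
      (∀ g : G, g ∈ Submonoid.closure ({a', b'} : Set G)) := by
  classical
  choose idx hidx using hsurj
  have hidx_el : ∀ i, i < N → idx (el i) = i :=
    fun i hi => hinj _ _ (hidx (el i)).1 hi (hidx (el i)).2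
  have hφel : ∀ i, i < N → im (idx (el i)) = im i := by
    intro i hi
    rw [hidx_el i hi]
  have hφ1 : im (idx 1) = 1 := by
    rw [← hel1, hφel root hroot, him1]
  have hφa : ∀ x, im (idx (x * a')) = im (idx x) * a := by
    intro x
    obtain ⟨hi, hx⟩ := hidx x
    have h := hA (idx x) hi
    rw [hx] at h
    rw [← h.2.1, hφel _ h.1, h.2.2]
  have hφb : ∀ x, im (idx (x * b')) = im (idx x) * b := by
    intro x
    obtain ⟨hi, hx⟩ := hidx x
    have h := hB (idx x) hi
    rw [hx] at h
    rw [← h.2.1, hφel _ h.1, h.2.2]
  have ha : im (idx a') = a := by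
    have := hφa 1
    rwa [one_mul, hφ1, one_mul] at this
  have hb : im (idx b') = b := by
    have := hφb 1
    rwa [one_mul, hφ1, one_mul] at this
  have hgen : ∀ g : G, g ∈ Submonoid.closure ({a', b'} : Set G) := by
    have hmem := table_mem (Submonoid.closure ({a', b'} : Set G)) N root el nA nB par dep a' b'
      (Submonoid.subset_closure (by simp)) (Submonoid.subset_closure (by simp)) hel1
      (fun i hi => (hA i hi).2.1) (fun i hi => (hB i hi).2.1) hpar
    intro g
    obtain ⟨hi, hg⟩ := hidx g
    rw [← hg]
    exact hmem _ hi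
  let T : Submonoid G :=
    { carrier := {y | ∀ x, im (idx (x * y)) = im (idx x) * im (idx y)}
      one_mem' := by
        intro x
        rw [mul_one, hφ1, mul_one]
      mul_mem' := by
        intro y z hy hz x
        rw [← mul_assoc, hz (x * y), hy x, hz y, mul_assoc] }
  have hT : ∀ y x, im (idx (x * y)) = im (idx x) * im (idx y) := by
    intro y
    have hle : Submonoid.closure ({a', b'} : Set G) ≤ T := by
      rw [Submonoid.closure_le]
      intro y hy
      rcases hy with rfl | rfl
      · intro x
        rw [hφa, ha]
      · intro x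
        rw [hφb, hb]
    exact hle (hgen y)
  exact ⟨{ toFun := fun g => im (idx g), map_one' := hφ1, map_mul' := fun x y => hT y x },
    hφel, ha, hb, hgen⟩

end Cfsg.Agent.Helper2
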