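import Mathlib
import Cfsg.Agent.Helper2.U42Pack
import Cfsg.Agent.Helper2.F9Codes
import Cfsg.Agent.Helper2.U34Codes
import Cfsg.Agent.Helper15.SUCard

set_option autoImplicit false

namespace Cfsg.Agent.Helper2

/-! The packed matrices over a field with 3 elements (in `Sp₄`) and over a field with 4 elements
(in `SU₄`). -/

section F3

variable (K : Type*) [Field K]

theorem ent3_spec [CharP K 3] (a0 a1 a2 a3 b0 b1 b2 b3 : ℕ) :
    ent3 a0 a1 a2 a3 b0 b1 b2 b3 < 3 ∧ ((ent3 a0 a1 a2 a3 b0 b1 b2 b3 : ℕ) : K) =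
      (a0 : K) * b0 + a1 * b1 + a2 * b2 + a3 * b3 := by
  have h : ent3 a0 a1 a2 a3 b0 b1 b2 b3 = (a0 * b0 + a1 * b1 + a2 * b2 + a3 * b3) % 3 := rfl
  rw [h]
  refine ⟨Nat.mod_lt _ (by norm_num), ?_⟩
  rw [cast_mod3]
  push_cast
  ring

/-- The `4 × 4` matrix of a code in base 3. -/
def md3 (a : ℕ) : Matrix (Fin 4) (Fin 4) K := mdB (fun n : ℕ => (n : K)) 3 a

theorem md3_mul [CharP K 3] (a b : ℕ) : md3 K (pmul3 a b) = md3 K a * md3 K b :=
  mdB_pmulB _ 3 (by norm_num) ent3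
    (fun a0 a1 a2 a3 b0 b1 b2 b3 _ _ _ _ _ _ _ _ => ent3_spec K a0 a1 a2 a3 b0 b1 b2 b3) a b

theorem md3_inj [CharP K 3] (a b : ℕ) (ha : a < 43046721) (hb : b < 43046721)
    (h : md3 K a = md3 K b) : a = b :=
  mdB_inj _ 3 (by norm_num)
    (fun x y hx hy hxy => CharP.natCast_injOn_Iio K 3 hx hy hxy) a b
    (lt_of_lt_of_eq ha (by norm_num)) (lt_of_lt_of_eq hb (by norm_num)) h

theorem one3_digits : ∀ t, t < 16 → dgB 3 14408200 t = if t / 4 = t % 4 then 1 else 0 := by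
  decide +kernel

theorem md3_one : md3 K 14408200 = 1 :=
  mdB_one _ 3 _ Nat.cast_zero Nat.cast_one one3_digits

/-- The index bijection for the blocks. -/
def e4 : Fin 2 ⊕ Fin 2 ≃ Fin 4 := finSumFinEquiv

/-- The matrix of a code, indexed as in the symplectic group. -/
def sp3 (a : ℕ) : Matrix (Fin 2 ⊕ Fin 2) (Fin 2 ⊕ Fin 2) K := (md3 K a).submatrix e4 e4

theorem sp3_mul [CharP K 3] (a b : ℕ) : sp3 K (pmul3 a b) = sp3 K a * sp3 K b := by
  unfold sp3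
  rw [md3_mul, Matrix.submatrix_mul_equiv]

theorem sp3_one : sp3 K 14408200 = 1 := by
  unfold sp3
  rw [md3_one]
  exact Matrix.submatrix_one_equiv e4

theorem sp3_inj [CharP K 3] (a b : ℕ) (ha : a < 43046721) (hb : b < 43046721)
    (h : sp3 K a = sp3 K b) : a = b := by
  apply md3_inj K a b ha hb
  ext i j
  have := congrFun (congrFun h (e4.symm i)) (e4.symm j)
  simpa [sp3] using this

theorem sp3_tr (a : ℕ) : sp3 K (ptrB 3 a) = (sp3 K a).transpose := by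
  unfold sp3 md3
  rw [mdB_ptrB _ 3 (by norm_num)]
  rfl

/-- The entries of the code of `J`. -/
def jc : Fin 2 ⊕ Fin 2 → Fin 2 ⊕ Fin 2 → ℕ
  | Sum.inl a, Sum.inr b => if a = b then 2 else 0
  | Sum.inr a, Sum.inl b => if a = b then 1 else 0
  | _, _ => 0

theorem j3_digits (i j : Fin 2 ⊕ Fin 2) :
    dgB 3 1605276 (4 * ((e4 i : Fin 4) : ℕ) + ((e4 j : Fin 4) : ℕ)) = jc i j := by
  rcases i with i | i <;> rcases j with j | j <;> fin_cases i <;> fin_cases j <;> rfl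

theorem sp3_J [CharP K 3] : sp3 K 1605276 = Matrix.J (Fin 2) K := by
  have h3 : (3 : K) = 0 := three_eq_zero
  ext i j
  have h : sp3 K 1605276 i j = ((jc i j : ℕ) : K) := by
    unfold sp3 md3
    rw [Matrix.submatrix_apply, mdB_apply, j3_digits]
  rw [h]
  rcases i with i | i <;> rcases j with j | j
  · simp [jc, Matrix.J]
  · simp only [jc, Matrix.J, Matrix.fromBlocks_apply₁₂, Matrix.neg_apply, Matrix.one_apply]
    split_ifs
    · push_cast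
      linear_combination h3
    · simp
  · simp only [jc, Matrix.J, Matrix.fromBlocks_apply₂₁, Matrix.one_apply]
    split_ifs <;> simp
  · simp [jc, Matrix.J]

theorem sp3_mem [CharP K 3] (a : ℕ) (h : pmul3 (pmul3 a 1605276) (ptrB 3 a) = 1605276) :
    sp3 K a ∈ Matrix.symplecticGroup (Fin 2) K := by
  rw [SymplecticGroup.mem_iff, ← sp3_J, ← sp3_tr, ← sp3_mul, ← sp3_mul, h]

end F3

section F4

variable {F : Type*} [Field F]

def fadd4 (e f : ℕ) : ℕ := (e % 2 + f % 2) % 2 + 2 * ((e / 2 % 2 + f / 2 % 2) % 2)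

def fmul4 (e f : ℕ) : ℕ :=
  ((e % 2) * (f % 2) + (e / 2 % 2) * (f / 2 % 2)) % 2 +
    2 * (((e % 2) * (f / 2 % 2) + (e / 2 % 2) * (f % 2) + (e / 2 % 2) * (f / 2 % 2)) % 2)

/-- Decoding a code of `F₄`. -/
def dec4 (w : F) (e : ℕ) : F := ((e % 2 : ℕ) : F) + ((e / 2 % 2 : ℕ) : F) * w

theorem bits2 (x0 x1 : ℕ) (h0 : x0 < 2) (h1 : x1 < 2) :
    (x0 + 2 * x1) % 2 = x0 ∧ (x0 + 2 * x1) / 2 % 2 = x1 ∧ x0 + 2 * x1 < 4 := by
  refine ⟨?_, ?_, ?_⟩ <;> omega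

theorem fadd4_lt (e f : ℕ) : fadd4 e f < 4 :=
  (bits2 _ _ (Nat.mod_lt _ (by norm_num)) (Nat.mod_lt _ (by norm_num))).2.2

theorem fmul4_lt (e f : ℕ) : fmul4 e f < 4 :=
  (bits2 _ _ (Nat.mod_lt _ (by norm_num)) (Nat.mod_lt _ (by norm_num))).2.2

theorem dec4_add [CharP F 2] (w : F) (e f : ℕ) :
    dec4 w (fadd4 e f) = dec4 w e + dec4 w f := by
  obtain ⟨h0, h1, -⟩ := bits2 ((e % 2 + f % 2) % 2) ((e / 2 % 2 + f / 2 % 2) % 2)
    (Nat.mod_lt _ (by norm_num)) (Nat.mod_lt _ (by norm_num))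
  have e1 : dec4 w (fadd4 e f) = (((e % 2 + f % 2) % 2 : ℕ) : F) +
      (((e / 2 % 2 + f / 2 % 2) % 2 : ℕ) : F) * w := by
    unfold dec4 fadd4
    rw [h0, h1]
  rw [e1, cast_mod2, cast_mod2]
  unfold dec4
  push_cast
  ring

theorem dec4_mul [CharP F 2] (w : F) (hw : w ^ 2 = w + 1) (e f : ℕ) :
    dec4 w (fmul4 e f) = dec4 w e * dec4 w f := by
  obtain ⟨h0, h1, -⟩ := bits2 (((e % 2) * (f % 2) + (e / 2 % 2) * (f / 2 % 2)) % 2)
    (((e % 2) * (f / 2 % 2) + (e / 2 % 2) * (f % 2) + (e / 2 % 2) * (f / 2 % 2)) % 2)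
    (Nat.mod_lt _ (by norm_num)) (Nat.mod_lt _ (by norm_num))
  have e1 : dec4 w (fmul4 e f) =
      ((((e % 2) * (f % 2) + (e / 2 % 2) * (f / 2 % 2)) % 2 : ℕ) : F) +
      ((((e % 2) * (f / 2 % 2) + (e / 2 % 2) * (f % 2) + (e / 2 % 2) * (f / 2 % 2)) % 2 : ℕ) : F)
        * w := by
    unfold dec4 fmul4
    rw [h0, h1]
  rw [e1, cast_mod2, cast_mod2]
  unfold dec4
  push_cast
  linear_combination (-(((e / 2 % 2 : ℕ) : F) * ((f / 2 % 2 : ℕ) : F))) * hw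

theorem dec4_zero (w : F) : dec4 w 0 = 0 := by simp [dec4]

theorem dec4_one (w : F) : dec4 w 1 = 1 := by simp [dec4]

theorem f4_inv_chk : ∀ a, a < 4 → a = 0 ∨ ∃ b, b < 4 ∧ fmul4 a b = 1 := by decide

theorem f4_add_chk : ∀ e, e < 4 → ∀ f, f < 4 → fadd4 e f = 0 → e = f := by decide

theorem dec4_inj [CharP F 2] (w : F) (hw : w ^ 2 = w + 1) (e f : ℕ) (he : e < 4) (hf : f < 4)
    (h : dec4 w e = dec4 w f) : e = f := by
  have h2 : (2 : F) = 0 := two_eq_zero16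
  have h1 : dec4 w (fadd4 e f) = 0 := by
    rw [dec4_add, h]
    linear_combination (dec4 w f) * h2
  apply f4_add_chk e he f hf
  rcases f4_inv_chk _ (fadd4_lt e f) with h0 | ⟨b, -, hb⟩
  · exact h0
  · exfalso
    have := dec4_mul w hw (fadd4 e f) b
    rw [hb, dec4_one, h1, zero_mul] at this
    exact one_ne_zero this

theorem tmul4_eq : ∀ x, x < 4 → ∀ y, y < 4 → tmul4 x y = fmul4 x y := by decide

theorem xor4_eq : ∀ x, x < 4 → ∀ y, y < 4 → Nat.xor x y = fadd4 x y := by decide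

theorem ent4_spec [CharP F 2] (w : F) (hw : w ^ 2 = w + 1) (a0 a1 a2 a3 b0 b1 b2 b3 : ℕ)
    (ha0 : a0 < 4) (ha1 : a1 < 4) (ha2 : a2 < 4) (ha3 : a3 < 4) (hb0 : b0 < 4) (hb1 : b1 < 4)
    (hb2 : b2 < 4) (hb3 : b3 < 4) :
    ent4 a0 a1 a2 a3 b0 b1 b2 b3 < 4 ∧ dec4 w (ent4 a0 a1 a2 a3 b0 b1 b2 b3) =
      dec4 w a0 * dec4 w b0 + dec4 w a1 * dec4 w b1 + dec4 w a2 * dec4 w b2 +
        dec4 w a3 * dec4 w b3 := by
  have h : ent4 a0 a1 a2 a3 b0 b1 b2 b3 =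
      fadd4 (fadd4 (fadd4 (fmul4 a0 b0) (fmul4 a1 b1)) (fmul4 a2 b2)) (fmul4 a3 b3) := by
    unfold ent4
    rw [tmul4_eq a0 ha0 b0 hb0, tmul4_eq a1 ha1 b1 hb1, tmul4_eq a2 ha2 b2 hb2,
      tmul4_eq a3 ha3 b3 hb3, xor4_eq _ (fmul4_lt _ _) _ (fmul4_lt _ _),
      xor4_eq _ (fadd4_lt _ _) _ (fmul4_lt _ _), xor4_eq _ (fadd4_lt _ _) _ (fmul4_lt _ _)]
  rw [h]
  refine ⟨fadd4_lt _ _, ?_⟩
  rw [dec4_add, dec4_add, dec4_add, dec4_mul w hw, dec4_mul w hw, dec4_mul w hw, dec4_mul w hw]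

/-- The `4 × 4` matrix of a code in base 4. -/
def md4 (w : F) (a : ℕ) : Matrix (Fin 4) (Fin 4) F := mdB (dec4 w) 4 a

theorem md4_mul [CharP F 2] (w : F) (hw : w ^ 2 = w + 1) (a b : ℕ) :
    md4 w (pmul4 a b) = md4 w a * md4 w b :=
  mdB_pmulB _ 4 (by norm_num) ent4 (ent4_spec w hw) a b

theorem md4_inj [CharP F 2] (w : F) (hw : w ^ 2 = w + 1) (a b : ℕ) (ha : a < 4294967296)
    (hb : b < 4294967296) (h : md4 w a = md4 w b) : a = b :=
  mdB_inj _ 4 (by norm_num) (dec4_inj w hw) a b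
    (lt_of_lt_of_eq ha (by norm_num)) (lt_of_lt_of_eq hb (by norm_num)) h

theorem one4_digits : ∀ t, t < 16 → dgB 4 1074791425 t = if t / 4 = t % 4 then 1 else 0 := by
  decide +kernel

theorem md4_one (w : F) : md4 w 1074791425 = 1 :=
  mdB_one _ 4 _ (dec4_zero w) (dec4_one w) one4_digits

/-- The entrywise square of a packed matrix. -/
def pconj4 (a : ℕ) : ℕ := pmapB (fun e => tmul4 e e) 4 a

theorem md4_unitary [CharP F 2] (w : F) (hw : w ^ 2 = w + 1) (m : ℕ)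
    (h : pmul4 (ptrB 4 m) (pconj4 m) = 1074791425) (j k : Fin 4) :
    ∑ i, md4 w m i j * (md4 w m i k) ^ 2 = if j = k then 1 else 0 := by
  have h1 : md4 w (ptrB 4 m) * md4 w (pconj4 m) = 1 := by
    rw [← md4_mul w hw, h, md4_one]
  have h2 := congrFun (congrFun h1 j) k
  rw [Matrix.mul_apply, Matrix.one_apply] at h2
  rw [← h2]
  apply Finset.sum_congr rfl
  intro i _
  have hg : ∀ x, x < 4 → (fun e => tmul4 e e) x < 4 := by
    intro x hx
    show tmul4 x x < 4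
    rw [tmul4_eq x hx x hx]
    exact fmul4_lt _ _
  have hd : dgB 4 m (4 * (i : ℕ) + (k : ℕ)) < 4 := dgB_lt _ _ _ (by norm_num)
  have e1 : md4 w (ptrB 4 m) j i = md4 w m i j := by
    unfold md4
    rw [mdB_ptrB _ 4 (by norm_num), Matrix.transpose_apply]
  have e2 : md4 w (pconj4 m) i k = md4 w m i k ^ 2 := by
    unfold md4 pconj4
    rw [mdB_pmapB _ 4 (by norm_num) _ hg, mdB_apply]
    show dec4 w (tmul4 _ _) = _
    rw [tmul4_eq _ hd _ hd, dec4_mul w hw, pow_two]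
  rw [e1, e2]

/-- A `4 × 4` matrix of determinant one with orthonormal columns lies in `SU₄(2)`. -/
theorem su4_of_unitary [CharP F 2] (M : Matrix (Fin 4) (Fin 4) F) (hdet : M.det = 1)
    (hU : ∀ j k : Fin 4, ∑ i, M i j * (M i k) ^ 2 = if j = k then 1 else 0) :
    (⟨M, hdet⟩ : Matrix.SpecialLinearGroup (Fin 4) F) ∈ Cfsg.SU 4 F 2 := by
  have hF2 : (2 : F) = 0 := two_eq_zero16
  have h4 : ∀ x y : F, (x + y) ^ 2 = x ^ 2 + y ^ 2 := by
    intro x y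
    linear_combination (x * y) * hF2
  refine (Cfsg.Agent.Helper15.mem_SU_iff 4 2
    (⟨M, hdet⟩ : Matrix.SpecialLinearGroup (Fin 4) F)).mpr ?_
  intro u v
  change Cfsg.hermForm 4 F 2 (M.mulVec u) (M.mulVec v) = Cfsg.hermForm 4 F 2 u v
  unfold Cfsg.hermForm
  simp only [Matrix.mulVec, dotProduct, Fin.sum_univ_four]
  have h00 := hU 0 0
  have h01 := hU 0 1
  have h02 := hU 0 2
  have h03 := hU 0 3
  have h10 := hU 1 0
  have h11 := hU 1 1
  have h12 := hU 1 2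
  have h13 := hU 1 3
  have h20 := hU 2 0
  have h21 := hU 2 1
  have h22 := hU 2 2
  have h23 := hU 2 3
  have h30 := hU 3 0
  have h31 := hU 3 1
  have h32 := hU 3 2
  have h33 := hU 3 3
  rw [if_pos rfl] at h00 h11 h22 h33
  rw [if_neg (by decide)] at h01 h02 h03 h10 h12 h13 h20 h21 h23 h30 h31 h32
  simp only [Fin.sum_univ_four] at h00 h01 h02 h03 h10 h11 h12 h13 h20 h21 h22 h23 h30 h31 h32 h33
  simp only [h4, mul_pow]
  linear_combination (u 0 * v 0 ^ 2) * h00 + (u 0 * v 1 ^ 2) * h01 + (u 0 * v 2 ^ 2) * h02 + (u 0 * v 3 ^ 2) * h03 +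
    (u 1 * v 0 ^ 2) * h10 + (u 1 * v 1 ^ 2) * h11 + (u 1 * v 2 ^ 2) * h12 + (u 1 * v 3 ^ 2) * h13 +
    (u 2 * v 0 ^ 2) * h20 + (u 2 * v 1 ^ 2) * h21 + (u 2 * v 2 ^ 2) * h22 + (u 2 * v 3 ^ 2) * h23 +
    (u 3 * v 0 ^ 2) * h30 + (u 3 * v 1 ^ 2) * h31 + (u 3 * v 2 ^ 2) * h32 + (u 3 * v 3 ^ 2) * h33

theorem det_of_sq [CharP F 2] (M : Matrix (Fin 4) (Fin 4) F) (h : M * M = 1) : M.det = 1 := by
  have h2 : (2 : F) = 0 := two_eq_zero16
  have h1 := congrArg Matrix.det h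
  rw [Matrix.det_mul, Matrix.det_one] at h1
  have h3 : (M.det - 1) ^ 2 = 0 := by linear_combination h1 - (M.det - 1) * h2
  have h5 := pow_eq_zero_iff (two_ne_zero) |>.mp h3
  linear_combination h5

theorem det_of_pow5 [Fintype F] (hF : Fintype.card F = 4) (M : Matrix (Fin 4) (Fin 4) F)
    (h : M * M * M * M * M = 1) : M.det = 1 := by
  have h1 := congrArg Matrix.det h
  simp only [Matrix.det_mul, Matrix.det_one] at h1
  have hd : M.det ≠ 0 := by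
    intro h0
    rw [h0] at h1
    simp at h1
  have h3 : M.det ^ 3 = 1 := by
    have := FiniteField.pow_card_sub_one_eq_one M.det hd
    rw [hF] at this
    exact this
  have h2 : M.det ^ 2 = 1 := by linear_combination h1 - M.det ^ 2 * h3
  linear_combination h3 - M.det * h2

end F4

end Cfsg.Agent.Helper2
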