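import Mathlib
import Cfsg.Agent.Helper2.U42Codes
import Cfsg.Agent.Helper2.U42Chk0
import Cfsg.Agent.Helper2.U42Chk1
import Cfsg.Agent.Helper2.U42Chk2
import Cfsg.Agent.Helper2.U42Chk3
import Cfsg.Agent.Helper2.U42Chk4
import Cfsg.Agent.Helper2.U42Chk5
import Cfsg.Agent.Helper2.U42Chk6
import Cfsg.Agent.Helper2.U42Chk7

set_option autoImplicit false

namespace Cfsg.Agent.Helper2

/-! The facts read off the table of the certificate. -/

theorem allB_succ (f : ℕ → Bool) (lo n : ℕ) :
    allB f lo (n + 1) = (f (lo + n) && allB f lo n) := rfl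

theorem allB_spec (f : ℕ → Bool) (lo : ℕ) : ∀ n, allB f lo n = true → ∀ k, k < n →
    f (lo + k) = true := by
  intro n
  induction n with
  | zero => intro _ k hk; omega
  | succ n ih =>
    intro h k hk
    rw [allB_succ, Bool.and_eq_true] at h
    rcases Nat.lt_succ_iff_lt_or_eq.mp hk with h1 | h1
    · exact ih h.2 k h1
    · rw [h1]; exact h.1

theorem u42_all (i : ℕ) (hi : i < 51840) : u42chk i = true := by
  by_cases h0 : i < 6480
  · have := allB_spec u42chk 0 6480 u42_blk0 i h0
    rwa [Nat.zero_add] at this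
  by_cases h1 : i < 12960
  · have := allB_spec u42chk 6480 6480 u42_blk1 (i - 6480) (by omega)
    rwa [show 6480 + (i - 6480) = i by omega] at this
  by_cases h2 : i < 19440
  · have := allB_spec u42chk 12960 6480 u42_blk2 (i - 12960) (by omega)
    rwa [show 12960 + (i - 12960) = i by omega] at this
  by_cases h3 : i < 25920
  · have := allB_spec u42chk 19440 6480 u42_blk3 (i - 19440) (by omega)
    rwa [show 19440 + (i - 19440) = i by omega] at this
  by_cases h4 : i < 32400
  · have := allB_spec u42chk 25920 6480 u42_blk4 (i - 25920) (by omega)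
    rwa [show 25920 + (i - 25920) = i by omega] at this
  by_cases h5 : i < 38880
  · have := allB_spec u42chk 32400 6480 u42_blk5 (i - 32400) (by omega)
    rwa [show 32400 + (i - 32400) = i by omega] at this
  by_cases h6 : i < 45360
  · have := allB_spec u42chk 38880 6480 u42_blk6 (i - 38880) (by omega)
    rwa [show 38880 + (i - 38880) = i by omega] at this
  have := allB_spec u42chk 45360 6480 u42_blk7 (i - 45360) (by omega)
  rwa [show 45360 + (i - 45360) = i by omega] at this

def u42key (i : ℕ) : ℕ := rkey (u42rec i)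

def u42val (i : ℕ) : ℕ := rval (u42rec i)

def u42nA (i : ℕ) : ℕ := rnA (u42rec i)

def u42nB (i : ℕ) : ℕ := rnB (u42rec i)

def u42par (i : ℕ) : ℕ := rpar (u42rec i)

def u42dep (i : ℕ) : ℕ := rdep (u42rec i)

/-- What the check says of the record `i`. -/
structure U42Row (i : ℕ) : Prop where
  key_lt : u42key i < 43046721
  val_lt : u42val i < 4294967296
  key_succ : i < 51839 → u42key i < u42key (i + 1)
  nA_lt : u42nA i < 51840
  nB_lt : u42nB i < 51840
  key_nA : u42key (u42nA i) = pmul3 (u42key i) 30017143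
  val_nA : u42val (u42nA i) = pmul4 (u42val i) 1073808400
  key_nB : u42key (u42nB i) = pmul3 (u42key i) 25254045
  val_nB : u42val (u42nB i) = pmul4 (u42val i) 2257162016
  par : i ≠ 16902 → u42par i < 51840 ∧ u42dep (u42par i) < u42dep i ∧
    (u42nA (u42par i) = i ∨ u42nB (u42par i) = i)
  ker : u42val i = 1074791425 → i = 16902 ∨ i = 34479

theorem u42_row (i : ℕ) (hi : i < 51840) : U42Row i := by
  have h := u42_all i hi
  unfold u42chk at h
  simp only [natLet_eq] at h
  unfold u42chkR at h
  simp only [Bool.and_eq_true, Bool.or_eq_true] at h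
  obtain ⟨⟨⟨⟨⟨⟨⟨⟨⟨⟨h1, h2⟩, h3⟩, h4⟩, h5⟩, h6⟩, h7⟩, h8⟩, h9⟩, h10⟩, h11⟩ := h
  refine ⟨Nat.blt_eq.mp h1, Nat.blt_eq.mp h2, ?_, Nat.blt_eq.mp h4, Nat.blt_eq.mp h5, ?_, ?_, ?_, ?_,
    ?_, ?_⟩
  · intro hlt
    rcases h3 with h3 | h3
    · have := Nat.ble_eq.mp h3
      omega
    · exact Nat.blt_eq.mp h3
  · rw [← pmA3_eq]
    exact Nat.eq_of_beq_eq_true h6
  · rw [← pmA4_eq]
    exact Nat.eq_of_beq_eq_true h7
  · rw [← pmB3_eq]
    exact Nat.eq_of_beq_eq_true h8
  · rw [← pmB4_eq]
    exact Nat.eq_of_beq_eq_true h9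
  · intro hne
    rcases h10 with h10 | ⟨⟨ha, hb⟩, hc⟩
    · exact absurd (Nat.eq_of_beq_eq_true h10) hne
    · refine ⟨Nat.blt_eq.mp ha, Nat.blt_eq.mp hb, ?_⟩
      rcases hc with hc | hc
      · exact Or.inl (Nat.eq_of_beq_eq_true hc)
      · exact Or.inr (Nat.eq_of_beq_eq_true hc)
  · intro hv
    rcases h11 with (h11 | h11) | h11
    · exfalso
      have hv' : Nat.beq (rval (u42rec i)) 1074791425 = true := by
        rw [show rval (u42rec i) = 1074791425 from hv]
        exact Nat.beq_refl _
      rw [hv'] at h11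
      exact absurd h11 (by decide)
    · exact Or.inl (Nat.eq_of_beq_eq_true h11)
    · exact Or.inr (Nat.eq_of_beq_eq_true h11)

theorem u42_root : u42key 16902 = 14408200 ∧ u42val 16902 = 1074791425 := by
  decide +kernel

theorem u42_a3 : pmul3 (pmul3 30017143 1605276) (ptrB 3 30017143) = 1605276 := by
  decide +kernel

theorem u42_b3 : pmul3 (pmul3 25254045 1605276) (ptrB 3 25254045) = 1605276 := by
  decide +kernel

theorem u42_a4_sq : pmul4 1073808400 1073808400 = 1074791425 := by
  decide +kernel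

theorem u42_b4_pow : pmul4 (pmul4 (pmul4 (pmul4 2257162016 2257162016) 2257162016) 2257162016)
    2257162016 = 1074791425 := by
  decide +kernel

end Cfsg.Agent.Helper2
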