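import Mathlib
import Cfsg.Agent.Helper2.U42Fields
import Cfsg.Agent.Helper2.U42Rows
import Cfsg.Agent.Helper2.U42Abs
import Cfsg.Agent.Helper15.SpCard
import Cfsg.Agent.Helper15.SUCard
import Cfsg.Agent.Helper15.SUCenter

set_option autoImplicit false

namespace Cfsg.Agent.Helper2

/-! `PSU₄(2) ≅ PSp₄(3)` from the table of a homomorphism of `Sp₄(3)` onto `SU₄(2)`. -/

theorem u42_a4_uni : pmul4 (ptrB 4 1073808400) (pconj4 1073808400) = 1074791425 := by
  decide +kernel

theorem u42_b4_uni : pmul4 (ptrB 4 2257162016) (pconj4 2257162016) = 1074791425 := by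
  decide +kernel

theorem u42_key_mono : ∀ j i, i < j → j < 51840 → u42key i < u42key j := by
  intro j
  induction j with
  | zero => intro i hi; omega
  | succ j ih =>
    intro i hi hj
    have h1 := (u42_row j (by omega)).key_succ (by omega)
    rcases Nat.lt_succ_iff_lt_or_eq.mp hi with h | h
    · exact lt_trans (ih i h (by omega)) h1
    · rw [h]; exact h1

section Fields

variable {K : Type*} [Field K] {F : Type*} [Field F]

theorem f3_charP [Fintype K] (hK : Fintype.card K = 3) : CharP K 3 := by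
  obtain ⟨p, hp⟩ := CharP.exists K
  obtain ⟨n, hpp, hn⟩ := FiniteField.card K p
  rw [hK] at hn
  have h3 : p ∣ 3 := by
    have h : p ∣ p ^ (n : ℕ) := dvd_pow_self p n.ne_zero
    rw [← hn] at h
    exact h
  have h4 := (Nat.prime_dvd_prime_iff_eq hpp Nat.prime_three).mp h3
  subst h4
  exact hp

theorem f4_charP [Fintype F] (hF : Fintype.card F = 4) : CharP F 2 := by
  obtain ⟨p, hp⟩ := CharP.exists F
  obtain ⟨n, hpp, hn⟩ := FiniteField.card F p
  rw [hF] at hn
  have h3 : p ∣ 2 ^ 2 := by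
    have h : p ∣ p ^ (n : ℕ) := dvd_pow_self p n.ne_zero
    rw [← hn] at h
    exact h
  have h4 := (Nat.prime_dvd_prime_iff_eq hpp Nat.prime_two).mp (hpp.dvd_of_dvd_pow h3)
  subst h4
  exact hp

theorem f4_omega [Fintype F] (hF : Fintype.card F = 4) : ∃ w : F, w ^ 2 = w + 1 := by
  classical
  haveI := f4_charP hF
  have h2 : (2 : F) = 0 := two_eq_zero16
  have hcard : Nat.card Fˣ = 3 := by
    rw [Nat.card_eq_fintype_card, Fintype.card_units, hF]
  obtain ⟨g, hg⟩ := IsCyclic.exists_ofOrder_eq_natCard (α := Fˣ)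
  rw [hcard] at hg
  have h3 : (g : F) ^ 3 = 1 := by
    have h := pow_orderOf_eq_one g
    rw [hg] at h
    have h' := congrArg Units.val h
    simpa using h'
  have h1 : (g : F) ≠ 1 := by
    intro h
    have h' : g = 1 := Units.ext (by simpa using h)
    rw [h'] at hg
    simp at hg
  refine ⟨(g : F), ?_⟩
  have hprod : ((g : F) - 1) * ((g : F) ^ 2 - ((g : F) + 1)) = 0 := by
    linear_combination h3 + (1 - (g : F) ^ 2) * h2
  rcases mul_eq_zero.mp hprod with h | h
  · exact absurd (sub_eq_zero.mp h) h1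
  · exact sub_eq_zero.mp h

theorem sp43_card [Fintype K] (hK : Fintype.card K = 3) :
    Nat.card (Matrix.symplecticGroup (Fin 2) K) = 51840 := by
  rw [Cfsg.Agent.Helper15.card_symplecticGroup hK 2]
  simp [Fin.prod_univ_two]

theorem su42_card [Fintype F] (hF : Fintype.card F = 4) : Nat.card (Cfsg.SU 4 F 2) = 25920 := by
  have h := Cfsg.Agent.Helper15.card_SU (K := F) (q := 2) (by rw [hF]; norm_num) 4 (by norm_num)
  have hp : (∏ i ∈ Finset.range 4, (if Even i then 2 ^ (i + 1) + 1 else 2 ^ (i + 1) - 1)) =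
      1215 := by
    decide
  rw [hp] at h
  norm_num at h
  omega

theorem su42_center [Fintype F] (hF : Fintype.card F = 4) :
    Subgroup.center (Cfsg.SU 4 F 2) = ⊥ := by
  have hc : Nat.card (Subgroup.center (Cfsg.SU 4 F 2)) = 1 := by
    rw [Cfsg.Agent.Helper15.card_center_SU (K := F) (q := 2) (by rw [hF]; norm_num) 4
      (by norm_num)]
    norm_num
  exact Subgroup.card_eq_one.mp hc

end Fields

section Main

variable {K : Type*} [Field K] [Fintype K] {F : Type*} [Field F] [Fintype F]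

/-- The elements of `Sp₄(3)` listed by the table. -/
theorem u42_el [CharP K 3] (hK : Fintype.card K = 3) :
    ∃ el : ℕ → Matrix.symplecticGroup (Fin 2) K,
      (∀ i, i < 51840 → ((el i : Matrix.symplecticGroup (Fin 2) K) :
        Matrix (Fin 2 ⊕ Fin 2) (Fin 2 ⊕ Fin 2) K) = sp3 K (u42key i)) ∧
      (∀ g, ∃ i, i < 51840 ∧ el i = g) ∧
      (∀ i j, i < 51840 → j < 51840 → el i = el j → i = j) := by
  classical
  have hmemA : sp3 K 30017143 ∈ Matrix.symplecticGroup (Fin 2) K := sp3_mem K _ u42_a3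
  have hmemB : sp3 K 25254045 ∈ Matrix.symplecticGroup (Fin 2) K := sp3_mem K _ u42_b3
  have hmem : ∀ i, i < 51840 → sp3 K (u42key i) ∈ Matrix.symplecticGroup (Fin 2) K :=
    table_mem (Matrix.symplecticGroup (Fin 2) K) 51840 16902 (fun i => sp3 K (u42key i))
      u42nA u42nB u42par u42dep _ _ hmemA hmemB
      (by show sp3 K (u42key 16902) = 1; rw [u42_root.1, sp3_one])
      (fun i hi => by
        show sp3 K (u42key (u42nA i)) = sp3 K (u42key i) * sp3 K 30017143
        rw [(u42_row i hi).key_nA, sp3_mul])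
      (fun i hi => by
        show sp3 K (u42key (u42nB i)) = sp3 K (u42key i) * sp3 K 25254045
        rw [(u42_row i hi).key_nB, sp3_mul])
      (fun i hi hne => (u42_row i hi).par hne)
  let el : ℕ → Matrix.symplecticGroup (Fin 2) K := fun i =>
    if h : sp3 K (u42key i) ∈ Matrix.symplecticGroup (Fin 2) K then ⟨sp3 K (u42key i), h⟩ else 1
  have hel : ∀ i, i < 51840 → ((el i : Matrix.symplecticGroup (Fin 2) K) :
      Matrix (Fin 2 ⊕ Fin 2) (Fin 2 ⊕ Fin 2) K) = sp3 K (u42key i) := by
    intro i hi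
    simp only [el]
    rw [dif_pos (hmem i hi)]
  have helinj : ∀ i j, i < 51840 → j < 51840 → el i = el j → i = j := by
    intro i j hi hj h
    have h1 : sp3 K (u42key i) = sp3 K (u42key j) := by rw [← hel i hi, ← hel j hj, h]
    have h2 := sp3_inj K _ _ (u42_row i hi).key_lt (u42_row j hj).key_lt h1
    by_contra hne
    rcases Nat.lt_or_gt_of_ne hne with h3 | h3
    · exact absurd h2 (Nat.ne_of_lt (u42_key_mono j i h3 hj))
    · exact absurd h2.symm (Nat.ne_of_lt (u42_key_mono i j h3 hi))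
  refine ⟨el, hel, ?_, helinj⟩
  have hcard := sp43_card hK
  haveI : Finite (Matrix.symplecticGroup (Fin 2) K) :=
    Nat.finite_of_card_ne_zero (by rw [hcard]; norm_num)
  have hf : Function.Injective (fun i : Fin 51840 => el i) :=
    fun i j h => Fin.ext (helinj i j i.isLt j.isLt h)
  have hbij := hf.bijective_of_nat_card_le (by rw [hcard, Nat.card_fin])
  intro g
  obtain ⟨i, hi⟩ := hbij.2 g
  exact ⟨i, i.isLt, hi⟩

/-- The homomorphism of `Sp₄(3)` to the `4 × 4` matrices over `F₄` given by the table. -/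
theorem u42_phi [CharP K 3] [CharP F 2] (hK : Fintype.card K = 3) (w : F) (hw : w ^ 2 = w + 1) :
    ∃ (el : ℕ → Matrix.symplecticGroup (Fin 2) K)
      (φ : Matrix.symplecticGroup (Fin 2) K →* Matrix (Fin 4) (Fin 4) F)
      (a' b' : Matrix.symplecticGroup (Fin 2) K),
      (∀ g, ∃ i, i < 51840 ∧ el i = g) ∧ el 16902 = 1 ∧
      (∀ i, i < 51840 → φ (el i) = md4 w (u42val i)) ∧ φ a' = md4 w 1073808400 ∧
      φ b' = md4 w 2257162016 ∧
      (∀ g, g ∈ Submonoid.closure ({a', b'} : Set (Matrix.symplecticGroup (Fin 2) K))) := by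
  obtain ⟨el, hel, hsurj, hinj⟩ := u42_el hK
  have hel1 : el 16902 = 1 := by
    apply Subtype.ext
    rw [hel _ (by norm_num), u42_root.1, sp3_one]
    rfl
  let a' : Matrix.symplecticGroup (Fin 2) K := ⟨sp3 K 30017143, sp3_mem K _ u42_a3⟩
  let b' : Matrix.symplecticGroup (Fin 2) K := ⟨sp3 K 25254045, sp3_mem K _ u42_b3⟩
  obtain ⟨φ, h1, h2, h3, h4⟩ := table_hom 51840 16902 el (fun i => md4 w (u42val i))
    u42nA u42nB u42par u42dep a' b' (md4 w 1073808400) (md4 w 2257162016) hsurj hinj
    (by norm_num) hel1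
    (by show md4 w (u42val 16902) = 1; rw [u42_root.2, md4_one])
    (fun i hi => ⟨(u42_row i hi).nA_lt, by
        apply Subtype.ext
        rw [hel _ (u42_row i hi).nA_lt, (u42_row i hi).key_nA, sp3_mul, ← hel i hi]
        rfl, by
        show md4 w (u42val (u42nA i)) = md4 w (u42val i) * md4 w 1073808400
        rw [(u42_row i hi).val_nA, md4_mul w hw]⟩)
    (fun i hi => ⟨(u42_row i hi).nB_lt, by
        apply Subtype.ext
        rw [hel _ (u42_row i hi).nB_lt, (u42_row i hi).key_nB, sp3_mul, ← hel i hi]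
        rfl, by
        show md4 w (u42val (u42nB i)) = md4 w (u42val i) * md4 w 2257162016
        rw [(u42_row i hi).val_nB, md4_mul w hw]⟩)
    (fun i hi hne => (u42_row i hi).par hne)
  exact ⟨el, φ, a', b', hsurj, hel1, h1, h2, h3, h4⟩

/-- `PSU₄(2) ≅ PSp₄(3)`. -/
theorem u42_main (hF : Fintype.card F = 4) (hK : Fintype.card K = 3) :
    Nonempty (Cfsg.PSU 4 F 2 ≃* Cfsg.PSp 2 K) := by
  classical
  haveI := f3_charP hK
  haveI := f4_charP hF
  obtain ⟨w, hw⟩ := f4_omega hF
  obtain ⟨el, φ, a', b', hsurj, hel1, hφel, hφa, hφb, hgen⟩ := u42_phi (K := K) hK w hw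
  have hdetA : (md4 w 1073808400).det = 1 :=
    det_of_sq _ (by rw [← md4_mul w hw, u42_a4_sq, md4_one])
  have hdetB : (md4 w 2257162016).det = 1 :=
    det_of_pow5 hF _ (by
      rw [← md4_mul w hw, ← md4_mul w hw, ← md4_mul w hw, ← md4_mul w hw, u42_b4_pow, md4_one])
  let sa : Cfsg.SU 4 F 2 := ⟨⟨md4 w 1073808400, hdetA⟩,
    su4_of_unitary _ hdetA (md4_unitary w hw _ u42_a4_uni)⟩
  let sb : Cfsg.SU 4 F 2 := ⟨⟨md4 w 2257162016, hdetB⟩,
    su4_of_unitary _ hdetB (md4_unitary w hw _ u42_b4_uni)⟩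
  let ι : Cfsg.SU 4 F 2 →* Matrix (Fin 4) (Fin 4) F :=
    (Cfsg.slToMat 4 F).comp (Cfsg.SU 4 F 2).subtype
  have hι : Function.Injective ι := by
    intro x y h
    apply Subtype.ext
    apply Subtype.ext
    exact h
  have hrange : ∀ x : Matrix.symplecticGroup (Fin 2) K, ∃ s : Cfsg.SU 4 F 2, ι s = φ x := by
    intro x
    have hx := hgen x
    induction hx using Submonoid.closure_induction with
    | mem y hy =>
      rcases hy with rfl | rfl
      · exact ⟨sa, by rw [hφa]; rfl⟩
      · exact ⟨sb, by rw [hφb]; rfl⟩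
    | one => exact ⟨1, by rw [map_one, map_one]⟩
    | mul y z _ _ hy hz =>
      obtain ⟨s, hs⟩ := hy
      obtain ⟨t, ht⟩ := hz
      exact ⟨s * t, by rw [map_mul, map_mul, hs, ht]⟩
  choose ψ₀ hψ₀ using hrange
  let ψ : Matrix.symplecticGroup (Fin 2) K →* Cfsg.SU 4 F 2 :=
    { toFun := ψ₀
      map_one' := hι (by rw [hψ₀, map_one, map_one])
      map_mul' := fun x y => hι (by rw [hψ₀, map_mul, map_mul, hψ₀, hψ₀]) }
  have hψ : ∀ x, ι (ψ x) = φ x := hψ₀
  have hker : ∀ x, ψ x = 1 → x = 1 ∨ x = el 34479 := by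
    intro x hx
    obtain ⟨i, hi, rfl⟩ := hsurj x
    have h1 : md4 w (u42val i) = 1 := by
      rw [← hφel i hi, ← hψ, hx, map_one]
    have h2 : u42val i = 1074791425 :=
      md4_inj w hw _ _ (u42_row i hi).val_lt (by norm_num) (by rw [h1, md4_one])
    rcases (u42_row i hi).ker h2 with h3 | h3
    · left
      rw [h3]
      exact hel1
    · right
      rw [h3]
  have hSp := sp43_card hK
  have hSU := su42_card hF
  haveI : Finite (Matrix.symplecticGroup (Fin 2) K) :=
    Nat.finite_of_card_ne_zero (by rw [hSp]; norm_num)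
  haveI : Finite (Cfsg.SU 4 F 2) := Nat.finite_of_card_ne_zero (by rw [hSU]; norm_num)
  have hkercard : Nat.card ψ.ker ≤ 2 := by
    have hsub : (ψ.ker : Set (Matrix.symplecticGroup (Fin 2) K)) ⊆ {1, el 34479} := by
      intro x hx
      rcases hker x hx with h | h
      · rw [h]
        exact Set.mem_insert _ _
      · rw [h]
        exact Set.mem_insert_of_mem _ rfl
    have h1 := Set.ncard_le_ncard hsub (Set.toFinite _)
    have h2 : Set.ncard ({1, el 34479} : Set (Matrix.symplecticGroup (Fin 2) K)) ≤ 2 :=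
      (Set.ncard_insert_le _ _).trans (by rw [Set.ncard_singleton])
    exact h1.trans h2
  have hsurjψ : Function.Surjective ψ := by
    have h1 : Nat.card ψ.ker * Nat.card ψ.range =
        Nat.card (Matrix.symplecticGroup (Fin 2) K) := by
      rw [← Subgroup.index_ker]
      exact Subgroup.card_mul_index _
    have h2 : Nat.card ψ.range ≤ Nat.card (Cfsg.SU 4 F 2) := Subgroup.card_le_card_group _
    have h3 : Nat.card ψ.ker * Nat.card ψ.range ≤ 2 * Nat.card ψ.range :=
      Nat.mul_le_mul_right _ hkercard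
    have h4 : ψ.range = ⊤ := Subgroup.eq_top_of_card_eq _ (by omega)
    exact MonoidHom.range_eq_top.mp h4
  have hcen := su42_center hF
  have hkc : Subgroup.center (Matrix.symplecticGroup (Fin 2) K) = ψ.ker := by
    apply le_antisymm
    · intro z hz
      rw [MonoidHom.mem_ker]
      have hcz : ψ z ∈ Subgroup.center (Cfsg.SU 4 F 2) := by
        rw [Subgroup.mem_center_iff]
        intro s
        obtain ⟨g, rfl⟩ := hsurjψ s
        rw [← map_mul, ← map_mul, Subgroup.mem_center_iff.mp hz g]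
      rw [hcen] at hcz
      exact Subgroup.mem_bot.mp hcz
    · intro x hx
      rw [Subgroup.mem_center_iff]
      intro g
      rw [MonoidHom.mem_ker] at hx
      have h2 : ψ (g * x * g⁻¹) = 1 := by
        rw [map_mul, map_mul, hx, mul_one, ← map_mul, mul_inv_cancel, map_one]
      rcases hker x hx with h1 | h1
      · rw [h1, mul_one, one_mul]
      · rcases hker _ h2 with h3 | h3
        · have h4 : x = 1 := by
            have h5 := congrArg (fun y => g⁻¹ * y * g) h3
            simpa [mul_assoc] using h5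
          rw [h4, mul_one, one_mul]
        · rw [← h1] at h3
          have h5 := congrArg (fun y => y * g) h3
          simpa [mul_assoc] using h5
  have e1 : Cfsg.PSp 2 K ≃* Cfsg.SU 4 F 2 :=
    (QuotientGroup.quotientMulEquivOfEq hkc).trans
      (QuotientGroup.quotientKerEquivOfSurjective ψ hsurjψ)
  have e2 : Cfsg.PSU 4 F 2 ≃* Cfsg.SU 4 F 2 :=
    (QuotientGroup.quotientMulEquivOfEq hcen).trans QuotientGroup.quotientBot
  exact ⟨e2.trans e1.symm⟩

end Main

end Cfsg.Agent.Helper2
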