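import Mathlib
import Cfsg.Agent.Helper2.S8Data
import Cfsg.Agent.Helper2.TabIso
import Cfsg.Agent.Helper2.U42Main
import Cfsg.Agent.S0288

set_option autoImplicit false

namespace Cfsg.Agent.Helper2

/-! The Sylow 2-subgroups of `A₈` and `PSp₄(3)`, and of `S₈` and `O₆⁻(2)`, are isomorphic. -/

/-! ### Packed maps of 8 points -/

/-- The map of 8 points with table `T` (3 bits per point). -/
def fdec8 (T : ℕ) : Function.End (Fin 8) := fun x => ⟨dgB 8 T x, dgB_lt 8 T x (by norm_num)⟩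

theorem fdec8_pcomp (T U : ℕ) : fdec8 (pcomp8 T U) = fdec8 T * fdec8 U := by
  funext x
  apply Fin.ext
  show dgB 8 (pcomp8 T U) x = dgB 8 T (dgB 8 U x)
  unfold pcomp8
  rw [dgB_pkB _ 8 (fun s => dgB_lt _ _ _ (by norm_num)) 8 0 _ x.isLt, zero_add]

theorem fdec8_inj (a b : ℕ) (ha : a < 16777216) (hb : b < 16777216) (h : fdec8 a = fdec8 b) :
    a = b := by
  apply digitsB_inj 8 8 a b (lt_of_lt_of_eq ha (by norm_num)) (lt_of_lt_of_eq hb (by norm_num))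
  intro t ht
  exact congrArg Fin.val (congrFun h ⟨t, ht⟩)

theorem id8_digits : ∀ t, t < 8 → dgB 8 16434824 t = t := by decide +kernel

theorem fdec8_one : fdec8 16434824 = 1 := by
  funext x
  apply Fin.ext
  exact id8_digits x x.isLt

/-- Permutations of 8 points as self-maps. -/
def permEnd8 : Equiv.Perm (Fin 8) →* Function.End (Fin 8) where
  toFun σ := (σ : Fin 8 → Fin 8)
  map_one' := rfl
  map_mul' _ _ := rfl

theorem permEnd8_inj : Function.Injective permEnd8 := fun _ _ h => DFunLike.coe_injective h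

/-- Generators of a Sylow 2-subgroup of `A₈`. -/
def s8a (k : ℕ) : Equiv.Perm (Fin 8) :=
  [Equiv.swap 0 1 * Equiv.swap 2 3 * Equiv.swap 4 6 * Equiv.swap 5 7,
    Equiv.swap 0 1 * Equiv.swap 6 7,
    Equiv.swap 0 5 * Equiv.swap 1 4 * Equiv.swap 2 6 * Equiv.swap 3 7].getD k 1

/-- Generators of a Sylow 2-subgroup of `S₈`. -/
def s8b (k : ℕ) : Equiv.Perm (Fin 8) :=
  [Equiv.swap 0 1 * Equiv.swap 4 6 * Equiv.swap 5 7,
    Equiv.swap 0 1 * Equiv.swap 2 3 * Equiv.swap 4 5,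
    Equiv.swap 0 5 * Equiv.swap 1 4 * Equiv.swap 2 7 * Equiv.swap 3 6].getD k 1

theorem s8a_dec : ∀ k, k < 3 → ∀ x : Fin 8, ((s8a k) x : ℕ) = dgB 8 (s8gpA k) x := by
  decide +kernel

theorem s8b_dec : ∀ k, k < 3 → ∀ x : Fin 8, ((s8b k) x : ℕ) = dgB 8 (s8gpB k) x := by
  decide +kernel

theorem s8a_sq : ∀ k, k < 3 → ∀ x : Fin 8, s8a k (s8a k x) = x := by decide +kernel

theorem s8b_sq : ∀ k, k < 3 → ∀ x : Fin 8, s8b k (s8b k x) = x := by decide +kernel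

theorem s8a_sign (k : ℕ) : Equiv.Perm.sign (s8a k) = 1 := by
  rcases k with _ | _ | _ | k
  · simp [s8a, Equiv.Perm.sign_swap']
  · simp [s8a, Equiv.Perm.sign_swap']
  · simp [s8a, Equiv.Perm.sign_swap']
  · simp [s8a]

/-! ### Packed `6 × 6` matrices over the field with two elements -/

section F2

variable (K : Type*) [Field K]

/-- The position of an index of the 6-dimensional orthogonal space. -/
def ix6 : (Fin 2 ⊕ Fin 2) ⊕ Fin 2 → ℕ
  | Sum.inl (Sum.inl i) => i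
  | Sum.inl (Sum.inr i) => 2 + i
  | Sum.inr i => 4 + i

theorem ix6_lt : ∀ i, ix6 i < 6 := by decide

theorem ix6_inj : ∀ i j, ix6 i = ix6 j → i = j := by decide

theorem ix6_surj : ∀ n, n < 6 → ∃ i, ix6 i = n := by decide

/-- The `6 × 6` matrix of a code in base 2. -/
def md6 (a : ℕ) : Matrix ((Fin 2 ⊕ Fin 2) ⊕ Fin 2) ((Fin 2 ⊕ Fin 2) ⊕ Fin 2) K :=
  Matrix.of fun i j => ((dgB 2 a (6 * ix6 i + ix6 j) : ℕ) : K)

theorem md6_apply (a : ℕ) (i j : (Fin 2 ⊕ Fin 2) ⊕ Fin 2) :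
    md6 K a i j = ((dgB 2 a (6 * ix6 i + ix6 j) : ℕ) : K) := rfl

/-- One entry of the product. -/
def ent6G (a b i j : ℕ) : ℕ :=
  ent6 (dgB 2 a (Nat.mul 6 i)) (dgB 2 a (Nat.add (Nat.mul 6 i) 1))
    (dgB 2 a (Nat.add (Nat.mul 6 i) 2)) (dgB 2 a (Nat.add (Nat.mul 6 i) 3))
    (dgB 2 a (Nat.add (Nat.mul 6 i) 4)) (dgB 2 a (Nat.add (Nat.mul 6 i) 5))
    (dgB 2 b j) (dgB 2 b (Nat.add 6 j)) (dgB 2 b (Nat.add 12 j)) (dgB 2 b (Nat.add 18 j))
    (dgB 2 b (Nat.add 24 j)) (dgB 2 b (Nat.add 30 j))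

theorem pmul6_eq (a b : ℕ) :
    pmul6 a b = pkB (fun t => ent6G a b (t / 6) (t % 6)) 2 36 0 := rfl

theorem ent6_lt (a0 a1 a2 a3 a4 a5 b0 b1 b2 b3 b4 b5 : ℕ) :
    ent6 a0 a1 a2 a3 a4 a5 b0 b1 b2 b3 b4 b5 < 2 := Nat.mod_lt _ (by norm_num)

theorem ent6_spec [CharP K 2] (a0 a1 a2 a3 a4 a5 b0 b1 b2 b3 b4 b5 : ℕ) :
    ((ent6 a0 a1 a2 a3 a4 a5 b0 b1 b2 b3 b4 b5 : ℕ) : K) =
      (a0 : K) * b0 + a1 * b1 + a2 * b2 + a3 * b3 + a4 * b4 + a5 * b5 := by
  have h : ent6 a0 a1 a2 a3 a4 a5 b0 b1 b2 b3 b4 b5 =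
      (a0 * b0 + a1 * b1 + a2 * b2 + a3 * b3 + a4 * b4 + a5 * b5) % 2 := rfl
  rw [h, cast_mod2]
  push_cast
  rfl

theorem md6_mul [CharP K 2] (a b : ℕ) : md6 K (pmul6 a b) = md6 K a * md6 K b := by
  ext i j
  have hi := ix6_lt i
  have hj := ix6_lt j
  have e1 : (0 + (6 * ix6 i + ix6 j)) / 6 = ix6 i := by omega
  have e2 : (0 + (6 * ix6 i + ix6 j)) % 6 = ix6 j := by omega
  have hlt : ∀ s, (fun t => ent6G a b (t / 6) (t % 6)) s < 2 :=
    fun s => ent6_lt _ _ _ _ _ _ _ _ _ _ _ _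
  rw [Matrix.mul_apply, md6_apply, pmul6_eq,
    dgB_pkB (fun t => ent6G a b (t / 6) (t % 6)) 2 hlt 36 0 _ (by omega)]
  simp only [e1, e2]
  unfold ent6G
  rw [ent6_spec, Fintype.sum_sum_type, Fintype.sum_sum_type, Fin.sum_univ_two, Fin.sum_univ_two,
    Fin.sum_univ_two]
  simp only [md6_apply, ix6, Nat.add_eq, Nat.mul_eq, Fin.val_zero, Fin.val_one, Fin.isValue]
  norm_num
  ring

theorem md6_inj (a b : ℕ) (ha : a < 68719476736) (hb : b < 68719476736)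
    (h : md6 K a = md6 K b) : a = b := by
  apply digitsB_inj 2 36 a b (lt_of_lt_of_eq ha (by norm_num)) (lt_of_lt_of_eq hb (by norm_num))
  intro t ht
  obtain ⟨i, hi⟩ := ix6_surj (t / 6) (by omega)
  obtain ⟨j, hj⟩ := ix6_surj (t % 6) (Nat.mod_lt _ (by norm_num))
  have h0 := congrFun (congrFun h i) j
  rw [md6_apply, md6_apply, hi, hj, Nat.div_add_mod] at h0
  have key : ∀ x y : ℕ, x < 2 → y < 2 → ((x : ℕ) : K) = (y : K) → x = y := by
    intro x y hx hy hxy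
    interval_cases x <;> interval_cases y <;> simp_all
  exact key _ _ (dgB_lt 2 a t (by norm_num)) (dgB_lt 2 b t (by norm_num)) h0

theorem id6_digits : ∀ s, s < 6 → ∀ t, t < 6 →
    dgB 2 34630287489 (6 * s + t) = if s = t then 1 else 0 := by decide +kernel

theorem md6_one : md6 K 34630287489 = 1 := by
  ext i j
  rw [md6_apply, Matrix.one_apply, id6_digits (ix6 i) (ix6_lt i) (ix6 j) (ix6_lt j)]
  by_cases h : i = j
  · subst h
    simp
  · have hne : ix6 i ≠ ix6 j := fun e => h (ix6_inj _ _ e)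
    simp [hne, h]

theorem s8B_iso0 [CharP K 2] (v : (Fin 2 ⊕ Fin 2) ⊕ Fin 2 → K) :
    Cfsg.quadFormMinus 2 K 1 1 (Matrix.mulVec (md6 K 61491082881) v) = Cfsg.quadFormMinus 2 K 1 1 v := by
  have h2 : (2 : K) = 0 := two_eq_zero16
  simp only [Cfsg.quadFormMinus, Matrix.mulVec, dotProduct, Fintype.sum_sum_type,
    Fin.sum_univ_two, md6_apply, ix6, dgB_def, Fin.val_zero, Fin.val_one, Fin.isValue]
  norm_num
  linear_combination ((2) * v (Sum.inl (Sum.inl 0)) * v (Sum.inl (Sum.inl 0)) + (1) * v (Sum.inl (Sum.inl 0)) * v (Sum.inl (Sum.inl 1)) + (2) * v (Sum.inl (Sum.inl 0)) * v (Sum.inl (Sum.inr 1)) + (4) * v (Sum.inl (Sum.inl 0)) * v (Sum.inr 0) + (2) * v (Sum.inl (Sum.inl 0)) * v (Sum.inr 1) + (1) * v (Sum.inl (Sum.inr 1)) * v (Sum.inl (Sum.inr 1)) + (2) * v (Sum.inl (Sum.inr 1)) * v (Sum.inr 0) + (1) * v (Sum.inl (Sum.inr 1)) * v (Sum.inr 1) + (1) * v (Sum.inr 0) * v (Sum.inr 0) + (1) * v (Sum.inr 0)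 * v (Sum.inr 1)) * h2

theorem s8B_iso1 [CharP K 2] (v : (Fin 2 ⊕ Fin 2) ⊕ Fin 2 → K) :
    Cfsg.quadFormMinus 2 K 1 1 (Matrix.mulVec (md6 K 11415342721) v) = Cfsg.quadFormMinus 2 K 1 1 v := by
  have h2 : (2 : K) = 0 := two_eq_zero16
  simp only [Cfsg.quadFormMinus, Matrix.mulVec, dotProduct, Fintype.sum_sum_type,
    Fin.sum_univ_two, md6_apply, ix6, dgB_def, Fin.val_zero, Fin.val_one, Fin.isValue]
  norm_num
  linear_combination ((1) * v (Sum.inl (Sum.inl 1)) * v (Sum.inl (Sum.inl 1)) + (2) * v (Sum.inl (Sum.inl 1)) * v (Sum.inl (Sum.inr 1)) + (1) * v (Sum.inl (Sum.inl 1)) * v (Sum.inr 0) + (1) * v (Sum.inl (Sum.inl 1)) * v (Sum.inr 1) + (2) * v (Sum.inl (Sum.inr 1)) * v (Sum.inl (Sum.inr 1)) + (1) * v (Sum.inl (Sum.inr 1)) * v (Sum.inr 0) + (2) * v (Sum.inl (Sum.inr 1)) * v (Sum.inr 1)) * h2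

theorem s8B_iso2 [CharP K 2] (v : (Fin 2 ⊕ Fin 2) ⊕ Fin 2 → K) :
    Cfsg.quadFormMinus 2 K 1 1 (Matrix.mulVec (md6 K 34628702724) v) = Cfsg.quadFormMinus 2 K 1 1 v := by
  have h2 : (2 : K) = 0 := two_eq_zero16
  simp only [Cfsg.quadFormMinus, Matrix.mulVec, dotProduct, Fintype.sum_sum_type,
    Fin.sum_univ_two, md6_apply, ix6, dgB_def, Fin.val_zero, Fin.val_one, Fin.isValue]
  norm_num
  linear_combination (0) * h2

end F2

section Main

theorem f2_charP {K : Type*} [Field K] [Fintype K] (hK : Fintype.card K = 2) : CharP K 2 := by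
  obtain ⟨p, hp⟩ := CharP.exists K
  obtain ⟨n, hpp, hn⟩ := FiniteField.card K p
  rw [hK] at hn
  have h3 : p ∣ 2 := by
    have h : p ∣ p ^ (n : ℕ) := dvd_pow_self p n.ne_zero
    rw [← hn] at h
    exact h
  have h4 := (Nat.prime_dvd_prime_iff_eq hpp Nat.prime_two).mp h3
  subst h4
  exact hp

theorem f2_ab {K : Type*} [Field K] [Fintype K] (hK : Fintype.card K = 2) (a b : K)
    (hab : ∀ z₁ z₂ : K, z₁ ^ 2 + a * z₁ * z₂ + b * z₂ ^ 2 = 0 → z₁ = 0 ∧ z₂ = 0) :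
    a = 1 ∧ b = 1 := by
  classical
  haveI := f2_charP hK
  have h2 : (2 : K) = 0 := two_eq_zero16
  have h01 : ∀ x : K, x = 0 ∨ x = 1 := by
    intro x
    by_contra hx
    push_neg at hx
    have hc : ({0, 1, x} : Finset K).card = 3 := by
      rw [Finset.card_insert_of_notMem (by simp [hx.1.symm]),
        Finset.card_insert_of_notMem (by simp [hx.2.symm]), Finset.card_singleton]
    have := Finset.card_le_univ ({0, 1, x} : Finset K)
    omega
  have hb : b = 1 := by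
    rcases h01 b with h | h
    · exfalso
      have := hab 0 1 (by rw [h]; ring)
      exact one_ne_zero this.2
    · exact h
  have ha : a = 1 := by
    rcases h01 a with h | h
    · exfalso
      have := hab 1 1 (by rw [h, hb]; linear_combination h2)
      exact one_ne_zero this.1
    · exact h
  exact ⟨ha, hb⟩

theorem a8_card : Nat.card ↥(alternatingGroup (Fin 8)) = 20160 := by
  have h := two_mul_nat_card_alternatingGroup (α := Fin 8)
  rw [Nat.card_perm, Nat.card_fin] at h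
  have h8 : Nat.factorial 8 = 40320 := by decide
  omega

theorem s8_card : Nat.card (Equiv.Perm (Fin 8)) = 40320 := by
  rw [Nat.card_perm, Nat.card_fin]
  decide

theorem o6_card {K : Type*} [Field K] [Fintype K] (hK : Fintype.card K = 2) (a b : K)
    (hab : ∀ z₁ z₂ : K, z₁ ^ 2 + a * z₁ * z₂ + b * z₂ ^ 2 = 0 → z₁ = 0 ∧ z₂ = 0) :
    Nat.card ↥(Cfsg.isometryGroup K (Cfsg.quadFormMinus 2 K a b)) = 51840 := by
  have h : Nat.card ↥(Cfsg.isometryGroup K (Cfsg.quadFormMinus 2 K a b)) = _ :=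
    Cfsg.Agent.S0288.result hK 3 (by norm_num) a b hab
  rw [h]
  decide

/-- A Sylow 2-subgroup of `A₈` and one of `SU₄(2)`, isomorphic of order 64. -/
theorem s8A_iso {F : Type*} [Field F] [Fintype F] (hF : Fintype.card F = 4) :
    ∃ (T : Subgroup ↥(alternatingGroup (Fin 8))) (T' : Subgroup ↥(Cfsg.SU 4 F 2)),
      Nat.card T = 64 ∧ Nat.card T' = 64 ∧ Nonempty (↥T ≃* ↥T') := by
  classical
  haveI := f4_charP hF
  obtain ⟨w, hw⟩ := f4_omega hF
  let A : ℕ → ↥(alternatingGroup (Fin 8)) := fun k =>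
    ⟨s8a k, Equiv.Perm.mem_alternatingGroup.mpr (s8a_sign k)⟩
  have hdet : ∀ k, k < 3 → (md4 w (s8gmA k)).det = 1 := fun k hk =>
    det_of_sq _ (by rw [← md4_mul w hw, s8A_gsq k hk, md4_one])
  let ι : ↥(alternatingGroup (Fin 8)) →* Function.End (Fin 8) :=
    permEnd8.comp (alternatingGroup (Fin 8)).subtype
  have hι : Function.Injective ι := fun x y h => Subtype.ext (permEnd8_inj h)
  let ι' : ↥(Cfsg.SU 4 F 2) →* Matrix (Fin 4) (Fin 4) F :=
    (Cfsg.slToMat 4 F).comp (Cfsg.SU 4 F 2).subtype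
  have hι' : Function.Injective ι' := by
    intro x y h
    apply Subtype.ext
    apply Subtype.ext
    exact h
  have hex : ∀ k, ∃ g : ↥(Cfsg.SU 4 F 2), k < 3 → ι' g = md4 w (s8gmA k) := by
    intro k
    by_cases hk : k < 3
    · exact ⟨⟨⟨md4 w (s8gmA k), hdet k hk⟩,
        su4_of_unitary _ (hdet k hk) (md4_unitary w hw _ (s8A_guni k hk))⟩, fun _ => rfl⟩
    · exact ⟨1, fun h => absurd h hk⟩
  choose A' hιA' using hex
  have hιA : ∀ k, k < 3 → ι (A k) = fdec8 (s8gpA k) := by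
    intro k hk
    funext x
    apply Fin.ext
    exact s8a_dec k hk x
  obtain ⟨h1, h2, h3⟩ := tabK_iso ι hι ι' hι' 3 64 0 (fun i => fdec8 (s8pA i))
    (fun i => md4 w (s8mA i)) s8nA s8parA s8depA A A'
    (by norm_num)
    (by show fdec8 (s8pA 0) = 1; rw [s8A_root.1, fdec8_one])
    (by show md4 w (s8mA 0) = 1; rw [s8A_root.2, md4_one])
    (fun i j hi hj h => s8A_pinj i hi j hj (fdec8_inj _ _ (s8A_lt i hi).1 (s8A_lt j hj).1 h))
    (fun i j hi hj h => s8A_minj i hi j hj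
      (md4_inj w hw _ _ (s8A_lt i hi).2 (s8A_lt j hj).2 h))
    (fun k hk i hi => ⟨(s8A_nxt k hk i hi).1, by
      show fdec8 (s8pA (s8nA k i)) = fdec8 (s8pA i) * ι (A k)
      rw [(s8A_nxt k hk i hi).2.1, fdec8_pcomp, hιA k hk]⟩)
    (fun k hk i hi => by
      show md4 w (s8mA (s8nA k i)) = md4 w (s8mA i) * ι' (A' k)
      rw [(s8A_nxt k hk i hi).2.2, md4_mul w hw, hιA' k hk])
    s8A_par
    (fun k hk => Subtype.ext (Equiv.ext (fun x => s8a_sq k hk x)))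
    (fun k hk => by
      apply hι'
      rw [map_mul, map_one, hιA' k hk, ← md4_mul w hw, s8A_gsq k hk, md4_one])
  exact ⟨_, _, h1, h2, h3⟩

/-- A Sylow 2-subgroup of `S₈` and one of `O₆⁻(2)`, isomorphic of order 128. -/
theorem s8B_iso {K : Type*} [Field K] [Fintype K] (hK : Fintype.card K = 2) :
    ∃ (T : Subgroup (Equiv.Perm (Fin 8)))
      (T' : Subgroup ↥(Cfsg.isometryGroup K (Cfsg.quadFormMinus 2 K 1 1))),
      Nat.card T = 128 ∧ Nat.card T' = 128 ∧ Nonempty (↥T ≃* ↥T') := by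
  classical
  haveI := f2_charP hK
  let ι' : ↥(Cfsg.isometryGroup K (Cfsg.quadFormMinus 2 K 1 1)) →*
      Matrix ((Fin 2 ⊕ Fin 2) ⊕ Fin 2) ((Fin 2 ⊕ Fin 2) ⊕ Fin 2) K :=
    (Units.coeHom _).comp (Subgroup.subtype _)
  have hι' : Function.Injective ι' := by
    intro x y h
    apply Subtype.ext
    apply Units.ext
    exact h
  have hsq : ∀ k, k < 3 → md6 K (s8gmB k) * md6 K (s8gmB k) = 1 := by
    intro k hk
    rw [← md6_mul, s8B_gsq k hk, md6_one]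
  have hiso : ∀ k, k < 3 → ∀ v, Cfsg.quadFormMinus 2 K 1 1 (Matrix.mulVec (md6 K (s8gmB k)) v) =
      Cfsg.quadFormMinus 2 K 1 1 v := by
    intro k hk v
    interval_cases k
    · exact s8B_iso0 K v
    · exact s8B_iso1 K v
    · exact s8B_iso2 K v
  have hex : ∀ k, ∃ g : ↥(Cfsg.isometryGroup K (Cfsg.quadFormMinus 2 K 1 1)),
      k < 3 → ι' g = md6 K (s8gmB k) := by
    intro k
    by_cases hk : k < 3
    · exact ⟨⟨⟨md6 K (s8gmB k), md6 K (s8gmB k), hsq k hk, hsq k hk⟩,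
        fun u _ => hiso k hk u⟩, fun _ => rfl⟩
    · exact ⟨1, fun h => absurd h hk⟩
  choose A' hιA' using hex
  have hιA : ∀ k, k < 3 → permEnd8 (s8b k) = fdec8 (s8gpB k) := by
    intro k hk
    funext x
    apply Fin.ext
    exact s8b_dec k hk x
  obtain ⟨h1, h2, h3⟩ := tabK_iso permEnd8 permEnd8_inj ι' hι' 3 128 0 (fun i => fdec8 (s8pB i))
    (fun i => md6 K (s8mB i)) s8nB s8parB s8depB s8b A'
    (by norm_num)
    (by show fdec8 (s8pB 0) = 1; rw [s8B_root.1, fdec8_one])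
    (by show md6 K (s8mB 0) = 1; rw [s8B_root.2, md6_one])
    (fun i j hi hj h => s8B_pinj i hi j hj (fdec8_inj _ _ (s8B_lt i hi).1 (s8B_lt j hj).1 h))
    (fun i j hi hj h => s8B_minj i hi j hj
      (md6_inj K _ _ (s8B_lt i hi).2 (s8B_lt j hj).2 h))
    (fun k hk i hi => ⟨(s8B_nxt k hk i hi).1, by
      show fdec8 (s8pB (s8nB k i)) = fdec8 (s8pB i) * permEnd8 (s8b k)
      rw [(s8B_nxt k hk i hi).2.1, fdec8_pcomp, hιA k hk]⟩)
    (fun k hk i hi => by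
      show md6 K (s8mB (s8nB k i)) = md6 K (s8mB i) * ι' (A' k)
      rw [(s8B_nxt k hk i hi).2.2, md6_mul, hιA' k hk])
    s8B_par
    (fun k hk => Equiv.ext (fun x => s8b_sq k hk x))
    (fun k hk => by
      apply hι'
      rw [map_mul, map_one, hιA' k hk, hsq k hk])
  exact ⟨_, _, h1, h2, h3⟩

/-- The Sylow 2-subgroups of `A₈` and `PSp₄(3)` are isomorphic, and so are those of `S₈` and of
the isometry group of the minus-type quadratic form in dimension 6 over `F₂`. -/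
theorem s2931_main (F : Type) [Field F] [Fintype F] (hF : Fintype.card F = 3) (K : Type) [Field K]
    [Fintype K] (hK : Fintype.card K = 2) (a b : K)
    (hab : ∀ z₁ z₂ : K, z₁ ^ 2 + a * z₁ * z₂ + b * z₂ ^ 2 = 0 → z₁ = 0 ∧ z₂ = 0)
    (P : Sylow 2 ↥(alternatingGroup (Fin 8))) (Q : Sylow 2 (Cfsg.PSp 2 F))
    (P' : Sylow 2 (Equiv.Perm (Fin 8)))
    (Q' : Sylow 2 ↥(Cfsg.isometryGroup K (Cfsg.quadFormMinus 2 K a b))) :
    Nonempty (↥(P : Subgroup ↥(alternatingGroup (Fin 8))) ≃* ↥(Q : Subgroup (Cfsg.PSp 2 F))) ∧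
    Nonempty (↥(P' : Subgroup (Equiv.Perm (Fin 8))) ≃*
      ↥(Q' : Subgroup ↥(Cfsg.isometryGroup K (Cfsg.quadFormMinus 2 K a b)))) := by
  constructor
  · letI : Fintype (GaloisField 2 2) := Fintype.ofFinite _
    have hF4 : Fintype.card (GaloisField 2 2) = 4 := by
      rw [← Nat.card_eq_fintype_card, GaloisField.card 2 2 (by norm_num)]
      norm_num
    obtain ⟨T, T', hT, hT', ⟨e⟩⟩ := s8A_iso (F := GaloisField 2 2) hF4
    obtain ⟨e0⟩ := u42_main (F := GaloisField 2 2) (K := F) hF4 hF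
    have hcen := su42_center hF4
    let e2 : Cfsg.PSU 4 (GaloisField 2 2) 2 ≃* ↥(Cfsg.SU 4 (GaloisField 2 2) 2) :=
      (QuotientGroup.quotientMulEquivOfEq hcen).trans QuotientGroup.quotientBot
    let e3 : ↥(Cfsg.SU 4 (GaloisField 2 2) 2) ≃* Cfsg.PSp 2 F := e2.symm.trans e0
    have hSU := su42_card hF4
    have hPSp : Nat.card (Cfsg.PSp 2 F) = 25920 := by
      rw [← hSU]
      exact Nat.card_congr e3.symm.toEquiv
    haveI : Finite (Cfsg.PSp 2 F) := Nat.finite_of_card_ne_zero (by rw [hPSp]; norm_num)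
    have e4 := e3.subgroupMap T'
    have hT2 := Nat.card_congr e4.toEquiv
    rw [hT'] at hT2
    obtain ⟨eQ⟩ := sylow_iso_of_card 2 6 _ (by rw [← hT2]; norm_num) (by rw [hPSp]; norm_num) Q
    obtain ⟨eP⟩ := sylow_iso_of_card 2 6 T (by rw [hT]; norm_num) (by rw [a8_card]; norm_num) P
    exact ⟨eP.trans (e.trans (e4.trans eQ.symm))⟩
  · obtain ⟨ha, hb⟩ := f2_ab hK a b hab
    subst ha hb
    obtain ⟨T, T', hT, hT', ⟨e⟩⟩ := s8B_iso hK
    have hO := o6_card hK 1 1 hab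
    haveI : Finite ↥(Cfsg.isometryGroup K (Cfsg.quadFormMinus 2 K 1 1)) :=
      Nat.finite_of_card_ne_zero (by rw [hO]; norm_num)
    obtain ⟨eQ⟩ := sylow_iso_of_card 2 7 T' (by rw [hT']; norm_num) (by rw [hO]; norm_num) Q'
    obtain ⟨eP⟩ := sylow_iso_of_card 2 7 T (by rw [hT]; norm_num) (by rw [s8_card]; norm_num) P'
    exact ⟨eP.trans (e.trans eQ.symm)⟩

end Main

end Cfsg.Agent.Helper2
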