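import Mathlib
import Cfsg.Agent.Helper2.Fld4
import Cfsg.Agent.Helper2.ExcIso
import Cfsg.Agent.Helper15.SUCenter
import Cfsg.Agent.Helper1.Quat

set_option autoImplicit false

namespace Cfsg.Agent.Helper2

section sucongr

variable {F K : Type*} [Field F] [Field K]

theorem su3_herm_map (e : F ≃+* K) (n q : ℕ) (u v : Fin n → F) :
    Cfsg.hermForm n K q (fun i => e (u i)) (fun i => e (v i)) = e (Cfsg.hermForm n F q u v) := by
  unfold Cfsg.hermForm
  rw [map_sum]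
  apply Finset.sum_congr rfl
  intro i _
  rw [map_mul, map_pow]

theorem su3_map_mem (e : F ≃+* K) (n q : ℕ) (s : Matrix.SpecialLinearGroup (Fin n) F)
    (hs : s ∈ Cfsg.SU n F q) : slCongr e s ∈ Cfsg.SU n K q := by
  rw [Helper15.mem_SU_iff] at hs ⊢
  intro u v
  have key : ∀ x : Fin n → K,
      ((slCongr e s : Matrix.SpecialLinearGroup (Fin n) K) : Matrix (Fin n) (Fin n) K).mulVec x
        = fun i => e (((s : Matrix (Fin n) (Fin n) F).mulVec (fun j => e.symm (x j))) i) := by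
    intro x
    funext i
    simp [Matrix.mulVec, dotProduct, slCongr]
  rw [key, key, su3_herm_map, hs, ← su3_herm_map]
  simp

theorem su3_map_eq (e : F ≃+* K) (n q : ℕ) :
    (Cfsg.SU n F q).map (slCongr (n := Fin n) e).toMonoidHom = Cfsg.SU n K q := by
  ext s
  constructor
  · rintro ⟨t, ht, rfl⟩
    exact su3_map_mem e n q t ht
  · intro hs
    refine ⟨(slCongr e).symm s, ?_, by simp⟩
    exact su3_map_mem e.symm n q s hs

/-- A ring isomorphism induces an isomorphism of special unitary groups. -/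
noncomputable def suCongr (e : F ≃+* K) (n q : ℕ) : Cfsg.SU n F q ≃* Cfsg.SU n K q :=
  ((slCongr (n := Fin n) e).subgroupMap (Cfsg.SU n F q)).trans
    (MulEquiv.subgroupCongr (su3_map_eq e n q))

/-- A ring isomorphism induces an isomorphism of projective special unitary groups. -/
noncomputable def psuCongr (e : F ≃+* K) (n q : ℕ) : Cfsg.PSU n F q ≃* Cfsg.PSU n K q :=
  QuotientGroup.congr _ _ (suCongr e n q) (center_map_mulEquiv (suCongr e n q))

end sucongr

section concrete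

open Fld4

/-- The monomial matrix with entries `a, b, c` on the `k`-th cyclic diagonal. -/
def su3Cmon (k : Fin 3) (a b c : Fld4) : Matrix (Fin 3) (Fin 3) Fld4 :=
  fun i j => if j = i + k then (![a, b, c] : Fin 3 → Fld4) i else 0

/-- A matrix supported on a cyclic diagonal. -/
def Su3IsCyc (M : Fin 3 → Fin 3 → Fld4) : Prop :=
  ∃ k : Fin 3, ∀ i j : Fin 3, j ≠ i + k → M i j = 0

instance su3IsCycDec : DecidablePred Su3IsCyc := fun M => by
  unfold Su3IsCyc
  infer_instance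

instance su3IsCycDec' (M : Matrix (Fin 3) (Fin 3) Fld4) : Decidable (Su3IsCyc M) :=
  su3IsCycDec M

theorem su3_isCyc_mul {M M' : Matrix (Fin 3) (Fin 3) Fld4} (h : Su3IsCyc M) (h' : Su3IsCyc M') :
    Su3IsCyc (M * M') := by
  obtain ⟨k, hk⟩ := h
  obtain ⟨k', hk'⟩ := h'
  refine ⟨k + k', ?_⟩
  intro i j hij
  rw [Matrix.mul_apply]
  apply Finset.sum_eq_zero
  intro l _
  by_cases hl : l = i + k
  · rw [hk' l j, mul_zero]
    intro hj
    apply hij
    rw [hj, hl, add_assoc]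
  · rw [hk i l hl, zero_mul]

theorem su3_isCyc_one : Su3IsCyc (1 : Matrix (Fin 3) (Fin 3) Fld4) := by
  refine ⟨0, ?_⟩
  intro i j hij
  rw [add_zero] at hij
  exact Matrix.one_apply_ne (Ne.symm hij)

theorem su3_isCyc_eq {M : Matrix (Fin 3) (Fin 3) Fld4} (h : Su3IsCyc M) :
    ∃ k a b c, M = su3Cmon k a b c := by
  obtain ⟨k, hk⟩ := h
  refine ⟨k, M 0 (0 + k), M 1 (1 + k), M 2 (2 + k), ?_⟩
  ext i j
  unfold su3Cmon
  by_cases hij : j = i + k
  · rw [if_pos hij, hij]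
    fin_cases i <;> rfl
  · rw [if_neg hij]
    exact hk i j hij

theorem su3_cmon_det : ∀ (k : Fin 3) (a b c : Fld4), (su3Cmon k a b c).det = a * b * c := by
  intro k a b c
  rw [Matrix.det_fin_three]
  revert k a b c
  decide

theorem su3_cmon_cube : ∀ (k : Fin 3) (a b c : Fld4), a * b * c = 1 →
    su3Cmon k a b c * su3Cmon k a b c * su3Cmon k a b c = 1 := by
  decide +kernel

/-- The underlying matrix of an element of `SU₃(2)` over the concrete field. -/
def su3Mat (g : Cfsg.SU 3 Fld4 2) : Matrix (Fin 3) (Fin 3) Fld4 :=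
  ((g : Matrix.SpecialLinearGroup (Fin 3) Fld4) : Matrix (Fin 3) (Fin 3) Fld4)

theorem su3Mat_mul (g h : Cfsg.SU 3 Fld4 2) : su3Mat (g * h) = su3Mat g * su3Mat h := rfl

theorem su3Mat_one : su3Mat 1 = 1 := rfl

theorem su3Mat_inj {g h : Cfsg.SU 3 Fld4 2} (e : su3Mat g = su3Mat h) : g = h :=
  Subtype.ext (Subtype.ext e)

theorem su3Mat_det (g : Cfsg.SU 3 Fld4 2) : (su3Mat g).det = 1 := g.1.2

/-- Build an element of `SU₃(2)` from a matrix. -/
def su3Mk (M : Matrix (Fin 3) (Fin 3) Fld4) (hdet : M.det = 1)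
    (h : ∀ a b c d e f : Fld4, Cfsg.hermForm 3 Fld4 2 (M.mulVec ![a, b, c]) (M.mulVec ![d, e, f])
      = Cfsg.hermForm 3 Fld4 2 ![a, b, c] ![d, e, f]) : Cfsg.SU 3 Fld4 2 :=
  ⟨(⟨M, hdet⟩ : Matrix.SpecialLinearGroup (Fin 3) Fld4), by
    refine (Helper15.mem_SU_iff 3 2 _).2 ?_
    intro u v
    show Cfsg.hermForm 3 Fld4 2 (M.mulVec u) (M.mulVec v) = _
    have hu : u = ![u 0, u 1, u 2] := by
      funext i
      fin_cases i <;> rfl
    have hv : v = ![v 0, v 1, v 2] := by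
      funext i
      fin_cases i <;> rfl
    rw [hu, hv]
    exact h _ _ _ _ _ _⟩

theorem su3Mat_mk (M : Matrix (Fin 3) (Fin 3) Fld4) (hdet : M.det = 1)
    (h : ∀ a b c d e f : Fld4, Cfsg.hermForm 3 Fld4 2 (M.mulVec ![a, b, c]) (M.mulVec ![d, e, f])
      = Cfsg.hermForm 3 Fld4 2 ![a, b, c] ![d, e, f]) : su3Mat (su3Mk M hdet h) = M := rfl

def su3MA : Matrix (Fin 3) (Fin 3) Fld4 := !![o, o, w; o, w, o; v, w, w]

def su3MB : Matrix (Fin 3) (Fin 3) Fld4 := !![o, v, o; w, w, o; o, w, w]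

theorem su3MA_det : su3MA.det = 1 := by
  rw [Matrix.det_fin_three]
  decide

theorem su3MB_det : su3MB.det = 1 := by
  rw [Matrix.det_fin_three]
  decide

theorem su3MA_herm : ∀ a b c d e f : Fld4,
    Cfsg.hermForm 3 Fld4 2 (su3MA.mulVec ![a, b, c]) (su3MA.mulVec ![d, e, f])
      = Cfsg.hermForm 3 Fld4 2 ![a, b, c] ![d, e, f] := by
  decide +kernel

theorem su3MB_herm : ∀ a b c d e f : Fld4,
    Cfsg.hermForm 3 Fld4 2 (su3MB.mulVec ![a, b, c]) (su3MB.mulVec ![d, e, f])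
      = Cfsg.hermForm 3 Fld4 2 ![a, b, c] ![d, e, f] := by
  decide +kernel

theorem su3MD_herm : ∀ a b c d e f : Fld4,
    Cfsg.hermForm 3 Fld4 2 ((su3Cmon 0 o w v).mulVec ![a, b, c]) ((su3Cmon 0 o w v).mulVec ![d, e, f])
      = Cfsg.hermForm 3 Fld4 2 ![a, b, c] ![d, e, f] := by
  decide +kernel

theorem su3MS_herm : ∀ a b c d e f : Fld4,
    Cfsg.hermForm 3 Fld4 2 ((su3Cmon 1 o o o).mulVec ![a, b, c]) ((su3Cmon 1 o o o).mulVec ![d, e, f])
      = Cfsg.hermForm 3 Fld4 2 ![a, b, c] ![d, e, f] := by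
  decide +kernel

def su3A : Cfsg.SU 3 Fld4 2 := su3Mk su3MA su3MA_det su3MA_herm
def su3B : Cfsg.SU 3 Fld4 2 := su3Mk su3MB su3MB_det su3MB_herm
def su3D : Cfsg.SU 3 Fld4 2 := su3Mk (su3Cmon 0 o w v) (by rw [su3_cmon_det]; decide) su3MD_herm
def su3S : Cfsg.SU 3 Fld4 2 := su3Mk (su3Cmon 1 o o o) (by rw [su3_cmon_det]; decide) su3MS_herm

theorem su3_cyc_cube (g : Cfsg.SU 3 Fld4 2) (hg : Su3IsCyc (su3Mat g)) : g ^ 3 = 1 := by
  obtain ⟨k, a, b, c, h⟩ := su3_isCyc_eq hg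
  have hdet : a * b * c = 1 := by
    rw [← su3_cmon_det k, ← h]
    exact su3Mat_det g
  apply su3Mat_inj
  rw [pow_succ, pow_two, su3Mat_mul, su3Mat_mul, h]
  exact su3_cmon_cube k a b c hdet

/-- The subgroup of cyclic-monomial matrices of `SU₃(2)`. -/
def su3N : Subgroup (Cfsg.SU 3 Fld4 2) where
  carrier := {g | Su3IsCyc (su3Mat g)}
  mul_mem' := fun ha hb => su3_isCyc_mul ha hb
  one_mem' := su3_isCyc_one
  inv_mem' := by
    intro g hg
    have h3 : g ^ 3 = 1 := su3_cyc_cube g hg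
    have h4 : g⁻¹ = g * g := by
      rw [inv_eq_iff_mul_eq_one, ← h3, pow_succ, pow_two, mul_assoc]
    rw [h4]
    exact su3_isCyc_mul hg hg

theorem su3N_mem (g : Cfsg.SU 3 Fld4 2) : g ∈ su3N ↔ Su3IsCyc (su3Mat g) := Iff.rfl

theorem su3_card : Nat.card (Cfsg.SU 3 Fld4 2) = 216 := by
  have h1 := Helper15.card_SU (K := Fld4) (q := 2) (by rw [Fld4.card_eq]; norm_num) 3 (by omega)
  have h4 : 2 ^ (3 * (3 - 1) / 2) * ∏ i ∈ Finset.range 3,
      (if Even i then 2 ^ (i + 1) + 1 else 2 ^ (i + 1) - 1) = 648 := by decide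
  rw [h4] at h1
  omega

theorem su3N_pgroup : IsPGroup 3 su3N := by
  intro g
  refine ⟨1, ?_⟩
  apply Subtype.ext
  rw [pow_one, Subgroup.coe_pow]
  exact su3_cyc_cube g.1 g.2

theorem su3D_mem : su3D ∈ su3N := by
  rw [su3N_mem]
  show Su3IsCyc (su3Cmon 0 o w v)
  decide

theorem su3S_mem : su3S ∈ su3N := by
  rw [su3N_mem]
  show Su3IsCyc (su3Cmon 1 o o o)
  decide

theorem su3N_card : Nat.card su3N = 27 := by
  haveI : Fact (Nat.Prime 3) := ⟨Nat.prime_three⟩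
  obtain ⟨n, hn⟩ := (IsPGroup.iff_card.1 su3N_pgroup)
  have hdvd : Nat.card su3N ∣ 216 := by
    rw [← su3_card]
    exact Subgroup.card_subgroup_dvd_card _
  have hn3 : n ≤ 3 := by
    by_contra hcon
    have h1 : 3 ^ 4 ∣ 3 ^ n := Nat.pow_dvd_pow 3 (by omega)
    have h2 : 3 ^ 4 ∣ 216 := by
      rw [hn] at hdvd
      exact h1.trans hdvd
    omega
  have hnc : ¬ ∀ a b : su3N, a * b = b * a := by
    intro hc
    have h1 := hc ⟨su3D, su3D_mem⟩ ⟨su3S, su3S_mem⟩
    have h2 := congrArg (fun x : su3N => su3Mat x.1) h1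
    have h3 : su3Cmon 0 o w v * su3Cmon 1 o o o = su3Cmon 1 o o o * su3Cmon 0 o w v := h2
    revert h3
    decide
  interval_cases n
  · exfalso
    apply hnc
    intro a b
    haveI : Subsingleton su3N := (Nat.card_eq_one_iff_unique.1 hn).1
    exact Subsingleton.elim _ _
  · exfalso
    apply hnc
    haveI := isCyclic_of_prime_card (p := 3) hn
    intro a b
    exact (IsCyclic.commGroup (α := su3N)).mul_comm a b
  · exfalso
    apply hnc
    exact IsPGroup.commutative_of_card_eq_prime_sq hn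
  · exact hn

theorem su3N_index : su3N.index = 8 := by
  have h := Subgroup.card_mul_index su3N
  rw [su3N_card, su3_card] at h
  omega

theorem su3A_pow4 : su3A * su3A * su3A * su3A = 1 := by
  apply su3Mat_inj
  show su3MA * su3MA * su3MA * su3MA = 1
  decide

theorem su3A_inv : su3A⁻¹ = su3A * su3A * su3A := by
  rw [inv_eq_iff_mul_eq_one, ← su3A_pow4]
  simp only [mul_assoc]

theorem su3A_sq_not_mem : su3A * su3A ∉ su3N := by
  rw [su3N_mem]
  show ¬ Su3IsCyc (su3MA * su3MA)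
  decide

theorem su3A_conj_aux : ∀ (k : Fin 3) (a b c : Fld4), a * b * c = 1 →
    Su3IsCyc (su3MA * su3Cmon k a b c * (su3MA * su3MA * su3MA)) := by
  decide +kernel

theorem su3A_conj (h : Cfsg.SU 3 Fld4 2) (hh : h ∈ su3N) : su3A * h * su3A⁻¹ ∈ su3N := by
  rw [su3N_mem] at hh ⊢
  obtain ⟨k, a, b, c, hm⟩ := su3_isCyc_eq hh
  have hdet : a * b * c = 1 := by
    rw [← su3_cmon_det k, ← hm]
    exact su3Mat_det h
  rw [su3A_inv]
  show Su3IsCyc (su3MA * su3Mat h * (su3MA * su3MA * su3MA))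
  rw [hm]
  exact su3A_conj_aux k a b c hdet

theorem su3A_mem_normalizer : su3A ∈ Subgroup.normalizer (su3N : Set (Cfsg.SU 3 Fld4 2)) := by
  rw [Subgroup.mem_normalizer_iff]
  intro h
  constructor
  · exact su3A_conj h
  · intro hh
    have h1 := su3A_conj _ (su3A_conj _ (su3A_conj _ hh))
    have h2 : su3A * (su3A * (su3A * (su3A * h * su3A⁻¹) * su3A⁻¹) * su3A⁻¹) * su3A⁻¹
        = (su3A * su3A * su3A * su3A) * h * (su3A * su3A * su3A * su3A)⁻¹ := by group
    rw [h2, su3A_pow4, one_mul, inv_one, mul_one] at h1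
    exact h1

theorem su3N_normal : su3N.Normal := by
  haveI : Fact (Nat.Prime 3) := ⟨Nat.prime_three⟩
  let P : Sylow 3 (Cfsg.SU 3 Fld4 2) := su3N_pgroup.toSylow (by rw [su3N_index]; decide)
  have h1 := card_sylow_modEq_one 3 (Cfsg.SU 3 Fld4 2)
  have h2 : Nat.card (Sylow 3 (Cfsg.SU 3 Fld4 2))
      = (Subgroup.normalizer (su3N : Set (Cfsg.SU 3 Fld4 2))).index := P.card_eq_index_normalizer
  rw [h2] at h1
  have hle : su3N ≤ Subgroup.normalizer (su3N : Set (Cfsg.SU 3 Fld4 2)) := Subgroup.le_normalizer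
  obtain ⟨c, hc⟩ : 27 ∣ Nat.card (Subgroup.normalizer (su3N : Set (Cfsg.SU 3 Fld4 2))) := by
    rw [← su3N_card]
    exact Subgroup.card_dvd_of_le hle
  have hTi := Subgroup.card_mul_index (Subgroup.normalizer (su3N : Set (Cfsg.SU 3 Fld4 2)))
  rw [su3_card, hc] at hTi
  have hci : c * (Subgroup.normalizer (su3N : Set (Cfsg.SU 3 Fld4 2))).index = 8 := by
    have : 27 * (c * (Subgroup.normalizer (su3N : Set (Cfsg.SU 3 Fld4 2))).index) = 27 * 8 := by
      rw [← mul_assoc, hTi]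
    exact Nat.eq_of_mul_eq_mul_left (by norm_num) this
  have hmod : (Subgroup.normalizer (su3N : Set (Cfsg.SU 3 Fld4 2))).index % 3 = 1 := h1
  have hile : (Subgroup.normalizer (su3N : Set (Cfsg.SU 3 Fld4 2))).index ≤ 8 :=
    Nat.le_of_dvd (by norm_num) ⟨c, by rw [mul_comm]; exact hci.symm⟩
  have hcases : (Subgroup.normalizer (su3N : Set (Cfsg.SU 3 Fld4 2))).index = 1 ∨
      (Subgroup.normalizer (su3N : Set (Cfsg.SU 3 Fld4 2))).index = 4 := by
    generalize (Subgroup.normalizer (su3N : Set (Cfsg.SU 3 Fld4 2))).index = i at hci hmod hile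
    interval_cases i <;> omega
  rcases hcases with h | h
  · exact Subgroup.normalizer_eq_top_iff.1 (Subgroup.index_eq_one.1 h)
  · exfalso
    rw [h] at hci
    have hc2 : c = 2 := by omega
    rw [hc2] at hc
    have h3 := Subgroup.card_mul_index
      (su3N.subgroupOf (Subgroup.normalizer (su3N : Set (Cfsg.SU 3 Fld4 2))))
    rw [Nat.card_congr (Subgroup.subgroupOfEquivOfLe hle).toEquiv, su3N_card, hc] at h3
    have h4 : (su3N.subgroupOf (Subgroup.normalizer (su3N : Set (Cfsg.SU 3 Fld4 2)))).index = 2 := by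
      omega
    have h5 := Subgroup.sq_mem_of_index_two h4 ⟨su3A, su3A_mem_normalizer⟩
    rw [Subgroup.mem_subgroupOf] at h5
    apply su3A_sq_not_mem
    rw [← pow_two]
    exact h5

theorem su3_ABA : su3A * su3B * su3A = su3B := by
  apply su3Mat_inj
  show su3MA * su3MB * su3MA = su3MB
  decide

theorem su3_BB : su3B * su3B = su3A * su3A := by
  apply su3Mat_inj
  show su3MB * su3MB = su3MA * su3MA
  decide

theorem su3_quot_quat (hN : su3N.Normal) :
    Nonempty ((Cfsg.SU 3 Fld4 2) ⧸ su3N ≃* QuaternionGroup 2) := by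
  have hcard : Nat.card ((Cfsg.SU 3 Fld4 2) ⧸ su3N) = 2 ^ (2 + 1) := by
    rw [← Subgroup.index_eq_card, su3N_index]
    norm_num
  have ha2 : ¬ (QuotientGroup.mk su3A : (Cfsg.SU 3 Fld4 2) ⧸ su3N) ^ 2 ^ 1 = 1 := by
    rw [pow_one, pow_two]
    intro h
    have h1 : (QuotientGroup.mk (su3A * su3A) : (Cfsg.SU 3 Fld4 2) ⧸ su3N) = 1 := h
    exact su3A_sq_not_mem ((QuotientGroup.eq_one_iff _).1 h1)
  have ha4 : (QuotientGroup.mk su3A : (Cfsg.SU 3 Fld4 2) ⧸ su3N) ^ 2 ^ (1 + 1) = 1 := by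
    have h1 : (QuotientGroup.mk su3A : (Cfsg.SU 3 Fld4 2) ⧸ su3N) ^ 2 ^ (1 + 1)
        = QuotientGroup.mk (su3A * su3A * su3A * su3A) := by
      rw [QuotientGroup.mk_mul, QuotientGroup.mk_mul, QuotientGroup.mk_mul]
      norm_num [pow_succ]
    rw [h1, su3A_pow4]
    rfl
  have hoa : orderOf (QuotientGroup.mk su3A : (Cfsg.SU 3 Fld4 2) ⧸ su3N) = 2 ^ 2 :=
    orderOf_eq_prime_pow ha2 ha4
  have hxa : (QuotientGroup.mk su3B : (Cfsg.SU 3 Fld4 2) ⧸ su3N) * QuotientGroup.mk su3A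
      * (QuotientGroup.mk su3B)⁻¹ = (QuotientGroup.mk su3A)⁻¹ := by
    rw [mul_inv_eq_iff_eq_mul, eq_inv_mul_iff_mul_eq, ← mul_assoc]
    exact congrArg _ su3_ABA
  have hx2 : (QuotientGroup.mk su3B : (Cfsg.SU 3 Fld4 2) ⧸ su3N) ^ 2
      = (QuotientGroup.mk su3A) ^ (2 ^ (2 - 1)) := by
    have h1 : (2 : ℕ) ^ (2 - 1) = 2 := by norm_num
    rw [h1, pow_two, pow_two]
    exact congrArg _ su3_BB
  have hx : (QuotientGroup.mk su3B : (Cfsg.SU 3 Fld4 2) ⧸ su3N)
      ∉ Subgroup.zpowers (QuotientGroup.mk su3A : (Cfsg.SU 3 Fld4 2) ⧸ su3N) := by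
    intro hx
    obtain ⟨k, hk⟩ := hx
    have hcomm : (QuotientGroup.mk su3B : (Cfsg.SU 3 Fld4 2) ⧸ su3N) * QuotientGroup.mk su3A
        = QuotientGroup.mk su3A * QuotientGroup.mk su3B := by
      rw [← hk]
      exact ((Commute.refl _).zpow_left k).eq
    rw [hcomm, mul_inv_cancel_right] at hxa
    apply ha2
    rw [pow_one, pow_two]
    nth_rewrite 2 [hxa]
    exact mul_inv_cancel _
  exact Helper1.quat_iso 2 _ _ (by norm_num) hoa hcard hx hxa hx2

theorem su3_center_le : Subgroup.center (Cfsg.SU 3 Fld4 2) ≤ su3N := by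
  intro z hz
  rw [Subgroup.mem_center_iff] at hz
  obtain ⟨c, -, -, hc⟩ := Helper15.su_center_scalar (K := Fld4) (q := 2)
    (by rw [Fld4.card_eq]; norm_num) 3 (by omega) z.1 z.2 (by
      intro s hs
      have h1 := hz ⟨s, hs⟩
      exact congrArg su3Mat h1)
  rw [su3N_mem]
  refine ⟨0, ?_⟩
  intro i j hij
  rw [add_zero] at hij
  have h2 : su3Mat z = c • (1 : Matrix (Fin 3) (Fin 3) Fld4) := hc
  rw [h2, Matrix.smul_apply, Matrix.one_apply_ne (Ne.symm hij), smul_zero]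

theorem su3_main4 : ∃ (N : Subgroup (Cfsg.PSU 3 Fld4 2)) (_ : N.Normal), Nat.card N = 9 ∧
    (∀ x ∈ N, x ^ 3 = 1) ∧ Nonempty (Cfsg.PSU 3 Fld4 2 ⧸ N ≃* QuaternionGroup 2) := by
  have hN := su3N_normal
  have hsurj : Function.Surjective (QuotientGroup.mk' (Subgroup.center (Cfsg.SU 3 Fld4 2))) :=
    QuotientGroup.mk'_surjective _
  refine ⟨su3N.map (QuotientGroup.mk' (Subgroup.center (Cfsg.SU 3 Fld4 2))),
    hN.map _ hsurj, ?_, ?_, ?_⟩
  · have hidx : (su3N.map (QuotientGroup.mk' (Subgroup.center (Cfsg.SU 3 Fld4 2)))).index = 8 := by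
      rw [Subgroup.index_map_eq _ hsurj (by rw [QuotientGroup.ker_mk']; exact su3_center_le)]
      exact su3N_index
    have h1 := Subgroup.card_mul_index
      (su3N.map (QuotientGroup.mk' (Subgroup.center (Cfsg.SU 3 Fld4 2))))
    have h2 := Subgroup.card_eq_card_quotient_mul_card_subgroup
      (Subgroup.center (Cfsg.SU 3 Fld4 2))
    rw [su3_card, Helper15.card_center_SU (K := Fld4) (q := 2)
      (by rw [Fld4.card_eq]; norm_num) 3 (by omega)] at h2
    have h3 : Nat.gcd 3 (2 + 1) = 3 := by decide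
    rw [h3] at h2
    rw [hidx] at h1
    have h4 : Nat.card (Cfsg.PSU 3 Fld4 2) = 72 := by
      show Nat.card (Cfsg.SU 3 Fld4 2 ⧸ Subgroup.center (Cfsg.SU 3 Fld4 2)) = 72
      omega
    rw [h4] at h1
    exact Nat.eq_of_mul_eq_mul_right (by norm_num : 0 < 8) h1
  · rintro x ⟨g, hg, rfl⟩
    rw [← map_pow, su3_cyc_cube g hg, map_one]
  · obtain ⟨φ⟩ := su3_quot_quat hN
    exact ⟨(QuotientGroup.quotientQuotientEquivQuotient _ _ su3_center_le).trans φ⟩

/-- `PSU₃(2) ≅ 3² : Q₈`: over any field with four elements, `PSU₃(2)` has a normal subgroup of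
order 9 and exponent 3 with quotient the quaternion group of order 8. -/
theorem psu32_structure {F : Type*} [Field F] [Fintype F] (hF : Fintype.card F = 4) :
    ∃ (N : Subgroup (Cfsg.PSU 3 F 2)) (_ : N.Normal), Nat.card N = 9 ∧
      (∀ x ∈ N, x ^ 3 = 1) ∧ Nonempty (Cfsg.PSU 3 F 2 ⧸ N ≃* QuaternionGroup 2) := by
  obtain ⟨N, hN, hcard, hexp, ⟨φ⟩⟩ := su3_main4
  let e : F ≃+* Fld4 := FiniteField.ringEquivOfCardEq (hF.trans Fld4.card_eq.symm)
  obtain ⟨ψ⟩ : Nonempty (Cfsg.PSU 3 F 2 ≃* Cfsg.PSU 3 Fld4 2) := ⟨psuCongr e 3 2⟩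
  refine ⟨N.comap ψ.toMonoidHom, hN.comap _, ?_, ?_, ?_⟩
  · rw [Subgroup.comap_equiv_eq_map_symm']
    rw [Subgroup.card_map_of_injective ψ.symm.injective]
    exact hcard
  · intro x hx
    rw [Subgroup.mem_comap] at hx
    apply ψ.injective
    rw [map_pow, map_one]
    exact hexp _ hx
  · have hmap : (N.comap ψ.toMonoidHom).map ψ.toMonoidHom = N :=
      Subgroup.map_comap_eq_self_of_surjective ψ.surjective N
    haveI := hN
    exact ⟨(QuotientGroup.congr _ _ ψ hmap).trans φ⟩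

end concrete

end Cfsg.Agent.Helper2
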