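import Mathlib
import Cfsg.Agent.Helper2.U42Codes
import Cfsg.Agent.Helper8.QDLift

set_option autoImplicit false

namespace Cfsg.Agent.Helper2

/-! A model of the quotient of the unitriangular group of degree 5 over `F₂` by its centre (the
entries above the diagonal, the corner left out), and three facts on its subgroups. -/

/-- The entries `(1,2), (2,3), (3,4), (4,5), (1,3), (2,4), (3,5), (1,4), (2,5)`. -/
@[ext] structure SyM where
  a : Bool
  b : Bool
  c : Bool
  d : Bool
  e : Bool
  f : Bool
  g : Bool
  h : Bool
  k : Bool
deriving DecidableEq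

namespace SyM

/-- Addition of bits. -/
def bx (a b : Bool) : Bool := cond a (cond b false true) b

/-- Product of bits. -/
def ba (a b : Bool) : Bool := cond a b false

def mul' (x y : SyM) : SyM :=
  ⟨bx x.a y.a, bx x.b y.b, bx x.c y.c, bx x.d y.d,
    bx (bx x.e y.e) (ba x.a y.b), bx (bx x.f y.f) (ba x.b y.c), bx (bx x.g y.g) (ba x.c y.d),
    bx (bx (bx x.h y.h) (ba x.a y.f)) (ba x.e y.c),
    bx (bx (bx x.k y.k) (ba x.b y.g)) (ba x.f y.d)⟩

def one' : SyM := ⟨false, false, false, false, false, false, false, false, false⟩

def inv' (x : SyM) : SyM :=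
  ⟨x.a, x.b, x.c, x.d, bx x.e (ba x.a x.b), bx x.f (ba x.b x.c), bx x.g (ba x.c x.d),
    bx (bx x.h (ba x.a (bx x.f (ba x.b x.c)))) (ba x.e x.c),
    bx (bx x.k (ba x.b (bx x.g (ba x.c x.d)))) (ba x.f x.d)⟩

theorem mul_assoc' (x y z : SyM) : mul' (mul' x y) z = mul' x (mul' y z) := by
  rcases x with ⟨a1, b1, c1, d1, e1, f1, g1, h1, k1⟩
  rcases y with ⟨a2, b2, c2, d2, e2, f2, g2, h2, k2⟩
  rcases z with ⟨a3, b3, c3, d3, e3, f3, g3, h3, k3⟩
  simp only [mul', SyM.mk.injEq]
  refine ⟨?_, ?_, ?_, ?_, ?_, ?_, ?_, ?_, ?_⟩
  · revert a1 a2 a3; decide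
  · revert b1 b2 b3; decide
  · revert c1 c2 c3; decide
  · revert d1 d2 d3; decide
  · revert e1 e2 e3 a1 a2 b2 b3; decide
  · revert f1 f2 f3 b1 b2 c2 c3; decide
  · revert g1 g2 g3 c1 c2 d2 d3; decide
  · revert h1 h2 h3 a1 a2 e1 e2 f2 f3 b2 c2 c3; decide
  · revert k1 k2 k3 b1 b2 f1 f2 g2 g3 c2 d2 d3; decide

theorem one_mul_aux : ∀ a b c d e f g h k : Bool,
    mul' one' ⟨a, b, c, d, e, f, g, h, k⟩ = ⟨a, b, c, d, e, f, g, h, k⟩ := by decide

theorem inv_mul_aux : ∀ a b c d e f g h k : Bool,
    mul' (inv' ⟨a, b, c, d, e, f, g, h, k⟩) ⟨a, b, c, d, e, f, g, h, k⟩ = one' := by decide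

instance : Mul SyM := ⟨mul'⟩

instance : One SyM := ⟨one'⟩

instance : Inv SyM := ⟨inv'⟩

instance : Group SyM :=
  Group.ofLeftAxioms mul_assoc' (fun x => one_mul_aux x.a x.b x.c x.d x.e x.f x.g x.h x.k)
    (fun x => inv_mul_aux x.a x.b x.c x.d x.e x.f x.g x.h x.k)

theorem mul_eq (x y : SyM) : x * y = mul' x y := rfl

theorem one_eq : (1 : SyM) = one' := rfl

/-- A bit of a code. -/
def tb (i p : ℕ) : Bool := Nat.beq (Nat.mod (Nat.div i p) 2) 1

/-- The element with a given code. -/
def dec (i : ℕ) : SyM :=
  ⟨tb i 1, tb i 2, tb i 4, tb i 8, tb i 16, tb i 32, tb i 64, tb i 128, tb i 256⟩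

/-- The code of an element. -/
def code (x : SyM) : ℕ :=
  Nat.add (cond x.a 1 0) (Nat.add (cond x.b 2 0) (Nat.add (cond x.c 4 0) (Nat.add (cond x.d 8 0)
    (Nat.add (cond x.e 16 0) (Nat.add (cond x.f 32 0) (Nat.add (cond x.g 64 0)
    (Nat.add (cond x.h 128 0) (cond x.k 256 0))))))))

theorem dec_code_aux : ∀ a b c d e f g h k : Bool,
    dec (code ⟨a, b, c, d, e, f, g, h, k⟩) = ⟨a, b, c, d, e, f, g, h, k⟩ ∧
      code ⟨a, b, c, d, e, f, g, h, k⟩ < 512 := by decide +kernel

theorem dec_code (x : SyM) : dec (code x) = x :=
  (dec_code_aux x.a x.b x.c x.d x.e x.f x.g x.h x.k).1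

theorem code_lt (x : SyM) : code x < 512 :=
  (dec_code_aux x.a x.b x.c x.d x.e x.f x.g x.h x.k).2

theorem code_dec : ∀ i, i < 512 → code (dec i) = i := by decide +kernel

theorem code_inj : Function.Injective code := fun x y h => by
  rw [← dec_code x, ← dec_code y, h]

/-- The elements are listed by their codes. -/
def equivFin : SyM ≃ Fin 512 where
  toFun x := ⟨code x, code_lt x⟩
  invFun i := dec i
  left_inv := dec_code
  right_inv i := Fin.ext (code_dec i i.isLt)

instance : Finite SyM := Finite.of_equiv _ equivFin.symm

theorem card_eq : Nat.card SyM = 512 := by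
  rw [Nat.card_congr equivFin, Nat.card_fin]

theorem isPGroup : IsPGroup 2 SyM := IsPGroup.of_card (n := 9) (by rw [card_eq]; norm_num)

/-- Counting the `m < n` with `p m`. -/
def cntUpTo (p : ℕ → Bool) (n : ℕ) : ℕ := Nat.rec 0 (fun m ih => cond (p m) (Nat.succ ih) ih) n

theorem cntUpTo_eq (p : ℕ → Bool) (n : ℕ) :
    cntUpTo p n = ((Finset.range n).filter (fun t => p t = true)).card := by
  induction n with
  | zero => rfl
  | succ n ih =>
    have h : cntUpTo p (n + 1) = cond (p n) (Nat.succ (cntUpTo p n)) (cntUpTo p n) := rfl
    rw [h, Finset.range_add_one, Finset.filter_insert, ih]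
    cases hp : p n
    · simp
    · simp [Finset.card_insert_of_notMem]

/-- Whether all `m < n` satisfy `p`. -/
def allUpTo (p : ℕ → Bool) (n : ℕ) : Bool := Nat.rec true (fun m ih => cond (p m) ih false) n

theorem allUpTo_spec (p : ℕ → Bool) (n : ℕ) (h : allUpTo p n = true) : ∀ t, t < n → p t = true := by
  induction n with
  | zero => intro t ht; omega
  | succ n ih =>
    have e : allUpTo p (n + 1) = cond (p n) (allUpTo p n) false := rfl
    rw [e] at h
    cases hp : p n
    · rw [hp] at h
      exact absurd h (by simp)
    · rw [hp] at h
      intro t ht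
      rcases Nat.lt_succ_iff_lt_or_eq.mp ht with h1 | h1
      · exact ih h t h1
      · rw [h1]; exact hp

theorem ball_of_allUpTo (P : ℕ → Prop) [DecidablePred P] (n : ℕ)
    (h : allUpTo (fun s => decide (P s)) n = true) : ∀ s, s < n → P s := by
  intro s hs
  exact of_decide_eq_true (allUpTo_spec _ n h s hs)

theorem ncard_le_cnt (X : Set SyM) (p : ℕ → Bool) (h : ∀ x ∈ X, p (code x) = true) :
    X.ncard ≤ cntUpTo p 512 := by
  rw [cntUpTo_eq]
  have hsub : X ⊆ dec '' (↑((Finset.range 512).filter (fun t => p t = true)) : Set ℕ) := by
    intro x hx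
    refine ⟨code x, ?_, dec_code x⟩
    rw [Finset.mem_coe, Finset.mem_filter, Finset.mem_range]
    exact ⟨code_lt x, h x hx⟩
  calc X.ncard ≤ (dec '' (↑((Finset.range 512).filter (fun t => p t = true)) : Set ℕ)).ncard :=
        Set.ncard_le_ncard hsub (Set.toFinite _)
    _ ≤ (↑((Finset.range 512).filter (fun t => p t = true)) : Set ℕ).ncard :=
        Set.ncard_image_le (Finset.finite_toSet _)
    _ = _ := Set.ncard_coe_finset _

theorem card_le_of_code {α : Type*} (f : α → ℕ) (hf : Function.Injective f) (F : Finset ℕ)
    (h : ∀ x, f x ∈ F) : Nat.card α ≤ F.card := by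
  have h1 := Nat.card_le_card_of_injective (fun x => (⟨f x, h x⟩ : ↥F))
    (fun x y hxy => hf (congrArg Subtype.val hxy))
  rwa [Nat.card_eq_fintype_card (α := ↥F), Fintype.card_coe] at h1

/-- The product on codes. -/
def smul (s t : ℕ) : ℕ :=
  Nat.xor (Nat.xor s t) (Nat.xor (Nat.xor
    (Nat.shiftLeft (Nat.land (Nat.land s 7) (Nat.shiftRight t 1)) 4)
    (Nat.shiftLeft (Nat.land (Nat.land s 3) (Nat.shiftRight t 5)) 7))
    (Nat.shiftLeft (Nat.land (Nat.land (Nat.shiftRight s 4) 3) (Nat.shiftRight t 2)) 7))

/-- The code of a product. -/
def mulc (x y : SyM) : ℕ :=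
  match x, y with
  | ⟨a, b, c, d, e, f, g, h, k⟩, ⟨a', b', c', d', e', f', g', h', k'⟩ =>
    Nat.add (cond (bx a a') 1 0) (Nat.add (cond (bx b b') 2 0) (Nat.add (cond (bx c c') 4 0)
    (Nat.add (cond (bx d d') 8 0) (Nat.add (cond (bx (bx e e') (ba a b')) 16 0)
    (Nat.add (cond (bx (bx f f') (ba b c')) 32 0) (Nat.add (cond (bx (bx g g') (ba c d')) 64 0)
    (Nat.add (cond (bx (bx (bx h h') (ba a f')) (ba e c')) 128 0)
      (cond (bx (bx (bx k k') (ba b g')) (ba f d')) 256 0))))))))

theorem mulc_eq (x y : SyM) : mulc x y = code (mul' x y) := by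
  rcases x with ⟨a, b, c, d, e, f, g, h, k⟩
  rcases y with ⟨a', b', c', d', e', f', g', h', k'⟩
  rfl

theorem link_chk : allUpTo (fun i => allUpTo (fun j =>
    Nat.beq (mulc (dec i) (dec j)) (smul i j)) 512) 512 = true := by
  decide +kernel

theorem code_mul (x y : SyM) : code (x * y) = smul (code x) (code y) := by
  have h1 := allUpTo_spec _ _ link_chk (code x) (code_lt x)
  have h2 := allUpTo_spec _ _ h1 (code y) (code_lt y)
  simp only [dec_code] at h2
  exact (mulc_eq x y).symm.trans (Nat.eq_of_beq_eq_true h2)

/-- Whether the elements with codes `s` and `t` commute. -/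
def commb (s t : ℕ) : Bool := Nat.beq (smul s t) (smul t s)

theorem commb_code (x y : SyM) : commb (code x) (code y) = true ↔ x * y = y * x := by
  unfold commb
  rw [← code_mul, ← code_mul]
  constructor
  · intro h
    exact code_inj (Nat.eq_of_beq_eq_true h)
  · intro h
    rw [h]
    exact Nat.beq_refl _

/-- The rank of a code in the removal of the elements outside the abelian subgroup. -/
def rkc (s : ℕ) : ℕ := dgB 4 46686550853685027559526265101028335252574670241743026911107718297733078968136217907685197973505375232743613951137514013675575483105741115039428953775505555732101316971911668797069407745336263492797622160256141297174934231826117333433896241374983325887305549291213862338054601142764708667466993017087264031 s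

def wA (s : ℕ) : ℕ := dgB 512 7773237022517891216254324422906396331815399167813935939922461883729517790488995194441894798346668637053584470696856892433651327193136721631987385626325509325666216133441638381248730603505923985820924540210414988783511078336054799550807040242610695051624195467522328369170805245231892797810051503548572858543839362597314429002116747915303691869033396617334603248604613414576217494733644532046545183132169464405454227176659064633696343891821787369128837612799610187472835867864634911874729995141758553076909674530116608821009103274881852527097901268079859132260256844461494190958169194831689564922997388628734950171862035731358303954198615812306165997760002043085035800875797644547390505925002469624724518506823705303336245228686535020849040903546278544591097786254667033367345509154845823710084182395756828410350037244945587615648377339852670007468042478034822742040896287042513059085332532479373208979854423290572382031298087140098709717631253709897154793407179868009855350038213952477362327528665907696428116123863783107924909106365004229983148784657318954226931858166781841481883502877142307677053982942469697860126141657603603223999162567516757427992147733268003146229909183812364032506066059438237612471093347707312221126271994909813547629495953973102701509517017127897875524650737357406408416999451620230782236485524303136283889009771034445558402398071439580278554624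 s

def wB (s : ℕ) : ℕ := dgB 512 26429005876560830135264373508252010741474247720758827762339508638940849827141845235425778516174380273127316834276069496527064908465243140730975508818554160259776334904952514869900540025452183719366943450354120914842647608130705199656820269417601209277030971595370119528136446686242807961120677677897379889014803356577484318164559227985440778414153929965225462027065228544991781699280412152699054455280599866572185756701283550659976801502973206230954736707977207429275618280997073483370176808832407600132610266294767274540046492302230650654365031718158422114732033783886612251288708907913908186950381889802708601947035270729939314956575952563407776777123093372327089817342761047354734683390661931215724230561063281120286591901924407861744768905034591187578198751604782587833852644025439984266222511004436680486501945731777245613823720844669447130833996012846535879838426846523270794624839728713837818646148937622912627302021327613358448588488833841936721139632499868160288360459521577705478994561406063261238557521379946299174091444202496700993511378424928809544797504591571170392501950135628887696542110017937468030518422927664225066148624795215706326151626101147570847451690059278665188678051968723522940103005631540719662189903778684991518018367058486822285872041836125726356112114283527634882965182049023147142587703042766352598699221807789178557357368147395727291580416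 s

def inXb (s t : ℕ) : Bool := ba (Nat.ble (rkc s) (rkc t)) (commb s t)

/-- The codes with the entries `(2,3), (3,4), (2,4)` zero. -/
def inEc (s : ℕ) : Bool := Nat.beq (Nat.land s 38) 0

theorem cert1 : ∀ s, s < 512 → 256 ≤ cntUpTo (commb s) 512 →
    (s % 128 = 0 ∨ s % 128 = 16 ∨ s % 128 = 64) :=
  ball_of_allUpTo (fun s => 256 ≤ cntUpTo (commb s) 512 →
    (s % 128 = 0 ∨ s % 128 = 16 ∨ s % 128 = 64)) 512 (by decide +kernel)

theorem cert2 : ∀ i, i < 4 → ∀ j, j < 4 →
    cntUpTo (fun u => ba (commb (Nat.add 16 (Nat.mul 128 i)) u)
      (commb (Nat.add 64 (Nat.mul 128 j)) u)) 512 < 256 := by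
  decide +kernel

theorem cert3 : ∀ s, s < 512 → rkc s < 3 → (cntUpTo (inXb s) 512 < 64 ∨
    (cntUpTo (inXb s) 512 = 64 ∧ inXb s (wA s) = true ∧ inXb s (wB s) = true ∧
      commb (wA s) (wB s) = false)) :=
  ball_of_allUpTo (fun s => rkc s < 3 → (cntUpTo (inXb s) 512 < 64 ∨
    (cntUpTo (inXb s) 512 = 64 ∧ inXb s (wA s) = true ∧ inXb s (wB s) = true ∧
      commb (wA s) (wB s) = false))) 512 (by decide +kernel)

theorem cert3b : ∀ s, s < 512 → 3 ≤ rkc s → inEc s = true :=
  ball_of_allUpTo (fun s => 3 ≤ rkc s → inEc s = true) 512 (by decide +kernel)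

theorem certE_mul : ∀ s, s < 512 → inEc s = true →
    allUpTo (fun t => cond (inEc t) (ba (inEc (smul s t)) (commb s t)) true) 512 = true :=
  ball_of_allUpTo (fun s => inEc s = true →
    allUpTo (fun t => cond (inEc t) (ba (inEc (smul s t)) (commb s t)) true) 512 = true) 512
    (by decide +kernel)

theorem certE_sq : ∀ s, s < 512 → inEc s = true → smul s s = 0 :=
  ball_of_allUpTo (fun s => inEc s = true → smul s s = 0) 512 (by decide +kernel)

theorem certE_card : cntUpTo inEc 512 = 64 := by
  decide +kernel

theorem certF : ((Finset.range 512).filter (fun s => s % 128 = 0 ∨ s % 128 = 16)).card = 8 ∧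
    ((Finset.range 512).filter (fun s => s % 128 = 0 ∨ s % 128 = 64)).card = 8 := by
  decide +kernel

end SyM

end Cfsg.Agent.Helper2
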