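import Mathlib
import Cfsg.Agent.Helper2.SylModel

set_option autoImplicit false

namespace Cfsg.Agent.Helper2

namespace SyM

/-! Three facts on the subgroups of the model: the centres of the maximal subgroups, the
elementary abelian subgroup of order 64, and its uniqueness among the abelian subgroups. -/

theorem ba_true {a b : Bool} : ba a b = true ↔ a = true ∧ b = true := by
  cases a <;> cases b <;> simp [ba]

theorem wA_lt (s : ℕ) : wA s < 512 := Nat.mod_lt _ (by norm_num)

theorem wB_lt (s : ℕ) : wB s < 512 := Nat.mod_lt _ (by norm_num)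

theorem card_subgroup_ncard (M : Subgroup SyM) : Nat.card ↥M = (M : Set SyM).ncard :=
  Nat.card_coe_set_eq (M : Set SyM)

theorem dec_smul (s t : ℕ) (hs : s < 512) (ht : t < 512) : dec (smul s t) = dec s * dec t := by
  have h := code_mul (dec s) (dec t)
  rw [code_dec s hs, code_dec t ht] at h
  rw [← h, dec_code]

theorem E_pair (x y : SyM) (hx : inEc (code x) = true) (hy : inEc (code y) = true) :
    inEc (smul (code x) (code y)) = true ∧ commb (code x) (code y) = true := by
  have h := allUpTo_spec _ _ (certE_mul (code x) (code_lt x) hx) (code y) (code_lt y)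
  simp only [hy, cond_true] at h
  exact ba_true.mp h

theorem E_sq' (x : SyM) (hx : inEc (code x) = true) : x * x = 1 := by
  apply code_inj
  rw [code_mul, certE_sq (code x) (code_lt x) hx]
  rfl

/-- The elementary abelian subgroup of order 64. -/
def E : Subgroup SyM where
  carrier := {x | inEc (code x) = true}
  mul_mem' := by
    intro x y hx hy
    show inEc (code (x * y)) = true
    rw [code_mul]
    exact (E_pair x y hx hy).1
  one_mem' := rfl
  inv_mem' := by
    intro x hx
    have h : x⁻¹ = x := inv_eq_of_mul_eq_one_right (E_sq' x hx)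
    show inEc (code x⁻¹) = true
    rw [h]
    exact hx

theorem mem_E (x : SyM) : x ∈ E ↔ inEc (code x) = true := Iff.rfl

theorem E_comm (x y : SyM) (hx : x ∈ E) (hy : y ∈ E) : x * y = y * x :=
  (commb_code x y).mp (E_pair x y hx hy).2

theorem E_card : Nat.card ↥E = 64 := by
  have h1 : (E : Set SyM) =
      dec '' (↑((Finset.range 512).filter (fun t => inEc t = true)) : Set ℕ) := by
    ext x
    constructor
    · intro hx
      refine ⟨code x, ?_, dec_code x⟩
      rw [Finset.mem_coe, Finset.mem_filter, Finset.mem_range]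
      exact ⟨code_lt x, hx⟩
    · rintro ⟨t, ht, rfl⟩
      rw [Finset.mem_coe, Finset.mem_filter, Finset.mem_range] at ht
      show inEc (code (dec t)) = true
      rw [code_dec t ht.1]
      exact ht.2
  have h2 : Set.InjOn dec (↑((Finset.range 512).filter (fun t => inEc t = true)) : Set ℕ) := by
    intro i hi j hj hij
    rw [Finset.mem_coe, Finset.mem_filter, Finset.mem_range] at hi hj
    rw [← code_dec i hi.1, ← code_dec j hj.1, hij]
  rw [card_subgroup_ncard, h1, Set.InjOn.ncard_image h2, Set.ncard_coe_finset, ← cntUpTo_eq,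
    certE_card]

/-- The centre of a maximal subgroup has order at most 8. -/
theorem model_i (M : Subgroup SyM) (hM : IsCoatom M) : Nat.card ↥(Subgroup.center ↥M) ≤ 8 := by
  have hidx : M.index = 2 := Cfsg.Agent.Helper8.index_of_isCoatom_pgroup isPGroup hM
  have hcard : (M : Set SyM).ncard = 256 := by
    rw [← card_subgroup_ncard]
    have := Subgroup.card_mul_index M
    rw [hidx, card_eq] at this
    omega
  have hcomm : ∀ z : ↥M, z ∈ Subgroup.center ↥M → ∀ x ∈ M,
      commb (code (z : SyM)) (code x) = true := by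
    intro z hz x hx
    rw [commb_code]
    have h := Subgroup.mem_center_iff.mp hz ⟨x, hx⟩
    exact (congrArg Subtype.val h).symm
  have h1 : ∀ z : ↥M, z ∈ Subgroup.center ↥M → 256 ≤ cntUpTo (commb (code (z : SyM))) 512 := by
    intro z hz
    rw [← hcard]
    exact ncard_le_cnt _ _ (fun x hx => hcomm z hz x hx)
  have h2 : ∀ z z' : ↥M, z ∈ Subgroup.center ↥M → z' ∈ Subgroup.center ↥M →
      256 ≤ cntUpTo (fun u => ba (commb (code (z : SyM)) u) (commb (code (z' : SyM)) u)) 512 := by
    intro z z' hz hz'
    rw [← hcard]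
    refine ncard_le_cnt _ _ (fun x hx => ?_)
    show ba (commb (code (z : SyM)) (code x)) (commb (code (z' : SyM)) (code x)) = true
    rw [hcomm z hz x hx, hcomm z' hz' x hx]
    rfl
  have hL : ∀ z : ↥M, z ∈ Subgroup.center ↥M → (code (z : SyM) % 128 = 0 ∨
      code (z : SyM) % 128 = 16 ∨ code (z : SyM) % 128 = 64) :=
    fun z hz => cert1 _ (code_lt _) (h1 z hz)
  have hinj : Function.Injective (fun z : ↥(Subgroup.center ↥M) => code ((z : ↥M) : SyM)) := by
    intro z z' h
    exact Subtype.ext (Subtype.ext (code_inj h))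
  have hno : ∀ z z' : ↥M, z ∈ Subgroup.center ↥M → z' ∈ Subgroup.center ↥M →
      code (z : SyM) % 128 = 16 → code (z' : SyM) % 128 = 64 → False := by
    intro z z' hz hz' e1 e2
    have hlt := code_lt (z : SyM)
    have hlt' := code_lt (z' : SyM)
    have h3 := cert2 (code (z : SyM) / 128) (by omega) (code (z' : SyM) / 128) (by omega)
    have e3 : Nat.add 16 (Nat.mul 128 (code (z : SyM) / 128)) = code (z : SyM) := by
      show 16 + 128 * (code (z : SyM) / 128) = code (z : SyM)
      omega
    have e4 : Nat.add 64 (Nat.mul 128 (code (z' : SyM) / 128)) = code (z' : SyM) := by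
      show 64 + 128 * (code (z' : SyM) / 128) = code (z' : SyM)
      omega
    rw [e3, e4] at h3
    have := h2 z z' hz hz'
    omega
  by_cases hex : ∃ z : ↥M, z ∈ Subgroup.center ↥M ∧ code (z : SyM) % 128 = 16
  · obtain ⟨z0, hz0, hc0⟩ := hex
    refine (card_le_of_code _ hinj
      ((Finset.range 512).filter (fun s => s % 128 = 0 ∨ s % 128 = 16)) ?_).trans
      (le_of_eq certF.1)
    intro z
    rw [Finset.mem_filter, Finset.mem_range]
    refine ⟨code_lt _, ?_⟩
    rcases hL z z.2 with h | h | h
    · exact Or.inl h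
    · exact Or.inr h
    · exact (hno z0 z hz0 z.2 hc0 h).elim
  · refine (card_le_of_code _ hinj
      ((Finset.range 512).filter (fun s => s % 128 = 0 ∨ s % 128 = 64)) ?_).trans
      (le_of_eq certF.2)
    intro z
    rw [Finset.mem_filter, Finset.mem_range]
    refine ⟨code_lt _, ?_⟩
    rcases hL z z.2 with h | h | h
    · exact Or.inl h
    · exact absurd ⟨(z : ↥M), z.2, h⟩ hex
    · exact Or.inr h

theorem model_iii_aux (A : Subgroup SyM) (hA : ∀ x ∈ A, ∀ y ∈ A, x * y = y * x)
    (hcard : Nat.card ↥A = 64) : A ≤ E := by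
  have hn : (A : Set SyM).ncard = 64 := by rw [← card_subgroup_ncard, hcard]
  have step : ∀ r, r < 3 → (∀ a ∈ A, r ≤ rkc (code a)) → ∀ a ∈ A, r + 1 ≤ rkc (code a) := by
    intro r hr hall a ha
    by_contra hlt
    have hra : rkc (code a) = r := le_antisymm (by omega) (hall a ha)
    have hsub : ∀ x ∈ A, inXb (code a) (code x) = true := by
      intro x hx
      unfold inXb
      rw [(commb_code a x).mpr (hA a ha x hx), Nat.ble_eq_true_of_le (hra ▸ hall x hx)]
      rfl
    have hle : 64 ≤ cntUpTo (inXb (code a)) 512 := by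
      rw [← hn]
      exact ncard_le_cnt _ _ hsub
    rcases cert3 (code a) (code_lt a) (by omega) with h | ⟨h1, h2, h3, h4⟩
    · omega
    · have hX : (A : Set SyM) = {x | inXb (code a) (code x) = true} := by
        apply Set.eq_of_subset_of_ncard_le (fun x hx => hsub x hx) _ (Set.toFinite _)
        rw [hn, ← h1]
        exact ncard_le_cnt _ _ (fun x hx => hx)
      have m1 : dec (wA (code a)) ∈ (A : Set SyM) := by
        rw [hX]
        show inXb (code a) (code (dec (wA (code a)))) = true
        rw [code_dec _ (wA_lt _)]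
        exact h2
      have m2 : dec (wB (code a)) ∈ (A : Set SyM) := by
        rw [hX]
        show inXb (code a) (code (dec (wB (code a)))) = true
        rw [code_dec _ (wB_lt _)]
        exact h3
      have h5 := (commb_code _ _).mpr (hA _ m1 _ m2)
      rw [code_dec _ (wA_lt _), code_dec _ (wB_lt _), h4] at h5
      exact absurd h5 (by simp)
  have h0 : ∀ a ∈ A, 0 ≤ rkc (code a) := fun _ _ => Nat.zero_le _
  have h3 := step 2 (by norm_num) (step 1 (by norm_num) (step 0 (by norm_num) h0))
  intro a ha
  exact cert3b (code a) (code_lt a) (h3 a ha)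

/-- An abelian subgroup of order 64 is the elementary abelian one. -/
theorem model_iii (A : Subgroup SyM) (hA : IsMulCommutative ↥A) (hcard : Nat.card ↥A = 64) :
    A = E := by
  have hle := model_iii_aux A (fun x hx y hy =>
    congrArg Subtype.val (hA.is_comm.comm (⟨x, hx⟩ : ↥A) ⟨y, hy⟩)) hcard
  exact Subgroup.eq_of_le_of_card_ge hle (by rw [E_card, hcard])

theorem model_ii : IsMulCommutative ↥E ∧ (∀ a ∈ E, a ^ 2 = 1) ∧ Nat.card ↥E = 64 :=
  ⟨⟨⟨fun x y => Subtype.ext (E_comm x.1 y.1 x.2 y.2)⟩⟩,
    fun a ha => by rw [pow_two]; exact E_sq' a ha, E_card⟩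

end SyM

end Cfsg.Agent.Helper2
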