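import Mathlib
import Cfsg.Agent.Helper2.SylThm
import Cfsg.Agent.Helper2.SylData
import Cfsg.Agent.Helper2.TabIso
import Cfsg.Agent.Helper2.M21Pack
import Cfsg.Agent.Helper3.Golay.M24

set_option autoImplicit false

namespace Cfsg.Agent.Helper2

open Cfsg.Agent.Helper3

/-! A Sylow 2-subgroup of the Mathieu group of degree 24, modulo its centre, is the model. -/

/-- Permutations of the 24 points as self-maps. -/
def syEnd : Equiv.Perm Cfsg.GolayPt →* Function.End Cfsg.GolayPt where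
  toFun σ := (σ : Cfsg.GolayPt → Cfsg.GolayPt)
  map_one' := rfl
  map_mul' _ _ := rfl

theorem sy_fdec_id : fdec 984818244535754528103549039458486304 = 1 := by
  funext p
  rw [fdec_apply, sy_id_dg _ (gIdx_lt p), gPt_gIdx]
  rfl

def syσ0 : Equiv.Perm Cfsg.GolayPt :=
  permOfTab 591327527482371070878579846964855203 591327527482371070878579846964855203 sy_g0_lt sy_g0_lt sy_g0_inv sy_g0_inv

theorem syσ0_mem : syσ0 ∈ Cfsg.M24 :=
  mem_M24_of_rep (permOfTab_rep _ _ sy_g0_lt sy_g0_lt sy_g0_inv sy_g0_inv) (by decide +kernel)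

def syσ1 : Equiv.Perm Cfsg.GolayPt :=
  permOfTab 249642751964300354905139043911550550 249642751964300354905139043911550550 sy_g1_lt sy_g1_lt sy_g1_inv sy_g1_inv

theorem syσ1_mem : syσ1 ∈ Cfsg.M24 :=
  mem_M24_of_rep (permOfTab_rep _ _ sy_g1_lt sy_g1_lt sy_g1_inv sy_g1_inv) (by decide +kernel)

def syσ2 : Equiv.Perm Cfsg.GolayPt :=
  permOfTab 585535958530805073963517741682611367 585535958530805073963517741682611367 sy_g2_lt sy_g2_lt sy_g2_inv sy_g2_inv

theorem syσ2_mem : syσ2 ∈ Cfsg.M24 :=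
  mem_M24_of_rep (permOfTab_rep _ _ sy_g2_lt sy_g2_lt sy_g2_inv sy_g2_inv) (by decide +kernel)

def syσ3 : Equiv.Perm Cfsg.GolayPt :=
  permOfTab 555138666482022650666603849925069260 555138666482022650666603849925069260 sy_g3_lt sy_g3_lt sy_g3_inv sy_g3_inv

theorem syσ3_mem : syσ3 ∈ Cfsg.M24 :=
  mem_M24_of_rep (permOfTab_rep _ _ sy_g3_lt sy_g3_lt sy_g3_inv sy_g3_inv) (by decide +kernel)

/-- The four generating involutions. -/
def syA (k : ℕ) : ↥Cfsg.M24 :=
  if k = 0 then ⟨syσ0, syσ0_mem⟩ else if k = 1 then ⟨syσ1, syσ1_mem⟩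
  else if k = 2 then ⟨syσ2, syσ2_mem⟩ else ⟨syσ3, syσ3_mem⟩

theorem syA_coe : ∀ k, k < 4 → ∀ p : Cfsg.GolayPt,
    ((syA k : ↥Cfsg.M24) : Equiv.Perm Cfsg.GolayPt) p = fdec (syG k) p := by
  intro k hk p
  interval_cases k <;> rfl

/-- The subgroup they generate. -/
def syT : Subgroup ↥Cfsg.M24 := Subgroup.closure {g | ∃ k, k < 4 ∧ g = syA k}

theorem sy_strict : ∀ j i, i < j → j < 1024 → syP i < syP j := by
  intro j
  induction j with
  | zero => intro i hi; omega
  | succ j ih =>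
    intro i hi hj
    have h1 := sy_mono j (by omega)
    rcases Nat.lt_succ_iff_lt_or_eq.mp hi with h | h
    · exact lt_trans (ih i h (by omega)) h1
    · rw [h]; exact h1

theorem sy_fdec_inj (a b : ℕ) (ha : a < 32 ^ 24) (hb : b < 32 ^ 24)
    (ha' : ∀ t, t < 24 → dgB 32 a t < 24) (hb' : ∀ t, t < 24 → dgB 32 b t < 24)
    (h : fdec a = fdec b) : a = b := by
  apply digitsB_inj 32 24 _ _ ha hb
  intro t ht
  have h3 := congrFun h (gPt t)
  rw [fdec_apply, fdec_apply, gIdx_gPt ht] at h3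
  have h4 := congrArg gIdx h3
  rwa [gIdx_gPt (ha' t ht), gIdx_gPt (hb' t ht)] at h4

theorem sy_comm_digits (a b : ℕ) (ha : ∀ t, t < 24 → dgB 32 a t < 24)
    (hb : ∀ t, t < 24 → dgB 32 b t < 24) :
    fdec a * fdec b = fdec b * fdec a ↔
      ∀ t, t < 24 → dgB 32 a (dgB 32 b t) = dgB 32 b (dgB 32 a t) := by
  constructor
  · intro h t ht
    have h3 := congrFun h (gPt t)
    have e1 : (fdec a * fdec b) (gPt t) = gPt (dgB 32 a (dgB 32 b t)) := by
      show fdec a (fdec b (gPt t)) = _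
      rw [fdec_apply, fdec_apply, gIdx_gPt ht, gIdx_gPt (hb t ht)]
    have e2 : (fdec b * fdec a) (gPt t) = gPt (dgB 32 b (dgB 32 a t)) := by
      show fdec b (fdec a (gPt t)) = _
      rw [fdec_apply, fdec_apply, gIdx_gPt ht, gIdx_gPt (ha t ht)]
    rw [e1, e2] at h3
    have h4 := congrArg gIdx h3
    rwa [gIdx_gPt (ha _ (hb t ht)), gIdx_gPt (hb _ (ha t ht))] at h4
  · intro h
    funext p
    show fdec a (fdec b p) = fdec b (fdec a p)
    rw [fdec_apply, fdec_apply, fdec_apply, fdec_apply, gIdx_gPt (hb _ (gIdx_lt p)),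
      gIdx_gPt (ha _ (gIdx_lt p)), h _ (gIdx_lt p)]

theorem syl_model_iso (P : Sylow 2 ↥Cfsg.M24) :
    Nonempty ((↥(P : Subgroup ↥Cfsg.M24) ⧸ Subgroup.center ↥(P : Subgroup ↥Cfsg.M24)) ≃* SyM) := by
  classical
  let ι : ↥Cfsg.M24 →* Function.End Cfsg.GolayPt := syEnd.comp (Cfsg.M24).subtype
  have hι : Function.Injective ι := fun x y h => Subtype.ext (DFunLike.coe_injective h)
  have hιA : ∀ k, k < 4 → ι (syA k) = fdec (syG k) := fun k hk => funext (syA_coe k hk)
  have hPlt : ∀ i, syP i < 32 ^ 24 := fun i =>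
    lt_of_lt_of_eq (dgB_lt _ _ _ (by norm_num)) (by norm_num)
  have hinj : ∀ i j, i < 1024 → j < 1024 → fdec (syP i) = fdec (syP j) → i = j := by
    intro i j hi hj h
    have h2 := sy_fdec_inj _ _ (hPlt i) (hPlt j) (sy_lt24 i hi) (sy_lt24 j hj) h
    by_contra hne
    rcases Nat.lt_or_gt_of_ne hne with h3 | h3
    · exact absurd h2 (Nat.ne_of_lt (sy_strict j i h3 hj))
    · exact absurd h2.symm (Nat.ne_of_lt (sy_strict i j h3 hi))
  have hinv : ∀ k, k < 4 → syA k * syA k = 1 := by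
    intro k hk
    apply hι
    rw [map_mul, map_one, hιA k hk, ← fdec_pcomp _ _ (sy_g_lt k hk), sy_gsq k hk, sy_fdec_id]
  have key : ∃ el : ℕ → ↥syT,
      (∀ i, i < 1024 → ι ((el i : ↥syT) : ↥Cfsg.M24) = fdec (syP i)) ∧
      (∀ g, ∃ i, i < 1024 ∧ el i = g) ∧ (∀ i j, i < 1024 → j < 1024 → el i = el j → i = j) :=
    tabK_closure ι hι 4 1024 1023 (fun i => fdec (syP i)) syN syPar syDep syA
      (by norm_num)
      (by show fdec (syP 1023) = 1; rw [sy_root.1, sy_fdec_id])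
      hinj
      (fun k hk i hi => ⟨(sy_nxt k hk i hi).1, by
        show fdec (syP (syN k i)) = fdec (syP i) * ι (syA k)
        rw [(sy_nxt k hk i hi).2.1, fdec_pcomp _ _ (sy_g_lt k hk), hιA k hk]⟩)
      sy_par hinv
  obtain ⟨el, hel, hsurj, helinj⟩ := key
  have hcardT : Nat.card ↥syT = 2 ^ 10 := by
    have hb : Function.Bijective (fun i : Fin 1024 => el i) :=
      ⟨fun i j h => Fin.ext (helinj i j i.isLt j.isLt h),
        fun g => by obtain ⟨i, hi, e⟩ := hsurj g; exact ⟨⟨i, hi⟩, e⟩⟩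
    rw [← Nat.card_congr (Equiv.ofBijective _ hb), Nat.card_fin]
    norm_num
  have hG : ¬ 2 ^ (10 + 1) ∣ Nat.card ↥Cfsg.M24 := by
    rw [M24_card]
    norm_num
  have : Fact (Nat.Prime 2) := ⟨Nat.prime_two⟩
  obtain ⟨ψ⟩ := sylow_iso_of_card 2 10 syT hcardT hG P
  have hAmem : ∀ k, k < 4 → syA k ∈ syT := fun k hk => Subgroup.subset_closure ⟨k, hk, rfl⟩
  let a' : ℕ → ↥syT := fun k => if hk : k < 4 then ⟨syA k, hAmem k hk⟩ else 1
  have ha' : ∀ k, k < 4 → ((a' k : ↥syT) : ↥Cfsg.M24) = syA k := by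
    intro k hk
    simp only [a']
    rw [dif_pos hk]
  have hel1 : el 1023 = 1 := by
    apply Subtype.ext
    apply hι
    rw [hel 1023 (by norm_num), sy_root.1, sy_fdec_id]
    exact (map_one ι).symm
  have hmodlt : ∀ n, Nat.mod n 512 < 512 := fun n => Nat.mod_lt _ (by norm_num)
  have keyφ : ∃ φ : ↥syT →* SyM, ∀ i, i < 1024 → φ (el i) = SyM.dec (Nat.mod (syU i) 512) :=
    tabK_hom 4 1024 1023 el (fun i => SyM.dec (Nat.mod (syU i) 512)) syN syPar syDep a'
      (fun k => SyM.dec (Nat.pow 2 k)) hsurj helinj (by norm_num) hel1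
      (by show SyM.dec (Nat.mod (syU 1023) 512) = 1; rw [sy_root.2]; rfl)
      (fun k hk i hi => ⟨(sy_nxt k hk i hi).1, by
          apply Subtype.ext
          apply hι
          rw [hel _ (sy_nxt k hk i hi).1, Subgroup.coe_mul, map_mul, hel i hi, ha' k hk, hιA k hk,
            (sy_nxt k hk i hi).2.1, fdec_pcomp _ _ (sy_g_lt k hk)], by
          show SyM.dec (Nat.mod (syU (syN k i)) 512) =
            SyM.dec (Nat.mod (syU i) 512) * SyM.dec (Nat.pow 2 k)
          rw [(sy_nxt k hk i hi).2.2, SyM.dec_smul _ _ (hmodlt _) (by interval_cases k <;> norm_num)]⟩)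
      sy_par
  obtain ⟨φ, hφ⟩ := keyφ
  have hφsurj : Function.Surjective φ := by
    intro x
    have h := sy_inv (SyM.code x) (SyM.code_lt x)
    refine ⟨el (syInv (SyM.code x)), ?_⟩
    rw [hφ _ h.1, h.2, SyM.dec_code]
  have hz : ∀ g : ↥syT, g * el 350 = el 350 * g := by
    have hle : syT ≤ Subgroup.centralizer {((el 350 : ↥syT) : ↥Cfsg.M24)} := by
      apply (Subgroup.closure_le _).mpr
      rintro g ⟨k, hk, rfl⟩
      rw [SetLike.mem_coe, Subgroup.mem_centralizer_iff]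
      intro h hh
      rw [Set.mem_singleton_iff] at hh
      rw [hh]
      apply hι
      rw [map_mul, map_mul, hel 350 (by norm_num), hιA k hk]
      exact ((sy_comm_digits _ _ (sy_g_lt k hk) (sy_lt24 350 (by norm_num))).mpr
        (sy_z k hk)).symm
    intro g
    have h := Subgroup.mem_centralizer_iff.mp (hle g.2) _ (Set.mem_singleton _)
    exact Subtype.ext h.symm
  have hker : φ.ker = Subgroup.center ↥syT := by
    ext g
    rw [MonoidHom.mem_ker, Subgroup.mem_center_iff]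
    constructor
    · intro hg
      obtain ⟨i, hi, rfl⟩ := hsurj g
      rw [hφ i hi] at hg
      have h0 : Nat.mod (syU i) 512 = 0 := by
        have h1 := congrArg SyM.code hg
        rw [SyM.code_dec _ (hmodlt _)] at h1
        exact h1
      rcases sy_ker i hi h0 with h | h
      · rw [h, hel1]
        intro g
        rw [mul_one, one_mul]
      · rw [h]
        exact hz
    · intro hg
      obtain ⟨i, hi, rfl⟩ := hsurj g
      rw [hφ i hi]
      have h0 : Nat.mod (syU i) 512 = 0 := by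
        apply sy_cen i hi
        intro k hk
        apply (sy_comm_digits _ _ (sy_g_lt k hk) (sy_lt24 i hi)).mp
        have h1 := hg (a' k)
        have h2 : ι ((a' k * el i : ↥syT) : ↥Cfsg.M24) = ι ((el i * a' k : ↥syT) : ↥Cfsg.M24) := by
          rw [h1]
        rw [Subgroup.coe_mul, Subgroup.coe_mul, map_mul, map_mul, ha' k hk, hιA k hk, hel i hi] at h2
        exact h2
      rw [h0]
      rfl
  have hmap : (Subgroup.center ↥(P : Subgroup ↥Cfsg.M24)).map
      (ψ : ↥(P : Subgroup ↥Cfsg.M24) →* ↥syT) = Subgroup.center ↥syT := by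
    ext y
    constructor
    · intro hy
      obtain ⟨x, hx, rfl⟩ := Subgroup.mem_map.mp hy
      rw [Subgroup.mem_center_iff]
      intro g
      obtain ⟨g', rfl⟩ := ψ.surjective g
      have h1 := Subgroup.mem_center_iff.mp hx g'
      show ψ g' * ψ x = ψ x * ψ g'
      rw [← map_mul, ← map_mul, h1]
    · intro hy
      refine Subgroup.mem_map.mpr ⟨ψ.symm y, ?_, ψ.apply_symm_apply y⟩
      rw [Subgroup.mem_center_iff]
      intro g
      apply ψ.injective
      rw [map_mul, map_mul, ψ.apply_symm_apply]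
      exact Subgroup.mem_center_iff.mp hy (ψ g)
  exact ⟨((QuotientGroup.congr _ _ ψ hmap).trans
    (QuotientGroup.quotientMulEquivOfEq hker.symm)).trans
    (QuotientGroup.quotientKerEquivOfSurjective φ hφsurj)⟩

theorem coatom_center_transfer {G H : Type*} [Group G] [Group H] (e : G ≃* H) (n : ℕ)
    (h : ∀ M : Subgroup H, IsCoatom M → Nat.card ↥(Subgroup.center ↥M) ≤ n)
    (M : Subgroup G) (hM : IsCoatom M) : Nat.card ↥(Subgroup.center ↥M) ≤ n := by
  have h1 := h (M.map (e : G →* H)) ((OrderIso.isCoatom_iff e.mapSubgroup M).mpr hM)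
  rwa [← Nat.card_congr (Subgroup.centerCongr (e.subgroupMap M)).toEquiv] at h1

theorem abelian_map_sub {G H : Type*} [Group G] [Group H] (f : G →* H) (A : Subgroup G)
    (hA : IsMulCommutative ↥A) : IsMulCommutative ↥(A.map f) := by
  refine ⟨⟨fun x y => Subtype.ext ?_⟩⟩
  obtain ⟨a, ha, hx⟩ := Subgroup.mem_map.mp x.2
  obtain ⟨b, hb, hy⟩ := Subgroup.mem_map.mp y.2
  show (x : H) * (y : H) = (y : H) * (x : H)
  rw [← hx, ← hy, ← map_mul, ← map_mul]
  exact congrArg f (congrArg Subtype.val (hA.is_comm.comm ⟨a, ha⟩ ⟨b, hb⟩))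

theorem card_map_mulEquiv {G H : Type*} [Group G] [Group H] (e : G ≃* H) (A : Subgroup G) :
    Nat.card ↥(A.map (e : G →* H)) = Nat.card ↥A :=
  (Nat.card_congr (e.subgroupMap A).toEquiv).symm

/-- The three facts on a Sylow 2-subgroup of the Mathieu group of degree 24 modulo its centre. -/
theorem syl_main (P : Sylow 2 ↥Cfsg.M24) :
    (∀ M : Subgroup (↥(P : Subgroup ↥Cfsg.M24) ⧸ Subgroup.center ↥(P : Subgroup ↥Cfsg.M24)),
        IsCoatom M → Nat.card ↥(Subgroup.center ↥M) ≤ 8) ∧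
      (∃ A : Subgroup (↥(P : Subgroup ↥Cfsg.M24) ⧸ Subgroup.center ↥(P : Subgroup ↥Cfsg.M24)),
        (IsMulCommutative ↥A ∧ ∀ a ∈ A, a ^ 2 = 1) ∧ Nat.card ↥A = 64) ∧
      ∀ A B : Subgroup (↥(P : Subgroup ↥Cfsg.M24) ⧸ Subgroup.center ↥(P : Subgroup ↥Cfsg.M24)),
        IsMulCommutative ↥A → Nat.card ↥A = 64 → IsMulCommutative ↥B → Nat.card ↥B = 64 →
          A = B := by
  obtain ⟨e⟩ := syl_model_iso P
  refine ⟨coatom_center_transfer e 8 SyM.model_i, ?_, ?_⟩
  · refine ⟨SyM.E.map (e.symm : SyM →* _), ⟨abelian_map_sub _ _ SyM.model_ii.1, ?_⟩, ?_⟩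
    · intro a ha
      obtain ⟨y, hy, rfl⟩ := Subgroup.mem_map.mp ha
      rw [← map_pow, SyM.model_ii.2.1 y hy, map_one]
    · rw [card_map_mulEquiv e.symm SyM.E]
      exact SyM.model_ii.2.2
  · intro A B hA hcA hB hcB
    have h1 : A.map (e : _ →* SyM) = SyM.E :=
      SyM.model_iii _ (abelian_map_sub _ _ hA) (by rw [card_map_mulEquiv e A, hcA])
    have h2 : B.map (e : _ →* SyM) = SyM.E :=
      SyM.model_iii _ (abelian_map_sub _ _ hB) (by rw [card_map_mulEquiv e B, hcB])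
    exact Subgroup.map_injective e.injective (h1.trans h2.symm)

end Cfsg.Agent.Helper2
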