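import Mathlib

set_option autoImplicit false

namespace Cfsg.Agent.Helper2

open scoped commutatorElement

/-- Elementwise facts about a Sylow 2-subgroup of `U₃(4)`. -/
structure U34Facts (H : Type*) [Group H] : Prop where
  card : Nat.card H = 64
  t4 : Nat.card {x : H // x ^ 2 = 1} = 4
  cen : ∀ x : H, x ^ 2 = 1 → ∀ y : H, x * y = y * x
  sq : ∀ x : H, (x ^ 2) ^ 2 = 1
  nc : ∀ x : H, x ^ 2 ≠ 1 → ∃ y : H, x * y ≠ y * x
  comm : ∀ x : H, x ^ 2 = 1 → ∃ a b : H, x = a * b * a⁻¹ * b⁻¹

theorem U34Facts.of_equiv {H H' : Type*} [Group H] [Group H'] (e : H ≃* H') (h : U34Facts H) :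
    U34Facts H' where
  card := by rw [← Nat.card_congr e.toEquiv]; exact h.card
  t4 := by
    rw [← h.t4]
    apply Nat.card_congr
    refine Equiv.subtypeEquiv e.symm.toEquiv ?_
    intro x
    show x ^ 2 = 1 ↔ (e.symm x) ^ 2 = 1
    rw [← map_pow, MulEquiv.map_eq_one_iff]
  cen := by
    intro x hx y
    have h1 : (e.symm x) ^ 2 = 1 := by rw [← map_pow, hx, map_one]
    have h2 := congrArg e (h.cen _ h1 (e.symm y))
    simpa using h2
  sq := by
    intro x
    have h2 := congrArg e (h.sq (e.symm x))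
    simpa using h2
  nc := by
    intro x hx
    have h1 : (e.symm x) ^ 2 ≠ 1 := by
      rw [← map_pow]
      intro h0
      exact hx ((MulEquiv.map_eq_one_iff e.symm).mp h0)
    obtain ⟨y, hy⟩ := h.nc _ h1
    refine ⟨e y, ?_⟩
    intro h0
    apply hy
    have h2 := congrArg e.symm h0
    simpa using h2
  comm := by
    intro x hx
    have h1 : (e.symm x) ^ 2 = 1 := by rw [← map_pow, hx, map_one]
    obtain ⟨a, b, hab⟩ := h.comm _ h1
    refine ⟨e a, e b, ?_⟩
    have h2 := congrArg e hab
    simpa using h2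

theorem U34Facts.concl {H : Type*} [Group H] (h : U34Facts H) :
    Nat.card H = 64 ∧ IsKleinFour (Subgroup.center H) ∧
    Subgroup.center H = Subgroup.closure {x : H | orderOf x = 2} ∧
    Subgroup.center H = commutator H ∧
    Nat.card (H ⧸ Subgroup.center H) = 16 ∧ ∀ x : H ⧸ Subgroup.center H, x ^ 2 = 1 := by
  haveI : Fact (Nat.Prime 2) := ⟨Nat.prime_two⟩
  have hmem : ∀ x : H, x ∈ Subgroup.center H ↔ x ^ 2 = 1 := by
    intro x
    constructor
    · intro hx
      by_contra hne
      obtain ⟨y, hy⟩ := h.nc x hne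
      exact hy ((Subgroup.mem_center_iff.mp hx y).symm)
    · intro hx
      exact Subgroup.mem_center_iff.mpr (fun y => (h.cen x hx y).symm)
  have hcardZ : Nat.card (Subgroup.center H) = 4 := by
    rw [← h.t4]
    exact Nat.card_congr (Equiv.subtypeEquivRight hmem)
  have hsqmem : ∀ y : H, y ^ 2 ∈ Subgroup.center H := fun y => (hmem _).mpr (h.sq y)
  refine ⟨h.card, ⟨hcardZ, ?_⟩, ?_, ?_, ?_, ?_⟩
  · have hdvd : Monoid.exponent (Subgroup.center H) ∣ 2 := by
      apply Monoid.exponent_dvd_of_forall_pow_eq_one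
      intro z
      apply Subtype.ext
      rw [Subgroup.coe_pow]
      exact (hmem z.1).mp z.2
    rcases (Nat.dvd_prime Nat.prime_two).mp hdvd with h1 | h1
    · exfalso
      have hss : Subsingleton (Subgroup.center H) := Monoid.exp_eq_one_iff.mp h1
      have := Nat.card_unique (α := Subgroup.center H)
      omega
    · exact h1
  · apply le_antisymm
    · intro x hx
      have h2 := (hmem x).mp hx
      by_cases h1 : x = 1
      · rw [h1]; exact one_mem _
      · apply Subgroup.subset_closure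
        exact orderOf_eq_prime h2 h1
    · rw [Subgroup.closure_le]
      intro x hx
      have h2 : orderOf x = 2 := hx
      apply (hmem x).mpr
      rw [← h2]
      exact pow_orderOf_eq_one x
  · apply le_antisymm
    · intro x hx
      obtain ⟨a, b, hab⟩ := h.comm x ((hmem x).mp hx)
      rw [hab, commutator_def]
      exact Subgroup.commutator_mem_commutator (Subgroup.mem_top a) (Subgroup.mem_top b)
    · rw [commutator_def, Subgroup.commutator_le]
      intro a _ b _
      have e1 : ⁅a, b⁆ = (a * b) ^ 2 * (b⁻¹ * a⁻¹ * b) ^ 2 * (b⁻¹) ^ 2 := by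
        rw [commutatorElement_def, pow_two, pow_two, pow_two]
        group
      rw [e1]
      exact mul_mem (mul_mem (hsqmem _) (hsqmem _)) (hsqmem _)
  · have h1 := Subgroup.card_eq_card_quotient_mul_card_subgroup (Subgroup.center H)
    rw [h.card, hcardZ] at h1
    omega
  · intro x
    induction x using QuotientGroup.induction_on with
    | H a =>
      rw [← QuotientGroup.mk_pow, QuotientGroup.eq_one_iff]
      exact hsqmem a

theorem u34_facts_of_codes {H : Type*} [Group H] (φ : ℕ → H) (L : List ℕ) (mul : ℕ → ℕ → ℕ)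
    (one : ℕ)
    (hsurj : ∀ x : H, ∃ a ∈ L, φ a = x)
    (hinj : ∀ a ∈ L, ∀ b ∈ L, φ a = φ b → a = b)
    (hmul : ∀ a ∈ L, ∀ b ∈ L, mul a b ∈ L ∧ φ (mul a b) = φ a * φ b)
    (hone : one ∈ L ∧ φ one = 1)
    (hnodup : L.Nodup) (hlen : L.length = 64)
    (c5 : (L.filter fun a => Nat.beq (mul a a) one).length = 4)
    (c6 : (L.all fun a => !(Nat.beq (mul a a) one) ||
      L.all fun b => Nat.beq (mul a b) (mul b a)) = true)
    (c7 : (L.all fun a => Nat.beq (mul (mul a a) (mul a a)) one) = true)
    (c8 : (L.all fun a => Nat.beq (mul a a) one ||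
      L.any fun b => !(Nat.beq (mul a b) (mul b a))) = true)
    (c9 : (L.all fun a => !(Nat.beq (mul a a) one) ||
      L.any fun b => L.any fun c => Nat.beq (mul (mul a c) b) (mul b c)) = true) :
    U34Facts H := by
  classical
  have hsq : ∀ a ∈ L, (φ a ^ 2 = 1 ↔ mul a a = one) := by
    intro a ha
    rw [pow_two, ← (hmul a ha a ha).2, ← hone.2]
    constructor
    · intro h
      exact hinj _ (hmul a ha a ha).1 _ hone.1 h
    · intro h
      rw [h]
  rw [List.all_eq_true] at c6 c7 c8 c9
  refine ⟨?_, ?_, ?_, ?_, ?_, ?_⟩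
  · let f : L.toFinset → H := fun a => φ a.1
    have hf : Function.Bijective f := by
      constructor
      · intro a b hab
        exact Subtype.ext (hinj _ (List.mem_toFinset.mp a.2) _ (List.mem_toFinset.mp b.2) hab)
      · intro x
        obtain ⟨a, ha, hax⟩ := hsurj x
        exact ⟨⟨a, List.mem_toFinset.mpr ha⟩, hax⟩
    rw [← Nat.card_congr (Equiv.ofBijective f hf), Nat.card_eq_finsetCard,
      List.toFinset_card_of_nodup hnodup, hlen]
  · let L' := L.filter fun a => Nat.beq (mul a a) one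
    have hL' : ∀ a, a ∈ L' ↔ a ∈ L ∧ mul a a = one := by
      intro a
      show a ∈ L.filter (fun a => Nat.beq (mul a a) one) ↔ _
      rw [List.mem_filter]
      constructor
      · rintro ⟨h1, h2⟩
        exact ⟨h1, Nat.eq_of_beq_eq_true h2⟩
      · rintro ⟨h1, h2⟩
        exact ⟨h1, by rw [h2]; exact Nat.beq_refl one⟩
    let f : L'.toFinset → {x : H // x ^ 2 = 1} := fun a =>
      ⟨φ a.1, (hsq a.1 ((hL' a.1).mp (List.mem_toFinset.mp a.2)).1).mpr
        ((hL' a.1).mp (List.mem_toFinset.mp a.2)).2⟩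
    have hf : Function.Bijective f := by
      constructor
      · intro a b hab
        have hab' : φ a.1 = φ b.1 := congrArg Subtype.val hab
        exact Subtype.ext (hinj _ ((hL' a.1).mp (List.mem_toFinset.mp a.2)).1 _
          ((hL' b.1).mp (List.mem_toFinset.mp b.2)).1 hab')
      · intro x
        obtain ⟨a, ha, hax⟩ := hsurj x.1
        have h1 : mul a a = one := (hsq a ha).mp (by rw [hax]; exact x.2)
        exact ⟨⟨a, List.mem_toFinset.mpr ((hL' a).mpr ⟨ha, h1⟩)⟩, Subtype.ext hax⟩
    rw [← Nat.card_congr (Equiv.ofBijective f hf), Nat.card_eq_finsetCard,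
      List.toFinset_card_of_nodup (hnodup.filter _)]
    exact c5
  · intro x hx y
    obtain ⟨a, ha, rfl⟩ := hsurj x
    obtain ⟨b, hb, rfl⟩ := hsurj y
    have h1 := c6 a ha
    rw [Bool.or_eq_true] at h1
    rcases h1 with h1 | h1
    · have h2 : mul a a = one := (hsq a ha).mp hx
      rw [h2, Nat.beq_refl] at h1
      exact absurd h1 (by decide)
    · rw [List.all_eq_true] at h1
      have h2 : mul a b = mul b a := Nat.eq_of_beq_eq_true (h1 b hb)
      rw [← (hmul a ha b hb).2, ← (hmul b hb a ha).2, h2]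
  · intro x
    obtain ⟨a, ha, rfl⟩ := hsurj x
    have h1 : mul (mul a a) (mul a a) = one := Nat.eq_of_beq_eq_true (c7 a ha)
    have h2 := hmul a ha a ha
    rw [pow_two, pow_two, ← h2.2, ← (hmul _ h2.1 _ h2.1).2, h1, hone.2]
  · intro x hx
    obtain ⟨a, ha, rfl⟩ := hsurj x
    have h1 := c8 a ha
    rw [Bool.or_eq_true] at h1
    rcases h1 with h1 | h1
    · exact absurd ((hsq a ha).mpr (Nat.eq_of_beq_eq_true h1)) hx
    · rw [List.any_eq_true] at h1
      obtain ⟨b, hb, hab⟩ := h1
      refine ⟨φ b, ?_⟩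
      rw [← (hmul a ha b hb).2, ← (hmul b hb a ha).2]
      intro h0
      have h2 := hinj _ (hmul a ha b hb).1 _ (hmul b hb a ha).1 h0
      rw [h2, Nat.beq_refl] at hab
      exact absurd hab (by decide)
  · intro x hx
    obtain ⟨a, ha, rfl⟩ := hsurj x
    have h1 := c9 a ha
    rw [Bool.or_eq_true] at h1
    rcases h1 with h1 | h1
    · have h2 : mul a a = one := (hsq a ha).mp hx
      rw [h2, Nat.beq_refl] at h1
      exact absurd h1 (by decide)
    · rw [List.any_eq_true] at h1
      obtain ⟨b, hb, h1⟩ := h1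
      rw [List.any_eq_true] at h1
      obtain ⟨c, hc, h1⟩ := h1
      have h2 : mul (mul a c) b = mul b c := Nat.eq_of_beq_eq_true h1
      have h3 : φ a * φ c * φ b = φ b * φ c := by
        rw [← (hmul a ha c hc).2, ← (hmul _ (hmul a ha c hc).1 b hb).2, h2, (hmul b hb c hc).2]
      refine ⟨φ b, φ c, ?_⟩
      calc φ a = φ a * φ c * φ b * (φ b)⁻¹ * (φ c)⁻¹ := by group
        _ = φ b * φ c * (φ b)⁻¹ * (φ c)⁻¹ := by rw [h3]

end Cfsg.Agent.Helper2
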