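import Mathlib
import Cfsg.Agent.Helper2.U34Abs

set_option autoImplicit false

namespace Cfsg.Agent.Helper2

/-- Further elementwise facts about a Sylow 2-subgroup of `U₃(4)`. -/
structure U34Extra (H : Type*) [Group H] : Prop where
  f1 : ∀ x y : H, x ^ 2 ≠ 1 → y ^ 2 = x ^ 2 → (x * y) ^ 2 ≠ x ^ 2
  f2 : ∀ z : H, z ≠ 1 → z ^ 2 = 1 → Nat.card {x : H // x ^ 2 = z} = 20

theorem U34Extra.of_equiv {H H' : Type*} [Group H] [Group H'] (e : H ≃* H') (h : U34Extra H) :
    U34Extra H' where
  f1 := by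
    intro x y hx hy
    have hx' : (e.symm x) ^ 2 ≠ 1 := by
      rw [← map_pow]
      intro h0
      exact hx ((MulEquiv.map_eq_one_iff e.symm).mp h0)
    have hy' : (e.symm y) ^ 2 = (e.symm x) ^ 2 := by rw [← map_pow, ← map_pow, hy]
    have h1 := h.f1 _ _ hx' hy'
    intro h0
    apply h1
    rw [← map_mul, ← map_pow, ← map_pow, h0]
  f2 := by
    intro z hz hz2
    have hz' : e.symm z ≠ 1 := by
      intro h0
      exact hz ((MulEquiv.map_eq_one_iff e.symm).mp h0)
    have hz2' : (e.symm z) ^ 2 = 1 := by rw [← map_pow, hz2, map_one]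
    rw [← h.f2 _ hz' hz2']
    apply Nat.card_congr
    refine Equiv.subtypeEquiv e.symm.toEquiv ?_
    intro x
    show x ^ 2 = z ↔ (e.symm x) ^ 2 = e.symm z
    rw [← map_pow]
    exact (e.symm.injective.eq_iff).symm

theorem u34_extra_of_codes {H : Type*} [Group H] (φ : ℕ → H) (L : List ℕ) (mul : ℕ → ℕ → ℕ)
    (one : ℕ)
    (hsurj : ∀ x : H, ∃ a ∈ L, φ a = x)
    (hinj : ∀ a ∈ L, ∀ b ∈ L, φ a = φ b → a = b)
    (hmul : ∀ a ∈ L, ∀ b ∈ L, mul a b ∈ L ∧ φ (mul a b) = φ a * φ b)
    (hone : one ∈ L ∧ φ one = 1)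
    (hnodup : L.Nodup)
    (c10 : (L.all fun x => Nat.beq (mul x x) one || L.all fun y =>
      !(Nat.beq (mul y y) (mul x x)) ||
        !(Nat.beq (mul (mul x y) (mul x y)) (mul x x))) = true)
    (c11 : (L.all fun z => Nat.beq z one || !(Nat.beq (mul z z) one) ||
      Nat.beq (L.filter fun x => Nat.beq (mul x x) z).length 20) = true) :
    U34Extra H := by
  classical
  have hsqφ : ∀ a ∈ L, φ a ^ 2 = φ (mul a a) := by
    intro a ha
    rw [pow_two, (hmul a ha a ha).2]
  rw [List.all_eq_true] at c10 c11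
  refine ⟨?_, ?_⟩
  · intro x y hx hy
    obtain ⟨a, ha, rfl⟩ := hsurj x
    obtain ⟨b, hb, rfl⟩ := hsurj y
    have haa := (hmul a ha a ha).1
    have hbb := (hmul b hb b hb).1
    have hab := (hmul a ha b hb).1
    have h1 : mul a a ≠ one := by
      intro h0
      apply hx
      rw [hsqφ a ha, h0, hone.2]
    have h2 : mul b b = mul a a := by
      apply hinj _ hbb _ haa
      rw [← hsqφ b hb, ← hsqφ a ha, hy]
    have h3 := c10 a ha
    rw [Bool.or_eq_true] at h3
    rcases h3 with h3 | h3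
    · exact absurd (Nat.eq_of_beq_eq_true h3) h1
    · rw [List.all_eq_true] at h3
      have h4 := h3 b hb
      rw [h2, Nat.beq_refl] at h4
      intro h0
      have h5 : mul (mul a b) (mul a b) = mul a a := by
        apply hinj _ (hmul _ hab _ hab).1 _ haa
        rw [(hmul _ hab _ hab).2, (hmul a ha b hb).2, ← pow_two, h0, hsqφ a ha]
      rw [h5, Nat.beq_refl] at h4
      exact absurd h4 (by decide)
  · intro z hz hz2
    obtain ⟨c, hc, rfl⟩ := hsurj z
    have hcc := (hmul c hc c hc).1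
    have h1 : c ≠ one := by
      intro h0
      apply hz
      rw [h0, hone.2]
    have h2 : mul c c = one := by
      apply hinj _ hcc _ hone.1
      rw [← hsqφ c hc, hz2, hone.2]
    have h3 := c11 c hc
    rw [Bool.or_eq_true, Bool.or_eq_true] at h3
    have h4 : (L.filter fun x => Nat.beq (mul x x) c).length = 20 := by
      rcases h3 with (h3 | h3) | h3
      · exact absurd (Nat.eq_of_beq_eq_true h3) h1
      · rw [h2, Nat.beq_refl] at h3
        exact absurd h3 (by decide)
      · exact Nat.eq_of_beq_eq_true h3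
    let L' := L.filter fun x => Nat.beq (mul x x) c
    have hL' : ∀ a, a ∈ L' ↔ a ∈ L ∧ mul a a = c := by
      intro a
      show a ∈ L.filter (fun x => Nat.beq (mul x x) c) ↔ _
      rw [List.mem_filter]
      constructor
      · rintro ⟨h5, h6⟩
        exact ⟨h5, Nat.eq_of_beq_eq_true h6⟩
      · rintro ⟨h5, h6⟩
        exact ⟨h5, by rw [h6]; exact Nat.beq_refl c⟩
    let f : L'.toFinset → {x : H // x ^ 2 = φ c} := fun a =>
      ⟨φ a.1, by
        have h5 := (hL' a.1).mp (List.mem_toFinset.mp a.2)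
        rw [hsqφ a.1 h5.1, h5.2]⟩
    have hf : Function.Bijective f := by
      constructor
      · intro a b hab
        have hab' : φ a.1 = φ b.1 := congrArg Subtype.val hab
        exact Subtype.ext (hinj _ ((hL' a.1).mp (List.mem_toFinset.mp a.2)).1 _
          ((hL' b.1).mp (List.mem_toFinset.mp b.2)).1 hab')
      · intro x
        obtain ⟨a, ha, hax⟩ := hsurj x.1
        have h5 : mul a a = c := by
          apply hinj _ (hmul a ha a ha).1 _ hc
          rw [← hsqφ a ha, hax]
          exact x.2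
        exact ⟨⟨a, List.mem_toFinset.mpr ((hL' a).mpr ⟨ha, h5⟩)⟩, Subtype.ext hax⟩
    rw [← Nat.card_congr (Equiv.ofBijective f hf), Nat.card_eq_finsetCard,
      List.toFinset_card_of_nodup (hnodup.filter _)]
    exact h4

end Cfsg.Agent.Helper2
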