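import Mathlib
import Cfsg.Agent.Helper2.U34Abs2

set_option autoImplicit false

namespace Cfsg.Agent.Helper2

/-- Fixed-point counting for a map of prime order. -/
theorem card_fixed_modEq {α : Type*} [Finite α] (f : Function.End α) (p : ℕ) [Fact p.Prime]
    (hf : f ^ p = 1) : Nat.card α ≡ Nat.card {x : α // f x = x} [MOD p] := by
  classical
  haveI := Fintype.ofFinite α
  have h1 : f ^ p ^ 1 = 1 := by
    rw [pow_one]
    exact hf
  have h2 := Equiv.Perm.card_fixedPoints_modEq (f := f) (p := p) (n := 1) h1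
  rw [← Nat.card_eq_fintype_card, ← Nat.card_eq_fintype_card] at h2
  exact h2

theorem finset_fixed_modEq {α : Type*} [DecidableEq α] (f : α → α) (p : ℕ) [Fact p.Prime]
    (hf : ∀ x, f^[p] x = x) (s : Finset α) (hs : ∀ x ∈ s, f x ∈ s) :
    s.card ≡ (s.filter fun x => f x = x).card [MOD p] := by
  let g : s → s := fun x => ⟨f x.1, hs x.1 x.2⟩
  have hg : ∀ (n : ℕ) (x : s), (g^[n] x).1 = f^[n] x.1 := by
    intro n
    induction n with
    | zero => intro x; rfl
    | succ n ih =>
      intro x
      rw [Function.iterate_succ_apply', Function.iterate_succ_apply', ← ih]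
  let G : Function.End s := g
  have hG : G ^ p = 1 := by
    funext x
    show g^[p] x = x
    exact Subtype.ext (by rw [hg, hf])
  have h1 := card_fixed_modEq G p hG
  have h2 : Nat.card {x : s // G x = x} = (s.filter fun x => f x = x).card := by
    rw [← Nat.card_eq_finsetCard]
    apply Nat.card_congr
    exact {
      toFun := fun x => ⟨x.1.1, Finset.mem_filter.mpr ⟨x.1.2, congrArg Subtype.val x.2⟩⟩
      invFun := fun y => ⟨⟨y.1, (Finset.mem_filter.mp y.2).1⟩,
        Subtype.ext (Finset.mem_filter.mp y.2).2⟩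
      left_inv := fun x => rfl
      right_inv := fun y => rfl }
  rw [Nat.card_eq_finsetCard, h2] at h1
  exact h1

theorem U34Facts.finite {T : Type*} [Group T] (h : U34Facts T) : Finite T :=
  Nat.finite_of_card_ne_zero (by rw [h.card]; norm_num)

theorem U34Facts.mem_center {T : Type*} [Group T] (h : U34Facts T) (x : T) :
    x ∈ Subgroup.center T ↔ x ^ 2 = 1 := by
  constructor
  · intro hx
    by_contra hne
    obtain ⟨y, hy⟩ := h.nc x hne
    exact hy ((Subgroup.mem_center_iff.mp hx y).symm)
  · intro hx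
    exact Subgroup.mem_center_iff.mpr (fun y => (h.cen x hx y).symm)

theorem U34Facts.sq_mul_central {T : Type*} [Group T] (h : U34Facts T) (x z : T)
    (hz : z ^ 2 = 1) : (x * z) ^ 2 = x ^ 2 := by
  rw [pow_two, pow_two]
  calc x * z * (x * z) = x * (z * x) * z := by group
    _ = x * (x * z) * z := by rw [h.cen z hz x]
    _ = x * x * (z * z) := by group
    _ = x * x := by rw [← pow_two z, hz, mul_one]

/-- An automorphism of order dividing 3 that fixes the centre pointwise is trivial. -/
theorem u34_aut3 {T : Type*} [Group T] (h : U34Facts T) (h2 : U34Extra T) (σ : MulAut T)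
    (hσ3 : σ ^ 3 = 1) (hZ : ∀ z : T, z ^ 2 = 1 → σ z = z) : σ = 1 := by
  classical
  have : Finite T := h.finite
  haveI : Fintype T := Fintype.ofFinite T
  have : Fact (Nat.Prime 3) := ⟨Nat.prime_three⟩
  have : Fact (Nat.Prime 2) := ⟨Nat.prime_two⟩
  have h3 : ∀ x : T, (⇑σ)^[3] x = x := by
    intro x
    have e : σ * σ * σ = 1 := by rw [← hσ3, pow_succ, pow_succ, pow_one]
    exact DFunLike.congr_fun e x
  have hcardT : (Finset.univ : Finset T).card = 64 := by
    rw [Finset.card_univ, ← Nat.card_eq_fintype_card, h.card]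
  let C : Subgroup T := (σ.toMonoidHom).eqLocus (MonoidHom.id T)
  have hC : ∀ x, x ∈ C ↔ σ x = x := fun x => Iff.rfl
  let Cf : Finset T := Finset.univ.filter fun x => σ x = x
  have hCf : Nat.card C = Cf.card := by
    rw [← Nat.card_eq_finsetCard]
    apply Nat.card_congr
    exact Equiv.subtypeEquivRight (fun x => by simp [Cf, hC])
  have hb : (Finset.univ.filter fun x : T => ¬ σ x = x).card % 3 = 0 := by
    have h0 := finset_fixed_modEq (⇑σ) 3 h3 (Finset.univ.filter fun x : T => ¬ σ x = x) (by
      intro x hx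
      rw [Finset.mem_filter] at hx ⊢
      refine ⟨Finset.mem_univ _, ?_⟩
      intro h0
      exact hx.2 (σ.injective h0))
    have he : ((Finset.univ.filter fun x : T => ¬ σ x = x).filter fun x => σ x = x) = ∅ := by
      apply Finset.filter_eq_empty_iff.mpr
      intro x hx
      exact (Finset.mem_filter.mp hx).2
    rw [he, Finset.card_empty] at h0
    exact h0
  have hsplit : Cf.card + (Finset.univ.filter fun x : T => ¬ σ x = x).card = 64 := by
    rw [← hcardT]
    exact Finset.card_filter_add_card_filter_not _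
  let Zf : Finset T := Finset.univ.filter fun z => z ^ 2 = 1
  have hZf : Zf.card = 4 := by
    have h0 := h.t4
    rw [Nat.card_eq_fintype_card, Fintype.card_subtype] at h0
    exact h0
  have h1Zf : (1 : T) ∈ Zf := Finset.mem_filter.mpr ⟨Finset.mem_univ _, one_pow 2⟩
  have hfib : Cf.card = ∑ z ∈ Zf, (Cf.filter fun x => x ^ 2 = z).card := by
    apply Finset.card_eq_sum_card_fiberwise
    intro x _
    exact Finset.mem_coe.mpr (Finset.mem_filter.mpr ⟨Finset.mem_univ _, h.sq x⟩)
  have hfib1 : (Cf.filter fun x => x ^ 2 = 1) = Zf := by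
    ext x
    simp only [Cf, Zf, Finset.mem_filter, Finset.mem_univ, true_and]
    constructor
    · exact fun hx => hx.2
    · exact fun hx => ⟨hZ x hx, hx⟩
  have hfibz : ∀ z ∈ Zf.erase 1, 8 ≤ (Cf.filter fun x => x ^ 2 = z).card := by
    intro z hz
    rw [Finset.mem_erase] at hz
    obtain ⟨hz1, hz⟩ := hz
    have hz2 : z ^ 2 = 1 := (Finset.mem_filter.mp hz).2
    let X : Finset T := Finset.univ.filter fun x => x ^ 2 = z
    have hX : X.card = 20 := by
      have h0 := h2.f2 z hz1 hz2
      rw [Nat.card_eq_fintype_card, Fintype.card_subtype] at h0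
      exact h0
    have hXf : (X.filter fun x => σ x = x) = (Cf.filter fun x => x ^ 2 = z) := by
      ext x
      simp only [X, Cf, Finset.mem_filter, Finset.mem_univ, true_and]
      exact and_comm
    have hm3 := finset_fixed_modEq (⇑σ) 3 h3 X (by
      intro x hx
      rw [Finset.mem_filter] at hx ⊢
      refine ⟨Finset.mem_univ _, ?_⟩
      rw [← map_pow, hx.2, hZ z hz2])
    rw [hX, hXf] at hm3
    generalize hA : (Cf.filter fun x => x ^ 2 = z) = A at hm3 ⊢
    have hAmem : ∀ x, x ∈ A ↔ σ x = x ∧ x ^ 2 = z := by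
      intro x
      rw [← hA]
      simp only [Cf, Finset.mem_filter, Finset.mem_univ, true_and]
    have hAmul : ∀ x ∈ A, ∀ ζ : T, ζ ^ 2 = 1 → x * ζ ∈ A := by
      intro x hx ζ hζ
      rw [hAmem] at hx ⊢
      refine ⟨by rw [map_mul, hx.1, hZ ζ hζ], ?_⟩
      rw [h.sq_mul_central x ζ hζ, hx.2]
    have hm2 : A.card % 2 = 0 := by
      have h0 := finset_fixed_modEq (fun x : T => x * z) 2 (by
        intro x
        show (x * z) * z = x
        rw [mul_assoc, ← pow_two, hz2, mul_one]) A (fun x hx => hAmul x hx z hz2)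
      have he : (A.filter fun x => x * z = x) = ∅ := by
        apply Finset.filter_eq_empty_iff.mpr
        intro x _ h0
        exact hz1 (mul_left_cancel (a := x) (by rw [h0, mul_one]))
      rw [he, Finset.card_empty] at h0
      exact h0
    have hm3' : A.card % 3 = 2 := by
      unfold Nat.ModEq at hm3
      omega
    have hpos : 0 < A.card := by omega
    obtain ⟨x, hx⟩ := Finset.card_pos.mp hpos
    have h4 : 4 ≤ A.card := by
      rw [← hZf]
      apply Finset.card_le_card_of_injOn (fun ζ => x * ζ)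
      · intro ζ hζ
        exact Finset.mem_coe.mpr (hAmul x hx ζ (Finset.mem_filter.mp (Finset.mem_coe.mp hζ)).2)
      · intro a _ b _ hab
        exact mul_left_cancel hab
    omega
  have hsum : 28 ≤ Cf.card := by
    rw [hfib, ← Finset.add_sum_erase Zf _ h1Zf, hfib1, hZf]
    have h5 : (Zf.erase 1).card = 3 := by
      rw [Finset.card_erase_of_mem h1Zf, hZf]
    have h6 := Finset.card_nsmul_le_sum (Zf.erase 1)
      (fun z => (Cf.filter fun x => x ^ 2 = z).card) 8 hfibz
    rw [h5] at h6
    simp only [smul_eq_mul] at h6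
    omega
  have hdvd : Nat.card C ∣ 64 := by
    rw [← h.card]
    exact Subgroup.card_subgroup_dvd_card C
  rw [hCf] at hdvd
  have hc64 : Cf.card = 64 := by
    have hmem : Cf.card ∈ Nat.divisors 64 := Nat.mem_divisors.mpr ⟨hdvd, by norm_num⟩
    have hdiv : Nat.divisors 64 = {1, 2, 4, 8, 16, 32, 64} := by decide
    rw [hdiv] at hmem
    simp only [Finset.mem_insert, Finset.mem_singleton] at hmem
    omega
  have hall : ∀ x : T, σ x = x := by
    intro x
    have huniv : Cf = Finset.univ :=
      Finset.eq_univ_of_card Cf (by rw [hc64, ← hcardT, Finset.card_univ])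
    have hx : x ∈ Cf := by rw [huniv]; exact Finset.mem_univ x
    exact (Finset.mem_filter.mp hx).2
  exact MulEquiv.ext hall

/-- An automorphism of order dividing 2 fixes the centre pointwise. -/
theorem u34_aut2 {T : Type*} [Group T] (h : U34Facts T) (h2 : U34Extra T) (τ : MulAut T)
    (hτ2 : τ ^ 2 = 1) (z₁ : T) (hz₁ : z₁ ^ 2 = 1) : τ z₁ = z₁ := by
  classical
  by_contra hne
  have hfinT : Finite T := h.finite
  haveI : Fintype T := Fintype.ofFinite T
  have hττ : ∀ x : T, τ (τ x) = x := by
    intro x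
    have e : τ * τ = 1 := by rw [← hτ2, pow_two]
    exact DFunLike.congr_fun e x
  have hZ : ∀ x, x ∈ Subgroup.center T ↔ x ^ 2 = 1 := h.mem_center
  have hτZ : ∀ x : T, x ^ 2 = 1 → (τ x) ^ 2 = 1 := fun x hx => by rw [← map_pow, hx, map_one]
  let C : Subgroup T := (τ.toMonoidHom).eqLocus (MonoidHom.id T)
  have hC : ∀ x, x ∈ C ↔ τ x = x := fun x => Iff.rfl
  let D : Subgroup T :=
    { carrier := {x | x⁻¹ * τ x ∈ Subgroup.center T}
      one_mem' := by
        show (1 : T)⁻¹ * τ 1 ∈ Subgroup.center T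
        rw [map_one, inv_one, one_mul]
        exact one_mem _
      mul_mem' := by
        intro x y hx hy
        show (x * y)⁻¹ * τ (x * y) ∈ Subgroup.center T
        have hc : ∀ g : T, g * (x⁻¹ * τ x) = (x⁻¹ * τ x) * g := Subgroup.mem_center_iff.mp hx
        have e : (x * y)⁻¹ * τ (x * y) = (x⁻¹ * τ x) * (y⁻¹ * τ y) := by
          rw [map_mul, mul_inv_rev]
          calc y⁻¹ * x⁻¹ * (τ x * τ y) = y⁻¹ * (x⁻¹ * τ x) * τ y := by group
            _ = (x⁻¹ * τ x) * y⁻¹ * τ y := by rw [hc y⁻¹]
            _ = (x⁻¹ * τ x) * (y⁻¹ * τ y) := by group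
        rw [e]
        exact mul_mem hx hy
      inv_mem' := by
        intro x hx
        show (x⁻¹)⁻¹ * τ (x⁻¹) ∈ Subgroup.center T
        have hn : (Subgroup.center T).Normal := inferInstance
        have h1 := hn.conj_mem _ (inv_mem hx) x
        have e : (x⁻¹)⁻¹ * τ (x⁻¹) = x * (x⁻¹ * τ x)⁻¹ * x⁻¹ := by
          rw [map_inv]
          group
        rw [e]
        exact h1 }
  have hD : ∀ x, x ∈ D ↔ x⁻¹ * τ x ∈ Subgroup.center T := fun x => Iff.rfl
  have hZD : ∀ x, x ^ 2 = 1 → x ∈ D := by
    intro x hx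
    rw [hD]
    exact mul_mem (inv_mem ((hZ x).mpr hx)) ((hZ _).mpr (hτZ x hx))
  have hCD : C ≤ D := by
    intro x hx
    rw [hD, (hC x).mp hx, inv_mul_cancel]
    exact one_mem _
  have hz₁C : z₁ ∉ C := hne
  -- squares of elements of D are fixed
  have hsqfix : ∀ x ∈ D, τ (x ^ 2) = x ^ 2 := by
    intro x hx
    have hζ : (x⁻¹ * τ x) ^ 2 = 1 := (hZ _).mp hx
    have e : τ x = x * (x⁻¹ * τ x) := by group
    rw [map_pow, e, h.sq_mul_central x _ hζ]
  -- at most one nonidentity fixed central element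
  have hW : ∀ a b : T, a ^ 2 = 1 → b ^ 2 = 1 → τ a = a → τ b = b → a ≠ 1 → b ≠ 1 → a = b := by
    intro a b ha hb hτa hτb ha1 hb1
    by_contra hab
    let Zf : Finset T := Finset.univ.filter fun z => z ^ 2 = 1
    have hZf : Zf.card = 4 := by
      have h0 := h.t4
      rw [Nat.card_eq_fintype_card, Fintype.card_subtype] at h0
      exact h0
    have habsq : (a * b) ^ 2 = 1 := by rw [h.sq_mul_central a b hb, ha]
    have hsub : ({1, a, b, a * b} : Finset T) ⊆ Zf := by
      intro x hx
      rw [Finset.mem_insert, Finset.mem_insert, Finset.mem_insert, Finset.mem_singleton] at hx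
      refine Finset.mem_filter.mpr ⟨Finset.mem_univ _, ?_⟩
      rcases hx with rfl | rfl | rfl | rfl
      · exact one_pow 2
      · exact ha
      · exact hb
      · exact habsq
    have hcard : ({1, a, b, a * b} : Finset T).card = 4 := by
      have n1 : b ∉ ({a * b} : Finset T) := by
        rw [Finset.mem_singleton]
        intro h0
        apply ha1
        have h1 : 1 * b = a * b := by rw [one_mul]; exact h0
        exact (mul_right_cancel h1).symm
      have n2 : a ∉ ({b, a * b} : Finset T) := by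
        rw [Finset.mem_insert, Finset.mem_singleton]
        rintro (h0 | h0)
        · exact hab h0
        · apply hb1
          have h1 : a * 1 = a * b := by rw [mul_one]; exact h0
          exact (mul_left_cancel h1).symm
      have n3 : (1 : T) ∉ ({a, b, a * b} : Finset T) := by
        rw [Finset.mem_insert, Finset.mem_insert, Finset.mem_singleton]
        rintro (h0 | h0 | h0)
        · exact ha1 h0.symm
        · exact hb1 h0.symm
        · apply hab
          have h1 : a * b = b * b := by rw [← h0, ← pow_two, hb]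
          exact mul_right_cancel h1
      rw [Finset.card_insert_of_notMem n3, Finset.card_insert_of_notMem n2,
        Finset.card_insert_of_notMem n1, Finset.card_singleton]
    have heq : ({1, a, b, a * b} : Finset T) = Zf :=
      Finset.eq_of_subset_of_card_le hsub (by rw [hcard, hZf])
    have hz : z₁ ∈ ({1, a, b, a * b} : Finset T) := by
      rw [heq]
      exact Finset.mem_filter.mpr ⟨Finset.mem_univ _, hz₁⟩
    rw [Finset.mem_insert, Finset.mem_insert, Finset.mem_insert, Finset.mem_singleton] at hz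
    apply hne
    rcases hz with rfl | rfl | rfl | rfl
    · exact map_one τ
    · exact hτa
    · exact hτb
    · rw [map_mul, hτa, hτb]
  -- products of non-central elements of D are central
  have hprod : ∀ x ∈ D, ∀ y ∈ D, x ^ 2 ≠ 1 → y ^ 2 ≠ 1 → (x * y) ^ 2 = 1 := by
    intro x hx y hy hx1 hy1
    by_contra hxy
    have e1 : y ^ 2 = x ^ 2 :=
      hW _ _ (h.sq y) (h.sq x) (hsqfix y hy) (hsqfix x hx) hy1 hx1
    have e2 : (x * y) ^ 2 = x ^ 2 :=
      hW _ _ (h.sq _) (h.sq x) (hsqfix _ (mul_mem hx hy)) (hsqfix x hx) hxy hx1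
    exact h2.f1 x y hx1 e1 e2
  have hcardZ : Nat.card (Subgroup.center T) = 4 := by
    rw [← h.t4]
    exact Nat.card_congr (Equiv.subtypeEquivRight hZ)
  -- |D| ≤ 8
  have hD8 : Nat.card D ≤ 8 := by
    by_cases hDZ : ∀ x ∈ D, x ^ 2 = 1
    · have hle : D ≤ Subgroup.center T := fun x hx => (hZ x).mpr (hDZ x hx)
      have := Subgroup.card_le_of_le hle
      omega
    · push_neg at hDZ
      obtain ⟨x₀, hx₀D, hx₀⟩ := hDZ
      let G : D → Subgroup.center T × Bool := fun d =>
        if hd : d.1 ^ 2 = 1 then (⟨d.1, (hZ _).mpr hd⟩, false)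
        else (⟨x₀ * d.1, (hZ _).mpr (hprod x₀ hx₀D d.1 d.2 hx₀ hd)⟩, true)
      have hG : Function.Injective G := by
        intro d d' hdd
        by_cases hd : d.1 ^ 2 = 1
        · by_cases hd' : d'.1 ^ 2 = 1
          · simp only [G, dif_pos hd, dif_pos hd'] at hdd
            have h1 := congrArg (fun q => (q.1 : T)) hdd
            exact Subtype.ext h1
          · simp only [G, dif_pos hd, dif_neg hd'] at hdd
            have h1 := congrArg Prod.snd hdd
            exact Bool.noConfusion h1
        · by_cases hd' : d'.1 ^ 2 = 1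
          · simp only [G, dif_neg hd, dif_pos hd'] at hdd
            have h1 := congrArg Prod.snd hdd
            exact Bool.noConfusion h1
          · simp only [G, dif_neg hd, dif_neg hd'] at hdd
            have h1 : x₀ * d.1 = x₀ * d'.1 := congrArg (fun q => (q.1 : T)) hdd
            exact Subtype.ext (mul_left_cancel h1)
      have h1 := Nat.card_le_card_of_injective G hG
      have hb : Nat.card Bool = 2 := by rw [Nat.card_eq_fintype_card, Fintype.card_bool]
      rw [Nat.card_prod, hcardZ, hb] at h1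
      exact h1
  -- |T| ≤ |D| * |C|
  let ψ : T → T := fun x => x⁻¹ * τ x
  have hψD : ∀ x, ψ x ∈ D := by
    intro x
    rw [hD]
    show (x⁻¹ * τ x)⁻¹ * τ (x⁻¹ * τ x) ∈ Subgroup.center T
    rw [map_mul, map_inv, hττ, mul_inv_rev, inv_inv, ← pow_two]
    exact (hZ _).mpr (h.sq _)
  let sec : T → T := fun d => if hd : ∃ y, ψ y = d then Classical.choose hd else 1
  have hsec : ∀ x, ψ (sec (ψ x)) = ψ x := by
    intro x
    have hex : ∃ y, ψ y = ψ x := ⟨x, rfl⟩
    show ψ (if hd : ∃ y, ψ y = ψ x then Classical.choose hd else 1) = ψ x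
    rw [dif_pos hex]
    exact Classical.choose_spec hex
  have hfix : ∀ x y : T, ψ x = ψ y → x * y⁻¹ ∈ C := by
    intro x y hxy
    rw [hC, map_mul, map_inv]
    have ex : τ x = x * ψ x := by show τ x = x * (x⁻¹ * τ x); group
    have ey : τ y = y * ψ y := by show τ y = y * (y⁻¹ * τ y); group
    rw [ex, ey, hxy]
    group
  let G : T → D × C := fun x =>
    (⟨ψ x, hψD x⟩, ⟨x * (sec (ψ x))⁻¹, hfix x (sec (ψ x)) (hsec x).symm⟩)
  have hG : Function.Injective G := by
    intro x y hxy
    have h1 : ψ x = ψ y := congrArg (fun q => (q.1.1 : T)) hxy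
    have h3 : x * (sec (ψ x))⁻¹ = y * (sec (ψ y))⁻¹ := congrArg (fun q => (q.2.1 : T)) hxy
    rw [h1] at h3
    exact mul_right_cancel h3
  have h64 := Nat.card_le_card_of_injective G hG
  rw [Nat.card_prod, h.card] at h64
  -- |C| ≤ |D| / 2
  have hdvd : Nat.card C ∣ Nat.card D := Subgroup.card_dvd_of_le hCD
  have hneq : Nat.card C ≠ Nat.card D := by
    intro h0
    have h1 : C = D := Subgroup.eq_of_le_of_card_ge hCD (le_of_eq h0.symm)
    apply hz₁C
    rw [h1]
    exact hZD z₁ hz₁
  obtain ⟨k, hk⟩ := hdvd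
  have hDpos : 0 < Nat.card D := Nat.card_pos
  have hk2 : 2 ≤ k := by
    by_contra hlt
    have hk01 : k = 0 ∨ k = 1 := by omega
    rcases hk01 with rfl | rfl
    · rw [mul_zero] at hk
      omega
    · rw [mul_one] at hk
      exact hneq hk.symm
  have hC4 : Nat.card C * 2 ≤ 8 := by
    calc Nat.card C * 2 ≤ Nat.card C * k := Nat.mul_le_mul_left _ hk2
      _ = Nat.card D := hk.symm
      _ ≤ 8 := hD8
  have hfin : Nat.card D * Nat.card C ≤ 8 * 4 := Nat.mul_le_mul hD8 (by omega)
  omega

/-- No subgroup of the automorphism group is isomorphic to `S₃`. -/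
theorem u34_no_s3 {T : Type*} [Group T] (h : U34Facts T) (h2 : U34Extra T)
    (H : Subgroup (MulAut T)) : ¬ Nonempty (H ≃* Equiv.Perm (Fin 3)) := by
  rintro ⟨e⟩
  let c : Equiv.Perm (Fin 3) := finRotate 3
  let t : Equiv.Perm (Fin 3) := Equiv.swap 0 1
  have hc3 : c ^ 3 = 1 := by decide
  have hc1 : c ≠ 1 := by decide
  have ht2 : t ^ 2 = 1 := by decide
  have hrel : t * c * t = c * c := by decide
  let σ : MulAut T := (e.symm c : H)
  let τ : MulAut T := (e.symm t : H)
  have hσ3 : σ ^ 3 = 1 := by
    show ((e.symm c : H) : MulAut T) ^ 3 = 1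
    rw [← Subgroup.coe_pow, ← map_pow, hc3, map_one, Subgroup.coe_one]
  have hσ1 : σ ≠ 1 := by
    intro h0
    apply hc1
    have h1 : e.symm c = 1 := Subtype.ext h0
    exact (MulEquiv.map_eq_one_iff e.symm).mp h1
  have hτ2 : τ ^ 2 = 1 := by
    show ((e.symm t : H) : MulAut T) ^ 2 = 1
    rw [← Subgroup.coe_pow, ← map_pow, ht2, map_one, Subgroup.coe_one]
  have hrel' : τ * σ * τ = σ * σ := by
    show ((e.symm t : H) : MulAut T) * (e.symm c : H) * (e.symm t : H) =
      (e.symm c : H) * (e.symm c : H)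
    rw [← Subgroup.coe_mul, ← Subgroup.coe_mul, ← Subgroup.coe_mul, ← map_mul, ← map_mul,
      ← map_mul, hrel]
  have hτZ : ∀ z : T, z ^ 2 = 1 → τ z = z := fun z hz => u34_aut2 h h2 τ hτ2 z hz
  have hσZ : ∀ z : T, z ^ 2 = 1 → σ z = z := by
    intro z hz
    have hσz : (σ z) ^ 2 = 1 := by rw [← map_pow, hz, map_one]
    have h1 : τ (σ (τ z)) = σ (σ z) := DFunLike.congr_fun hrel' z
    rw [hτZ z hz, hτZ _ hσz] at h1
    exact (σ.injective h1).symm
  exact hσ1 (u34_aut3 h h2 σ hσ3 hσZ)

end Cfsg.Agent.Helper2
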