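import Mathlib
import Cfsg.Agent.Helper2.U34Codes

set_option autoImplicit false

namespace Cfsg.Agent.Helper2

/-- Packed codes of the 64 elements of a Sylow 2-subgroup of `SU₃(4)`. -/
def u34L : List ℕ := [4294971408, 4295032833, 4295389302, 4295450727, 4581372210, 4581433635, 4581511508, 4581572933, 4869239738, 4869301163, 4869379036, 4869440461, 5153403578, 5153465003, 5153542876, 5153604301, 5441623448, 5441684873, 5442041342, 5442102767, 5725787288, 5725848713, 5726205182, 5726266607, 6013097624, 6013159049, 6013515518, 6013576943, 6299498426, 6299559851, 6299637724, 6299699149, 6592544562, 6592605987, 6592683860, 6592745285, 6877126296, 6877187721, 6877544190, 6877605615, 7159823410, 7159884835, 7159962708, 7160024133, 7446642106, 7446703531, 7446781404, 7446842829, 7728151090, 7728212515, 7728290388, 7728351813, 8014969786, 8015031211, 8015109084, 8015170509, 8297945496, 8298006921, 8298363390, 8298424815, 8581691442, 8581752867, 8581830740, 8581892165]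

theorem u34L_length : u34L.length = 64 := by decide +kernel

theorem u34L_nodup : u34L.Nodup := by decide +kernel

set_option maxRecDepth 100000 in
theorem u34L_chk : (u34L.all fun a => Nat.blt a 68719476736 && puni16 a &&
    Nat.beq (pdet16 a) 1) = true := by decide +kernel

set_option maxRecDepth 100000 in
theorem u34L_closed : (u34L.all fun a => u34L.all fun b =>
    u34L.any fun c => Nat.beq (pmul16 a b) c) = true := by decide +kernel

theorem u34L_one : (u34L.any fun c => Nat.beq pone16 c) = true := by decide +kernel

set_option maxRecDepth 100000 in
theorem u34L_c5 : (u34L.filter fun a => Nat.beq (pmul16 a a) pone16).length = 4 := by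
  decide +kernel

set_option maxRecDepth 100000 in
theorem u34L_c6 : (u34L.all fun a => !(Nat.beq (pmul16 a a) pone16) ||
    u34L.all fun b => Nat.beq (pmul16 a b) (pmul16 b a)) = true := by decide +kernel

set_option maxRecDepth 100000 in
theorem u34L_c7 : (u34L.all fun a =>
    Nat.beq (pmul16 (pmul16 a a) (pmul16 a a)) pone16) = true := by decide +kernel

set_option maxRecDepth 100000 in
theorem u34L_c8 : (u34L.all fun a => Nat.beq (pmul16 a a) pone16 ||
    u34L.any fun b => !(Nat.beq (pmul16 a b) (pmul16 b a))) = true := by decide +kernel

set_option maxRecDepth 100000 in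
theorem u34L_c9 : (u34L.all fun a => !(Nat.beq (pmul16 a a) pone16) ||
    u34L.any fun b => u34L.any fun c =>
      Nat.beq (pmul16 (pmul16 a c) b) (pmul16 b c)) = true := by decide +kernel

end Cfsg.Agent.Helper2
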