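import Mathlib
import Cfsg.Agent.Helper2.U34Data

set_option autoImplicit false

namespace Cfsg.Agent.Helper2

set_option maxRecDepth 100000 in
theorem u34L_c10 : (u34L.all fun x => Nat.beq (pmul16 x x) pone16 || u34L.all fun y =>
    !(Nat.beq (pmul16 y y) (pmul16 x x)) ||
      !(Nat.beq (pmul16 (pmul16 x y) (pmul16 x y)) (pmul16 x x))) = true := by decide +kernel

set_option maxRecDepth 100000 in
theorem u34L_c11 : (u34L.all fun z => Nat.beq z pone16 || !(Nat.beq (pmul16 z z) pone16) ||
    Nat.beq (u34L.filter fun x => Nat.beq (pmul16 x x) z).length 20) = true := by decide +kernel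

end Cfsg.Agent.Helper2
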