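import Mathlib
import Cfsg.Agent.Helper2.U34Codes

set_option autoImplicit false

namespace Cfsg.Agent.Helper2

/-- The code of a `3 × 3` matrix over `F₁₆` from a single number (base-16 digits). -/
def cnum16 (k : ℕ) : CMat 3 := fun i j => k / 16 ^ (3 * (i : ℕ) + (j : ℕ)) % 16

theorem digits16_inj : ∀ (n k k' : ℕ), k < 16 ^ n → k' < 16 ^ n →
    (∀ t, t < n → k / 16 ^ t % 16 = k' / 16 ^ t % 16) → k = k' := by
  intro n
  induction n with
  | zero =>
    intro k k' hk hk' _
    simp at hk hk'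
    rw [hk, hk']
  | succ n ih =>
    intro k k' hk hk' h
    have h0 := h 0 (Nat.succ_pos n)
    simp only [pow_zero, Nat.div_one] at h0
    have h1 : k / 16 = k' / 16 := by
      apply ih
      · rw [pow_succ] at hk
        exact Nat.div_lt_of_lt_mul (by rw [mul_comm]; exact hk)
      · rw [pow_succ] at hk'
        exact Nat.div_lt_of_lt_mul (by rw [mul_comm]; exact hk')
      · intro t ht
        have := h (t + 1) (Nat.succ_lt_succ ht)
        rw [pow_succ', ← Nat.div_div_eq_div_mul, ← Nat.div_div_eq_div_mul] at this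
        exact this
    have e1 := Nat.div_add_mod k 16
    have e2 := Nat.div_add_mod k' 16
    omega

theorem cnum16_inj (k k' : ℕ) (hk : k < 16 ^ 9) (hk' : k' < 16 ^ 9)
    (h : ∀ i j : Fin 3, cnum16 k i j = cnum16 k' i j) : k = k' := by
  apply digits16_inj 9 k k' hk hk'
  intro t ht
  have h3 : t / 3 < 3 := by omega
  have h4 : t % 3 < 3 := Nat.mod_lt _ (by norm_num)
  have := h ⟨t / 3, h3⟩ ⟨t % 3, h4⟩
  simp only [cnum16] at this
  rw [Nat.div_add_mod] at this
  exact this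

def cmul16 (x y : CMat 3) : CMat 3 := fun i j =>
  fadd16 (fadd16 (fmul16 (x i 0) (y 0 j)) (fmul16 (x i 1) (y 1 j))) (fmul16 (x i 2) (y 2 j))

theorem pent16_lt (a b ta0 ta1 ta2 tb0 tb1 tb2 : ℕ) : pent16 a b ta0 ta1 ta2 tb0 tb1 tb2 < 16 :=
  fadd16_lt _ _

theorem cnum16_pmul16 (a b : ℕ) : cnum16 (pmul16 a b) = cmul16 (cnum16 a) (cnum16 b) := by
  funext i j
  have h0 := pent16_lt a b 1 16 256 1 4096 16777216
  have h1 := pent16_lt a b 1 16 256 16 65536 268435456
  have h2 := pent16_lt a b 1 16 256 256 1048576 4294967296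
  have h3 := pent16_lt a b 4096 65536 1048576 1 4096 16777216
  have h4 := pent16_lt a b 4096 65536 1048576 16 65536 268435456
  have h5 := pent16_lt a b 4096 65536 1048576 256 1048576 4294967296
  have h6 := pent16_lt a b 16777216 268435456 4294967296 1 4096 16777216
  have h7 := pent16_lt a b 16777216 268435456 4294967296 16 65536 268435456
  have h8 := pent16_lt a b 16777216 268435456 4294967296 256 1048576 4294967296
  have hp : pmul16 a b = pent16 a b 1 16 256 1 4096 16777216 +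
      16 * (pent16 a b 1 16 256 16 65536 268435456 +
      16 * (pent16 a b 1 16 256 256 1048576 4294967296 +
      16 * (pent16 a b 4096 65536 1048576 1 4096 16777216 +
      16 * (pent16 a b 4096 65536 1048576 16 65536 268435456 +
      16 * (pent16 a b 4096 65536 1048576 256 1048576 4294967296 +
      16 * (pent16 a b 16777216 268435456 4294967296 1 4096 16777216 +
      16 * (pent16 a b 16777216 268435456 4294967296 16 65536 268435456 +
      16 * (pent16 a b 16777216 268435456 4294967296 256 1048576 4294967296)))))))) := rfl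
  fin_cases i <;> fin_cases j
  · show pmul16 a b / 1 % 16 = pent16 a b 1 16 256 1 4096 16777216
    rw [hp]
    omega
  · show pmul16 a b / 16 % 16 = pent16 a b 1 16 256 16 65536 268435456
    rw [hp]
    omega
  · show pmul16 a b / 256 % 16 = pent16 a b 1 16 256 256 1048576 4294967296
    rw [hp]
    omega
  · show pmul16 a b / 4096 % 16 = pent16 a b 4096 65536 1048576 1 4096 16777216
    rw [hp]
    omega
  · show pmul16 a b / 65536 % 16 = pent16 a b 4096 65536 1048576 16 65536 268435456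
    rw [hp]
    omega
  · show pmul16 a b / 1048576 % 16 = pent16 a b 4096 65536 1048576 256 1048576 4294967296
    rw [hp]
    omega
  · show pmul16 a b / 16777216 % 16 = pent16 a b 16777216 268435456 4294967296 1 4096 16777216
    rw [hp]
    omega
  · show pmul16 a b / 268435456 % 16 = pent16 a b 16777216 268435456 4294967296 16 65536 268435456
    rw [hp]
    omega
  · show pmul16 a b / 4294967296 % 16 =
      pent16 a b 16777216 268435456 4294967296 256 1048576 4294967296
    rw [hp]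
    omega

theorem cnum16_pone16 : cnum16 pone16 = cone 3 := by
  funext i j
  fin_cases i <;> fin_cases j <;> rfl

theorem cnum16_row0 (a : ℕ) (j : Fin 3) : cnum16 a 0 j = pd16 a (16 ^ (j : ℕ)) := by
  show a / 16 ^ (3 * ((0 : Fin 3) : ℕ) + (j : ℕ)) % 16 = a / 16 ^ (j : ℕ) % 16
  simp

theorem cnum16_row1 (a : ℕ) (j : Fin 3) : cnum16 a 1 j = pd16 a (16 ^ (3 + (j : ℕ))) := by
  show a / 16 ^ (3 * ((1 : Fin 3) : ℕ) + (j : ℕ)) % 16 = a / 16 ^ (3 + (j : ℕ)) % 16
  simp

theorem cnum16_row2 (a : ℕ) (j : Fin 3) : cnum16 a 2 j = pd16 a (16 ^ (6 + (j : ℕ))) := by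
  show a / 16 ^ (3 * ((2 : Fin 3) : ℕ) + (j : ℕ)) % 16 = a / 16 ^ (6 + (j : ℕ)) % 16
  simp

theorem cnum16_lt (a : ℕ) (i j : Fin 3) : cnum16 a i j < 16 := Nat.mod_lt _ (by norm_num)

section F16

variable {F : Type*} [Field F]

/-- Decoding codes of `3 × 3` matrices over a field with 16 elements. -/
def cdec16 (w : F) (x : CMat 3) : Matrix (Fin 3) (Fin 3) F := Matrix.of fun i j => dec16 w (x i j)

theorem cdec16_mul [CharP F 2] (w : F) (hw : w ^ 4 = w + 1) (x y : CMat 3) :
    cdec16 w (cmul16 x y) = cdec16 w x * cdec16 w y := by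
  ext i j
  simp only [cdec16, cmul16, Matrix.of_apply, Matrix.mul_apply, Fin.sum_univ_three, dec16_add,
    dec16_mul w hw]

theorem cdec16_one (w : F) : cdec16 w (cone 3) = 1 := by
  ext i j
  simp only [cdec16, cone, Matrix.of_apply, Matrix.one_apply]
  split_ifs
  · exact dec16_one w
  · exact dec16_zero w

theorem pdec16_mul [CharP F 2] (w : F) (hw : w ^ 4 = w + 1) (a b : ℕ) :
    cdec16 w (cnum16 (pmul16 a b)) = cdec16 w (cnum16 a) * cdec16 w (cnum16 b) := by
  rw [cnum16_pmul16, cdec16_mul w hw]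

theorem pdec16_one (w : F) : cdec16 w (cnum16 pone16) = 1 := by
  rw [cnum16_pone16, cdec16_one]

theorem pdec16_inj [CharP F 2] (w : F) (hw : w ^ 4 = w + 1) (a b : ℕ) (ha : a < 16 ^ 9)
    (hb : b < 16 ^ 9) (h : cdec16 w (cnum16 a) = cdec16 w (cnum16 b)) : a = b := by
  apply cnum16_inj a b ha hb
  intro i j
  have := congrFun (congrFun h i) j
  simp only [cdec16, Matrix.of_apply] at this
  exact dec16_inj w hw _ _ (cnum16_lt a i j) (cnum16_lt b i j) this

theorem ucheck16_spec [CharP F 2] (w : F) (hw : w ^ 4 = w + 1) (a : ℕ) (j k : Fin 3) (δ : ℕ)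
    (h : ucheck16 a j k δ = true) :
    ∑ i, cdec16 w (cnum16 a) i j * (cdec16 w (cnum16 a) i k) ^ 4 = dec16 w δ := by
  have h1 : uent16 (cnum16 a 0 j) (cnum16 a 1 j) (cnum16 a 2 j) (cnum16 a 0 k) (cnum16 a 1 k)
      (cnum16 a 2 k) = δ := by
    rw [cnum16_row0, cnum16_row1, cnum16_row2, cnum16_row0, cnum16_row1, cnum16_row2]
    exact Nat.eq_of_beq_eq_true h
  rw [Fin.sum_univ_three]
  simp only [cdec16, Matrix.of_apply]
  rw [← h1]
  simp only [uent16, dec16_add, dec16_mul w hw, dec16_conj w hw]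

theorem puni16_ucheck (a : ℕ) (h : puni16 a = true) (j k : Fin 3) :
    ucheck16 a (j : ℕ) (k : ℕ) (if j = k then 1 else 0) = true := by
  unfold puni16 at h
  simp only [Bool.and_eq_true] at h
  obtain ⟨⟨⟨⟨⟨⟨⟨⟨h00, h01⟩, h02⟩, h10⟩, h11⟩, h12⟩, h20⟩, h21⟩, h22⟩ := h
  fin_cases j <;> fin_cases k
  · exact h00
  · exact h01
  · exact h02
  · exact h10
  · exact h11
  · exact h12
  · exact h20
  · exact h21
  · exact h22

theorem puni16_spec [CharP F 2] (w : F) (hw : w ^ 4 = w + 1) (a : ℕ) (h : puni16 a = true)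
    (j k : Fin 3) :
    ∑ i, cdec16 w (cnum16 a) i j * (cdec16 w (cnum16 a) i k) ^ 4 = if j = k then 1 else 0 := by
  rw [ucheck16_spec w hw a j k _ (puni16_ucheck a h j k)]
  split_ifs
  · exact dec16_one w
  · exact dec16_zero w

theorem cdec16_det [CharP F 2] (w : F) (hw : w ^ 4 = w + 1) (a : ℕ) :
    (cdec16 w (cnum16 a)).det = dec16 w (pdet16 a) := by
  have h2 : (2 : F) = 0 := two_eq_zero16
  have e00 : cnum16 a 0 0 = pd16 a 1 := cnum16_row0 a 0
  have e01 : cnum16 a 0 1 = pd16 a 16 := cnum16_row0 a 1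
  have e02 : cnum16 a 0 2 = pd16 a 256 := cnum16_row0 a 2
  have e10 : cnum16 a 1 0 = pd16 a 4096 := cnum16_row1 a 0
  have e11 : cnum16 a 1 1 = pd16 a 65536 := cnum16_row1 a 1
  have e12 : cnum16 a 1 2 = pd16 a 1048576 := cnum16_row1 a 2
  have e20 : cnum16 a 2 0 = pd16 a 16777216 := cnum16_row2 a 0
  have e21 : cnum16 a 2 1 = pd16 a 268435456 := cnum16_row2 a 1
  have e22 : cnum16 a 2 2 = pd16 a 4294967296 := cnum16_row2 a 2
  rw [Matrix.det_fin_three]
  simp only [pdet16, dec16_add, dec16_mul w hw, cdec16, Matrix.of_apply, e00, e01, e02, e10, e11,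
    e12, e20, e21, e22]
  linear_combination (-(dec16 w (pd16 a 256) * dec16 w (pd16 a 65536) * dec16 w (pd16 a 16777216)) -
    dec16 w (pd16 a 16) * dec16 w (pd16 a 4096) * dec16 w (pd16 a 4294967296) -
    dec16 w (pd16 a 1) * dec16 w (pd16 a 1048576) * dec16 w (pd16 a 268435456)) * h2

/-- A `3 × 3` matrix of determinant one with orthonormal columns lies in `SU₃(4)`. -/
theorem su3_of_unitary16 [CharP F 2] (M : Matrix (Fin 3) (Fin 3) F) (hdet : M.det = 1)
    (hU : ∀ j k : Fin 3, ∑ i, M i j * (M i k) ^ 4 = if j = k then 1 else 0) :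
    (⟨M, hdet⟩ : Matrix.SpecialLinearGroup (Fin 3) F) ∈ Cfsg.SU 3 F 4 := by
  haveI : Fact (Nat.Prime 2) := ⟨Nat.prime_two⟩
  have h4 : ∀ x y : F, (x + y) ^ 4 = x ^ 4 + y ^ 4 := by
    intro x y
    have := add_pow_char_pow (p := 2) (n := 2) x y
    norm_num at this
    exact this
  refine (Cfsg.Agent.Helper15.mem_SU_iff 3 4
    (⟨M, hdet⟩ : Matrix.SpecialLinearGroup (Fin 3) F)).mpr ?_
  intro u v
  change Cfsg.hermForm 3 F 4 (M.mulVec u) (M.mulVec v) = Cfsg.hermForm 3 F 4 u v
  unfold Cfsg.hermForm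
  simp only [Matrix.mulVec, dotProduct, Fin.sum_univ_three]
  have h00 := hU 0 0
  have h01 := hU 0 1
  have h02 := hU 0 2
  have h10 := hU 1 0
  have h11 := hU 1 1
  have h12 := hU 1 2
  have h20 := hU 2 0
  have h21 := hU 2 1
  have h22 := hU 2 2
  rw [if_pos rfl] at h00 h11 h22
  rw [if_neg (by decide)] at h01 h02 h10 h12 h20 h21
  simp only [Fin.sum_univ_three] at h00 h01 h02 h10 h11 h12 h20 h21 h22
  simp only [h4, mul_pow]
  linear_combination (u 0 * v 0 ^ 4) * h00 + (u 0 * v 1 ^ 4) * h01 + (u 0 * v 2 ^ 4) * h02 +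
    (u 1 * v 0 ^ 4) * h10 + (u 1 * v 1 ^ 4) * h11 + (u 1 * v 2 ^ 4) * h12 +
    (u 2 * v 0 ^ 4) * h20 + (u 2 * v 1 ^ 4) * h21 + (u 2 * v 2 ^ 4) * h22

/-- An element of `SU₃(4)` from a packed code passing the checks. -/
def su16mk [CharP F 2] (w : F) (hw : w ^ 4 = w + 1) (a : ℕ)
    (hu : puni16 a = true) (hd : pdet16 a = 1) : Cfsg.SU 3 F 4 :=
  ⟨⟨cdec16 w (cnum16 a), by rw [cdec16_det w hw, hd, dec16_one]⟩,
    su3_of_unitary16 _ _ (puni16_spec w hw a hu)⟩

theorem su16mk_val [CharP F 2] (w : F) (hw : w ^ 4 = w + 1) (a : ℕ)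
    (hu : puni16 a = true) (hd : pdet16 a = 1) :
    ((su16mk w hw a hu hd : Cfsg.SU 3 F 4) : Matrix.SpecialLinearGroup (Fin 3) F).1 =
      cdec16 w (cnum16 a) := rfl

end F16

end Cfsg.Agent.Helper2
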