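import Mathlib
import Cfsg.Agent.Helper2.U34Mat
import Cfsg.Agent.Helper2.U34Data
import Cfsg.Agent.Helper2.U34Abs
import Cfsg.Agent.Helper15.SUCard
import Cfsg.Agent.Helper15.SUCenter

set_option autoImplicit false

namespace Cfsg.Agent.Helper2

section F16spec

variable {F : Type*} [Field F]

theorem f16_charP [Fintype F] (hF : Fintype.card F = 16) : CharP F 2 := by
  obtain ⟨p, hp⟩ := CharP.exists F
  obtain ⟨n, hpp, hn⟩ := FiniteField.card F p
  rw [hF] at hn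
  have h3 : p ∣ 2 ^ 4 := by
    have h : p ∣ p ^ (n : ℕ) := dvd_pow_self p n.ne_zero
    rw [← hn] at h
    exact h
  have h4 := (Nat.prime_dvd_prime_iff_eq hpp Nat.prime_two).mp (hpp.dvd_of_dvd_pow h3)
  subst h4
  exact hp

theorem f16_omega [Fintype F] (hF : Fintype.card F = 16) : ∃ w : F, w ^ 4 = w + 1 := by
  classical
  haveI := f16_charP hF
  have h2 : (2 : F) = 0 := two_eq_zero16
  have hcard : Nat.card Fˣ = 15 := by
    rw [Nat.card_eq_fintype_card, Fintype.card_units, hF]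
  obtain ⟨g, hg⟩ := IsCyclic.exists_ofOrder_eq_natCard (α := Fˣ)
  rw [hcard] at hg
  have h15 : (g : F) ^ 15 = 1 := by
    have h := pow_orderOf_eq_one g
    rw [hg] at h
    have h' := congrArg Units.val h
    simpa using h'
  have h3 : (g : F) ^ 3 ≠ 1 := by
    intro h
    have h' : g ^ 3 = 1 := Units.ext (by simpa using h)
    have hd := orderOf_dvd_of_pow_eq_one h'
    rw [hg] at hd
    norm_num at hd
  have h5 : (g : F) ^ 5 ≠ 1 := by
    intro h
    have h' : g ^ 5 = 1 := Units.ext (by simpa using h)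
    have hd := orderOf_dvd_of_pow_eq_one h'
    rw [hg] at hd
    norm_num at hd
  have hxy : (g : F) * ((g⁻¹ : Fˣ) : F) = 1 := by
    rw [← Units.val_mul, mul_inv_cancel, Units.val_one]
  generalize ((g⁻¹ : Fˣ) : F) = y at hxy
  generalize (g : F) = x at h15 h3 h5 hxy
  have hprod : (x + 1) * (x ^ 2 + x + 1) * (x ^ 4 + x ^ 3 + x ^ 2 + x + 1) * (x ^ 4 + x + 1) *
      (x ^ 4 + x ^ 3 + 1) = 0 := by
    linear_combination h15 + (1 + 2 * x ^ 1 + 4 * x ^ 2 + 6 * x ^ 3 + 9 * x ^ 4 + 13 * x ^ 5 +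
      16 * x ^ 6 + 17 * x ^ 7 + 17 * x ^ 8 + 16 * x ^ 9 + 13 * x ^ 10 + 9 * x ^ 11 + 6 * x ^ 12 +
      4 * x ^ 13 + 2 * x ^ 14) * h2
  rcases mul_eq_zero.mp hprod with hp | hp
  · rcases mul_eq_zero.mp hp with hp | hp
    · rcases mul_eq_zero.mp hp with hp | hp
      · rcases mul_eq_zero.mp hp with hp | hp
        · exfalso
          apply h3
          linear_combination (x ^ 2 - x + 1) * hp - h2
        · exfalso
          apply h3
          linear_combination (x - 1) * hp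
      · exfalso
        apply h5
        linear_combination (x - 1) * hp
    · exact ⟨x, by linear_combination hp - (x + 1) * h2⟩
  · refine ⟨y, ?_⟩
    linear_combination y ^ 4 * hp - (((x * y) ^ 3 + (x * y) ^ 2 + x * y + 1) +
      y * ((x * y) ^ 2 + x * y + 1)) * hxy - (y + 1) * h2

theorem su34_card [Fintype F] (hF : Fintype.card F = 16) : Nat.card (Cfsg.SU 3 F 4) = 62400 := by
  have h := Cfsg.Agent.Helper15.card_SU (K := F) (q := 4) (by rw [hF]; norm_num) 3 (by norm_num)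
  have hp : (∏ i ∈ Finset.range 3, (if Even i then 4 ^ (i + 1) + 1 else 4 ^ (i + 1) - 1)) = 4875 := by
    decide
  rw [hp] at h
  norm_num at h
  omega

theorem any_beq_mem (L : List ℕ) (x : ℕ) (h : (L.any fun c => Nat.beq x c) = true) : x ∈ L := by
  rw [List.any_eq_true] at h
  obtain ⟨c, hc, hxc⟩ := h
  rw [Nat.eq_of_beq_eq_true hxc]
  exact hc

theorem u34L_spec (a : ℕ) (ha : a ∈ u34L) : a < 16 ^ 9 ∧ puni16 a = true ∧ pdet16 a = 1 := by
  have h := u34L_chk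
  rw [List.all_eq_true] at h
  have h1 := h a ha
  rw [Bool.and_eq_true, Bool.and_eq_true] at h1
  obtain ⟨⟨h1, h2⟩, h3⟩ := h1
  refine ⟨?_, h2, Nat.eq_of_beq_eq_true h3⟩
  have h5 : Nat.succ a ≤ 68719476736 := Nat.le_of_ble_eq_true h1
  have h6 : (16 : ℕ) ^ 9 = 68719476736 := by norm_num
  rw [h6]
  exact h5

theorem u34L_mul_mem (a b : ℕ) (ha : a ∈ u34L) (hb : b ∈ u34L) : pmul16 a b ∈ u34L := by
  have h := u34L_closed
  rw [List.all_eq_true] at h
  have h1 := h a ha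
  rw [List.all_eq_true] at h1
  exact any_beq_mem _ _ (h1 b hb)

theorem u34L_one_mem : pone16 ∈ u34L := any_beq_mem _ _ u34L_one

/-- The element of `SU₃(4)` with a given code (`1` for bad codes). -/
noncomputable def u34mk [CharP F 2] (w : F) (hw : w ^ 4 = w + 1) (a : ℕ) : Cfsg.SU 3 F 4 :=
  if h : puni16 a = true ∧ pdet16 a = 1 then su16mk w hw a h.1 h.2 else 1

theorem u34mk_val [CharP F 2] (w : F) (hw : w ^ 4 = w + 1) (a : ℕ) (ha : a ∈ u34L) :
    ((u34mk w hw a : Cfsg.SU 3 F 4) : Matrix.SpecialLinearGroup (Fin 3) F).1 =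
      cdec16 w (cnum16 a) := by
  have h := u34L_spec a ha
  unfold u34mk
  rw [dif_pos ⟨h.2.1, h.2.2⟩]
  rfl

theorem su16_ext (g g' : Cfsg.SU 3 F 4)
    (h : ((g : Matrix.SpecialLinearGroup (Fin 3) F).1) =
      ((g' : Matrix.SpecialLinearGroup (Fin 3) F).1)) : g = g' :=
  Subtype.ext (Subtype.ext h)

theorem su16_mul_val (g g' : Cfsg.SU 3 F 4) :
    ((g * g' : Cfsg.SU 3 F 4) : Matrix.SpecialLinearGroup (Fin 3) F).1 =
      ((g : Matrix.SpecialLinearGroup (Fin 3) F).1) *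
        ((g' : Matrix.SpecialLinearGroup (Fin 3) F).1) := rfl

theorem su16_one_val :
    (((1 : Cfsg.SU 3 F 4) : Matrix.SpecialLinearGroup (Fin 3) F).1) = 1 := rfl

theorem u34mk_mul [CharP F 2] (w : F) (hw : w ^ 4 = w + 1) (a b : ℕ) (ha : a ∈ u34L)
    (hb : b ∈ u34L) : u34mk w hw (pmul16 a b) = u34mk w hw a * u34mk w hw b := by
  apply su16_ext
  rw [su16_mul_val, u34mk_val w hw _ (u34L_mul_mem a b ha hb), u34mk_val w hw a ha,
    u34mk_val w hw b hb, pdec16_mul w hw]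

theorem u34mk_one [CharP F 2] (w : F) (hw : w ^ 4 = w + 1) : u34mk w hw pone16 = 1 := by
  apply su16_ext
  rw [u34mk_val w hw _ u34L_one_mem, pdec16_one, su16_one_val]

theorem u34mk_inj [CharP F 2] (w : F) (hw : w ^ 4 = w + 1) (a b : ℕ) (ha : a ∈ u34L)
    (hb : b ∈ u34L) (h : u34mk w hw a = u34mk w hw b) : a = b := by
  apply pdec16_inj w hw a b (u34L_spec a ha).1 (u34L_spec b hb).1
  rw [← u34mk_val w hw a ha, ← u34mk_val w hw b hb, h]

theorem u34mk_pow4 [CharP F 2] (w : F) (hw : w ^ 4 = w + 1) (a : ℕ) (ha : a ∈ u34L) :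
    u34mk w hw a * u34mk w hw a * (u34mk w hw a * u34mk w hw a) = 1 := by
  have h := u34L_c7
  rw [List.all_eq_true] at h
  have h1 : pmul16 (pmul16 a a) (pmul16 a a) = pone16 := Nat.eq_of_beq_eq_true (h a ha)
  have h2 := u34L_mul_mem a a ha ha
  rw [← u34mk_mul w hw a a ha ha, ← u34mk_mul w hw _ _ h2 h2, h1, u34mk_one]

/-- An explicit Sylow 2-subgroup of `SU₃(4)`. -/
noncomputable def u34S [CharP F 2] (w : F) (hw : w ^ 4 = w + 1) : Subgroup (Cfsg.SU 3 F 4) where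
  carrier := {g | ∃ a ∈ u34L, u34mk w hw a = g}
  mul_mem' := by
    rintro _ _ ⟨a, ha, rfl⟩ ⟨b, hb, rfl⟩
    exact ⟨pmul16 a b, u34L_mul_mem a b ha hb, u34mk_mul w hw a b ha hb⟩
  one_mem' := ⟨pone16, u34L_one_mem, u34mk_one w hw⟩
  inv_mem' := by
    rintro _ ⟨a, ha, rfl⟩
    have h2 := u34L_mul_mem a a ha ha
    refine ⟨pmul16 (pmul16 a a) a, u34L_mul_mem _ _ h2 ha, ?_⟩
    rw [u34mk_mul w hw _ _ h2 ha, u34mk_mul w hw a a ha ha]
    apply eq_inv_of_mul_eq_one_left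
    have h4 := u34mk_pow4 w hw a ha
    rw [mul_assoc] at h4 ⊢
    rw [mul_assoc]
    exact h4

theorem u34S_facts [CharP F 2] (w : F) (hw : w ^ 4 = w + 1) : U34Facts (u34S w hw) := by
  classical
  let φ : ℕ → u34S w hw := fun a =>
    if h : a ∈ u34L then ⟨u34mk w hw a, a, h, rfl⟩ else 1
  have hφ : ∀ a (h : a ∈ u34L), φ a = ⟨u34mk w hw a, a, h, rfl⟩ := by
    intro a h
    show (if h : a ∈ u34L then (⟨u34mk w hw a, a, h, rfl⟩ : u34S w hw) else 1) = _
    rw [dif_pos h]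
  refine u34_facts_of_codes φ u34L pmul16 pone16 ?_ ?_ ?_ ?_ u34L_nodup u34L_length u34L_c5
    u34L_c6 u34L_c7 u34L_c8 u34L_c9
  · intro x
    obtain ⟨a, ha, hax⟩ := x.2
    exact ⟨a, ha, by rw [hφ a ha]; exact Subtype.ext hax⟩
  · intro a ha b hb hab
    rw [hφ a ha, hφ b hb] at hab
    exact u34mk_inj w hw a b ha hb (congrArg Subtype.val hab)
  · intro a ha b hb
    refine ⟨u34L_mul_mem a b ha hb, ?_⟩
    rw [hφ a ha, hφ b hb, hφ _ (u34L_mul_mem a b ha hb)]
    exact Subtype.ext (u34mk_mul w hw a b ha hb)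
  · refine ⟨u34L_one_mem, ?_⟩
    rw [hφ _ u34L_one_mem]
    exact Subtype.ext (u34mk_one w hw)

/-- The elementwise facts for every Sylow 2-subgroup of `PSU₃(4)`. -/
theorem u34_main [Fintype F] (hF : Fintype.card F = 16) (S : Sylow 2 (Cfsg.PSU 3 F 4)) :
    U34Facts (S : Subgroup (Cfsg.PSU 3 F 4)) := by
  haveI := f16_charP hF
  obtain ⟨w, hw⟩ := f16_omega hF
  haveI : Fact (Nat.Prime 2) := ⟨Nat.prime_two⟩
  have hc : Subgroup.center (Cfsg.SU 3 F 4) = ⊥ := by
    have h := Cfsg.Agent.Helper15.card_center_SU (K := F) (q := 4) (by rw [hF]; norm_num) 3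
      (by norm_num)
    exact Subgroup.eq_bot_of_card_eq _ (by rw [h]; rfl)
  let Φ : Cfsg.PSU 3 F 4 ≃* Cfsg.SU 3 F 4 :=
    (QuotientGroup.quotientMulEquivOfEq hc).trans QuotientGroup.quotientBot
  let T : Subgroup (Cfsg.PSU 3 F 4) := (u34S w hw).map Φ.symm.toMonoidHom
  let eT : u34S w hw ≃* T := (u34S w hw).equivMapOfInjective Φ.symm.toMonoidHom Φ.symm.injective
  have hT : U34Facts T := (u34S_facts w hw).of_equiv eT
  have hcardG : Nat.card (Cfsg.PSU 3 F 4) = 62400 := by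
    rw [Nat.card_congr Φ.toEquiv]
    exact su34_card hF
  have hfact : (Nat.card (Cfsg.PSU 3 F 4)).factorization 2 = 6 := by
    rw [hcardG]
    have h1 : (62400 : ℕ) = 2 ^ 6 * 975 := by norm_num
    rw [h1, Nat.factorization_mul (by norm_num) (by norm_num)]
    have h2 : (975 : ℕ).factorization 2 = 0 :=
      Nat.factorization_eq_zero_of_not_dvd (by norm_num)
    have h3 : ((2 : ℕ) ^ 6).factorization 2 = 6 := by
      rw [Nat.Prime.factorization_pow Nat.prime_two]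
      simp
    rw [Finsupp.add_apply, h2, h3]
  haveI : Finite (Cfsg.PSU 3 F 4) := Nat.finite_of_card_ne_zero (by rw [hcardG]; norm_num)
  let T' : Sylow 2 (Cfsg.PSU 3 F 4) := Sylow.ofCard T (by rw [hT.card, hfact]; norm_num)
  have e : (T' : Subgroup (Cfsg.PSU 3 F 4)) ≃* (S : Subgroup (Cfsg.PSU 3 F 4)) := Sylow.equiv T' S
  have hT' : U34Facts (T' : Subgroup (Cfsg.PSU 3 F 4)) := hT
  exact hT'.of_equiv e

end F16spec

end Cfsg.Agent.Helper2
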