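import Mathlib
import Cfsg.Agent.Helper2.U34Spec
import Cfsg.Agent.Helper2.U34Abs2
import Cfsg.Agent.Helper2.U34Data2

set_option autoImplicit false

namespace Cfsg.Agent.Helper2

section F16spec2

variable {F : Type*} [Field F]

theorem u34S_extra [CharP F 2] (w : F) (hw : w ^ 4 = w + 1) : U34Extra (u34S w hw) := by
  classical
  let φ : ℕ → u34S w hw := fun a =>
    if h : a ∈ u34L then ⟨u34mk w hw a, a, h, rfl⟩ else 1
  have hφ : ∀ a (h : a ∈ u34L), φ a = ⟨u34mk w hw a, a, h, rfl⟩ := by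
    intro a h
    show (if h : a ∈ u34L then (⟨u34mk w hw a, a, h, rfl⟩ : u34S w hw) else 1) = _
    rw [dif_pos h]
  refine u34_extra_of_codes φ u34L pmul16 pone16 ?_ ?_ ?_ ?_ u34L_nodup u34L_c10 u34L_c11
  · intro x
    obtain ⟨a, ha, hax⟩ := x.2
    exact ⟨a, ha, by rw [hφ a ha]; exact Subtype.ext hax⟩
  · intro a ha b hb hab
    rw [hφ a ha, hφ b hb] at hab
    exact u34mk_inj w hw a b ha hb (congrArg Subtype.val hab)
  · intro a ha b hb
    refine ⟨u34L_mul_mem a b ha hb, ?_⟩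
    rw [hφ a ha, hφ b hb, hφ _ (u34L_mul_mem a b ha hb)]
    exact Subtype.ext (u34mk_mul w hw a b ha hb)
  · refine ⟨u34L_one_mem, ?_⟩
    rw [hφ _ u34L_one_mem]
    exact Subtype.ext (u34mk_one w hw)

/-- The elementwise facts (both families) for every Sylow 2-subgroup of `PSU₃(4)`. -/
theorem u34_both [Fintype F] (hF : Fintype.card F = 16) (S : Sylow 2 (Cfsg.PSU 3 F 4)) :
    U34Facts (S : Subgroup (Cfsg.PSU 3 F 4)) ∧ U34Extra (S : Subgroup (Cfsg.PSU 3 F 4)) := by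
  haveI := f16_charP hF
  obtain ⟨w, hw⟩ := f16_omega hF
  haveI : Fact (Nat.Prime 2) := ⟨Nat.prime_two⟩
  have hc : Subgroup.center (Cfsg.SU 3 F 4) = ⊥ := by
    have h := Cfsg.Agent.Helper15.card_center_SU (K := F) (q := 4) (by rw [hF]; norm_num) 3
      (by norm_num)
    exact Subgroup.eq_bot_of_card_eq _ (by rw [h]; rfl)
  let Φ : Cfsg.PSU 3 F 4 ≃* Cfsg.SU 3 F 4 :=
    (QuotientGroup.quotientMulEquivOfEq hc).trans QuotientGroup.quotientBot
  let T : Subgroup (Cfsg.PSU 3 F 4) := (u34S w hw).map Φ.symm.toMonoidHom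
  let eT : u34S w hw ≃* T := (u34S w hw).equivMapOfInjective Φ.symm.toMonoidHom Φ.symm.injective
  have hT : U34Facts T := (u34S_facts w hw).of_equiv eT
  have hT2 : U34Extra T := (u34S_extra w hw).of_equiv eT
  have hcardG : Nat.card (Cfsg.PSU 3 F 4) = 62400 := by
    rw [Nat.card_congr Φ.toEquiv]
    exact su34_card hF
  have hfact : (Nat.card (Cfsg.PSU 3 F 4)).factorization 2 = 6 := by
    rw [hcardG]
    have h1 : (62400 : ℕ) = 2 ^ 6 * 975 := by norm_num
    rw [h1, Nat.factorization_mul (by norm_num) (by norm_num)]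
    have h2 : (975 : ℕ).factorization 2 = 0 :=
      Nat.factorization_eq_zero_of_not_dvd (by norm_num)
    have h3 : ((2 : ℕ) ^ 6).factorization 2 = 6 := by
      rw [Nat.Prime.factorization_pow Nat.prime_two]
      simp
    rw [Finsupp.add_apply, h2, h3]
  haveI : Finite (Cfsg.PSU 3 F 4) := Nat.finite_of_card_ne_zero (by rw [hcardG]; norm_num)
  let T' : Sylow 2 (Cfsg.PSU 3 F 4) := Sylow.ofCard T (by rw [hT.card, hfact]; norm_num)
  have e : (T' : Subgroup (Cfsg.PSU 3 F 4)) ≃* (S : Subgroup (Cfsg.PSU 3 F 4)) := Sylow.equiv T' S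
  have hT' : U34Facts (T' : Subgroup (Cfsg.PSU 3 F 4)) := hT
  have hT2' : U34Extra (T' : Subgroup (Cfsg.PSU 3 F 4)) := hT2
  exact ⟨hT'.of_equiv e, hT2'.of_equiv e⟩

end F16spec2

end Cfsg.Agent.Helper2
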